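import Cfsg.Statements.S4958
import Cfsg.Agent.Lib.Lead.Knorr2

set_option autoImplicit false
open Cfsg

namespace Cfsg.Agent.S4958

/-- Let X be a finite group and V a normal subgroup of X in which every element has order dividing the prime p, whose index in X is prime to p and which is its own centralizer in X; so V is an elementary abelian normal Sylow p-subgroup, and any complement G to V in X is a group of order prime to p acting faithfully on the vector space V by conjugation (the coprime linear setting of the k(GV) problem). Let G be a complement to V in X and suppose that for some v in V the centralizer of v in G is abelian. Then the number of conjugacy classes of X is at most the order of V (the abelian-stabilizer criterion for the k(GV) problem). -/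
theorem result {X : Type*} [Group X] [Finite X] (p : ℕ) [Fact p.Prime] (V : Subgroup X) [V.Normal] (hVexp : ∀ v ∈ V, v ^ p = 1) (hidx : ¬ p ∣ V.index) (hself : Subgroup.centralizer (V : Set X) = V) (G : Subgroup X) (hGV : Subgroup.IsComplement' V G) (v : X) (hv : v ∈ V) (hab : ∀ a ∈ G ⊓ Subgroup.centralizer ({v} : Set X), ∀ b ∈ G ⊓ Subgroup.centralizer ({v} : Set X), a * b = b * a) : Nat.card (ConjClasses X) ≤ Nat.card V := by
  have hp : p.Prime := Fact.out
  obtain ⟨M, hM, hpM⟩ := H4.exists_maximal_algInt hp
  have := hM.isPrime
  have hVp : IsPGroup p V := fun g => ⟨1, Subtype.ext (by simpa using hVexp g g.2)⟩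
  have habV : ∀ a ∈ V, ∀ b ∈ V, a * b = b * a := fun a ha b hb =>
    (Subgroup.mem_centralizer_iff.1 (hself.symm ▸ hb : b ∈ Subgroup.centralizer (V : Set X))) a ha
  set H := G ⊓ Subgroup.centralizer ({v} : Set X) with hH
  obtain ⟨W, _, _, ρ, e, -, he⟩ := Lead.exists_conjRep (p := p) H V habV hVexp
    fun h _ u hu => ‹V.Normal›.conj_mem u hu h
  have : Finite W := Finite.of_equiv _ e.symm
  have hc : (Nat.card H : ZMod p) ≠ 0 := by
    rw [Ne, ZMod.natCast_eq_zero_iff]
    intro h
    exact hidx (hGV.symm.index_eq_card ▸ h.trans (Subgroup.card_dvd_of_le inf_le_left))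
  obtain ⟨ψ, hψ⟩ : ∃ ψ, Lead.KGood M ρ ψ := by
    let _ : CommGroup H := { (inferInstance : Group H) with
      mul_comm := fun a b => Subtype.ext (hab a a.2 b b.2) }
    exact Lead.exists_KGood_of_comm hc hpM _ ρ rfl
  refine Lead.knorr_of_KGood hVexp hidx habV hGV hv hpM hH le_rfl (fun h hh h1 => ?_) e he hψ
  have h2 : h ∈ V := by
    rw [← hself, Subgroup.mem_centralizer_iff]
    intro u hu
    have := h1 u hu
    rw [mul_inv_eq_iff_eq_mul] at this; exact this.symm
  exact Subgroup.disjoint_def.1 hGV.disjoint h2 hh.1

end Cfsg.Agent.S4958
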