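import Cfsg.Statements.S4911
import Cfsg.Agent.Lib.H4.Glauberman2
import Cfsg.Agent.Lib.H2.AbAct

set_option autoImplicit false
open Cfsg

namespace Cfsg.Agent.S4911

/-- Let P and K be subgroups of a finite group with P a p-group normalizing K and K of order prime to p. Then the number of P-invariant real-valued irreducible complex characters of K equals the number of conjugacy classes of K that are real (closed under inversion) and P-invariant. Moreover, if every real-valued irreducible character of K is P-invariant, then every real element of K (one conjugate in K to its inverse) is conjugate in K to an element centralized by P. -/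
theorem result {G : Type*} [Group G] [Finite G] (p : ℕ) [Fact p.Prime] (P K : Subgroup G) (hP : IsPGroup p ↥P) (hK : ¬ p ∣ Nat.card ↥K) (hPK : P ≤ Subgroup.normalizer (K : Set G)) : Nat.card {θ : Cfsg.IrrCharacter ↥K // (∀ k : ↥K, ((θ : ↥K → ℂ) k).im = 0) ∧ (∀ x ∈ P, ∀ k k' : ↥K, (k' : G) = x * (k : G) * x⁻¹ → (θ : ↥K → ℂ) k' = (θ : ↥K → ℂ) k)} = Nat.card {c : ConjClasses ↥K // (∀ k : ↥K, ConjClasses.mk k = c → IsConj k k⁻¹) ∧ ∀ k : ↥K, ConjClasses.mk k = c → ∀ x ∈ P, ∀ k' : ↥K, (k' : G) = x * (k : G) * x⁻¹ → ConjClasses.mk k' = c} ∧ ((∀ θ : Cfsg.IrrCharacter ↥K, (∀ k : ↥K, ((θ : ↥K → ℂ) k).im = 0) → (∀ x ∈ P, ∀ k k' : ↥K, (k' : G) = x * (k : G) * x⁻¹ → (θ : ↥K → ℂ) k' = (θ : ↥K → ℂ) k)) → ∀ k : ↥K, IsConj k k⁻¹ → ∃ k' : ↥K, IsConj k k' ∧ ∀ x ∈ P, x * (k' : G) * x⁻¹ = (k' : G)) := by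
  letI := H2.conjAction hPK
  have h1 : ∀ θ : K → ℂ, (∀ x ∈ P, ∀ k k' : K, (k' : G) = x * (k : G) * x⁻¹ → θ k' = θ k) ↔
      H4.Inv P θ := fun θ =>
    ⟨fun h a k => h a a.2 k _ rfl, fun h x hx k k' hk => by
      rw [← h ⟨x, hx⟩ k]; exact congrArg θ (Subtype.ext hk)⟩
  simp only [h1]
  refine ⟨?_, fun h k hk => ?_⟩
  · rw [H4.card_real_inv_irr hP hK]
    refine Nat.card_congr (Equiv.subtypeEquivRight fun c => and_congr_right fun _ => ?_)
    exact ⟨fun h k hk x hx k' hk' => by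
      rw [← h k hk ⟨x, hx⟩]; exact congrArg ConjClasses.mk (Subtype.ext hk'),
      fun h k hk a => h k hk a a.2 _ rfl⟩
  · obtain ⟨c, hc, hc'⟩ := H4.exists_fixed_of_real hP hK h hk
    exact ⟨c, hc, fun x hx => congrArg Subtype.val (hc' ⟨x, hx⟩)⟩

end Cfsg.Agent.S4911
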