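import Cfsg.Statements.S4914
import Cfsg.Agent.Lib.H4.Glauberman2
import Cfsg.Agent.Lib.H2.AbAct

set_option autoImplicit false
open Cfsg

namespace Cfsg.Agent.S4914

/-- Let P and K be subgroups of a finite group G with P a p-group normalizing K, and suppose K has a normal Sylow p-subgroup Q. Let C be the subgroup of those k ∈ K whose commutator with every element of P lies in Q (so that C/Q is the fixed-point subgroup of P on K/Q). Then there is a bijection f from the P-invariant irreducible complex characters of K onto the P-invariant irreducible complex characters of C such that, for every P-invariant irreducible character χ of K, the multiplicity of f(χ) in the restriction of χ to C is a natural number congruent to 1 or to −1 modulo p, every other P-invariant irreducible character of C occurs in that restriction with multiplicity divisible by p, and the degrees of χ and f(χ) are congruent modulo p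 up to sign. -/
theorem result {G : Type*} [Group G] [Finite G] (p : ℕ) [Fact p.Prime] (P K Q C : Subgroup G) (hP : IsPGroup p ↥P) (hPK : P ≤ Subgroup.normalizer (K : Set G)) (hQK : Q ≤ K) (hQn : ∀ k ∈ K, ∀ q ∈ Q, k * q * k⁻¹ ∈ Q) (hQp : ∃ a : ℕ, Nat.card ↥Q = p ^ a) (hQsyl : ¬ p ∣ Q.relIndex K) (hCK : C ≤ K) (hC : ∀ k : G, k ∈ C ↔ (k ∈ K ∧ ∀ x ∈ P, x * k * x⁻¹ * k⁻¹ ∈ Q)) : ∃ f : {χ : Cfsg.IrrCharacter ↥K // (∀ x ∈ P, ∀ k k' : ↥K, (k' : G) = x * (k : G) * x⁻¹ → (χ : ↥K → ℂ) k' = (χ : ↥K → ℂ) k)} → {ξ : Cfsg.IrrCharacter ↥C // (∀ x ∈ P, ∀ k k' : ↥C, (k' : G) = x * (k : G) * x⁻¹ → (ξ : ↥C → ℂ) k' = (ξ : ↥C → ℂ) k)}, Function.Bijective f ∧ ∀ χ, (∀ ξ : {ξ : Cfsg.IrrCharacter ↥C // (∀ x ∈ P, ∀ k k' : ↥C, (k' : G) = x * (k : G) * x⁻¹ → (ξ : ↥C → ℂ) k' = (ξ : ↥C → ℂ) k)}, ∃ m : ℕ, (Nat.card ↥C : ℂ)⁻¹ * ∑ᶠ c : ↥C, (χ.1 : ↥K → ℂ) (Subgroup.inclusion hCK c) * (starRingEnd ℂ) ((ξ.1 : ↥C → ℂ) c) = (m : ℂ) ∧ (ξ =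 f χ → ((m : ZMod p) = 1 ∨ (m : ZMod p) = -1)) ∧ (ξ ≠ f χ → p ∣ m)) ∧ ((Cfsg.charDegree ((f χ).1 : ↥C → ℂ) : ZMod p) = (Cfsg.charDegree (χ.1 : ↥K → ℂ) : ZMod p) ∨ (Cfsg.charDegree ((f χ).1 : ↥C → ℂ) : ZMod p) = -(Cfsg.charDegree (χ.1 : ↥K → ℂ) : ZMod p)) := by
  classical
  have := Fintype.ofFinite K
  have := Fintype.ofFinite C
  letI := H2.conjAction hPK
  let N : Subgroup K := Q.subgroupOf K
  have hN : N.Normal := ⟨fun n hn k => hQn k k.2 n hn⟩
  obtain ⟨a, ha⟩ := hQp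
  have hNa : ∀ x : P, ∀ n ∈ N, x • n ∈ N := by
    intro x n hn
    have h1 : (x • n) ^ p ^ a = 1 := by
      rw [← smul_pow', ← ha]
      have : n ^ Nat.card Q = 1 := by
        have h := congrArg Subtype.val (pow_card_eq_one' (x := (⟨n, hn⟩ : Q)))
        exact Subtype.ext h
      rw [this, smul_one]
    rw [← QuotientGroup.eq_one_iff]
    refine H6.eq_one_of_pow_coprime (p := p) (k := a) (n := N.index) ?_ pow_card_eq_one'
      ((Nat.Prime.coprime_iff_not_dvd Fact.out).mpr hQsyl)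
    rw [← QuotientGroup.mk_pow, h1, QuotientGroup.mk_one]
  letI := H4.quoAct P N hNa
  let C' : Subgroup K := C.subgroupOf K
  have hC' : ∀ k : K, k ∈ C' ↔ ∀ x : P, x • QuotientGroup.mk' N k = QuotientGroup.mk' N k := by
    intro k
    rw [Subgroup.mem_subgroupOf, hC]
    refine ⟨fun h x => ?_, fun h => ⟨k.2, fun x hx => ?_⟩⟩
    · exact (QuotientGroup.eq_iff_div_mem (N := N) (x := x • k)).mpr (by
        rw [div_eq_mul_inv]; exact h.2 x x.2)
    · have := (QuotientGroup.eq_iff_div_mem (N := N) (x := (⟨x, hx⟩ : P) • k)).mp (h ⟨x, hx⟩)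
      rw [div_eq_mul_inv] at this
      exact this
  have hCinv : ∀ x : P, ∀ c ∈ C', x • c ∈ C' := fun x c hc => (hC' _).mpr fun y => by
    have : QuotientGroup.mk' N (x • c) = QuotientGroup.mk' N c := (hC' c).mp hc x
    rw [this, (hC' c).mp hc y]
  letI := H4.resAct P C' hCinv
  obtain ⟨f, hf, hf'⟩ := H4.exists_relative_glauberman (π := QuotientGroup.mk' N) (C := C')
    (fun _ _ => rfl) hP hQsyl (QuotientGroup.mk'_surjective N)
    (fun x k => rfl)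
    (by
      rw [QuotientGroup.ker_mk']
      exact IsPGroup.of_card ((Nat.card_congr (Subgroup.subgroupOfEquivOfLe hQK).toEquiv).trans ha))
    hC'
  let e : C ≃* C' := (Subgroup.subgroupOfEquivOfLe hCK).symm
  let e1 : {χ : Cfsg.IrrCharacter ↥K // (∀ x ∈ P, ∀ k k' : ↥K, (k' : G) = x * (k : G) * x⁻¹ →
      (χ : ↥K → ℂ) k' = (χ : ↥K → ℂ) k)} ≃ {χ : IrrCharacter K // H4.Inv P (χ : K → ℂ)} :=
    Equiv.subtypeEquivRight fun θ => ⟨fun h a k => h a a.2 k _ rfl, fun h x hx k k' hk => by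
      rw [← h ⟨x, hx⟩ k]; exact congrArg (θ : K → ℂ) (Subtype.ext hk)⟩
  let e2 : {ξ : IrrCharacter C' // H4.Inv P (ξ : C' → ℂ)} ≃
      {ξ : Cfsg.IrrCharacter ↥C // (∀ x ∈ P, ∀ k k' : ↥C, (k' : G) = x * (k : G) * x⁻¹ →
      (ξ : ↥C → ℂ) k' = (ξ : ↥C → ℂ) k)} :=
    (H3.irrEquivOfMulEquiv e).subtypeEquiv fun ξ => ⟨fun h x hx k k' hk => by
      rw [H3.irrEquivOfMulEquiv_apply, H3.irrEquivOfMulEquiv_apply, ← h ⟨x, hx⟩ (e k)]
      exact congrArg (ξ : C' → ℂ) (Subtype.ext (Subtype.ext hk)),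
      fun h a k => h a a.2 (e.symm k) (e.symm (a • k)) rfl⟩
  refine ⟨fun χ => e2 (f (e1 χ)), e2.bijective.comp (hf.comp e1.bijective), fun χ => ⟨fun ξ => ?_, ?_⟩⟩
  · obtain ⟨ξ, rfl⟩ := e2.surjective ξ
    refine ⟨H4.mult (fun c : C' => (χ.1 : K → ℂ) c) ξ.1, ?_, fun h => ?_, fun h => ?_⟩
    · rw [H4.mult_cast (H3.IsCharacter_restrict C' (H4.irr_isChar χ.1)) (H4.irr_isChar ξ.1),
        ← H4.classInner_comp_equiv e.toEquiv, finsum_eq_sum_of_fintype]
      rfl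
    · rw [e2.injective h]
      exact (hf' (e1 χ)).1
    · exact (hf' (e1 χ)).2.1 ξ fun h' => h (by rw [h'])
  · have := (hf' (e1 χ)).2.2
    rwa [← H4.charDegree_comp e.toMonoidHom ((f (e1 χ)).1 : C' → ℂ)] at this

end Cfsg.Agent.S4914
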