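import Cfsg.Statements.S4916
import Cfsg.Agent.Lib.H5.Dom

set_option autoImplicit false
open Cfsg

namespace Cfsg.Agent.S4916

/-- Let G be a finite group, p a prime and M a maximal ideal of the algebraic integers containing p. Then the principal character is the only irreducible character of degree prime to p in the principal p-block of G if and only if p does not divide the order of G. -/
theorem result {G : Type*} [Group G] [Finite G] (p : ℕ) [Fact p.Prime] (M : Ideal Cfsg.AlgInt) (hM : Cfsg.IsPModular p M) : (∀ χ : Cfsg.IrrCharacter G, χ ∈ Cfsg.principalBlock M G → ¬ p ∣ Cfsg.charDegree (χ : G → ℂ) → (χ : G → ℂ) = fun _ => (1 : ℂ)) ↔ ¬ p ∣ Nat.card G := by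
  have : H5.PMod p M := ⟨hM⟩
  refine ⟨fun h hG => ?_, fun hG χ hχ _ => ?_⟩
  · obtain ⟨χ, h1, h2, h3⟩ := H5.exists_ne_triv_principal (M := M) hG
    exact h3 (Subtype.ext (h χ h1 h2))
  · rw [H3.eq_of_sameBlock_of_not_dvd hG (H5.mem_principal.1 hχ)]; rfl

end Cfsg.Agent.S4916
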