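import Cfsg.Statements.S4923
import Cfsg.Agent.Lib.Lead.Taussky
import Cfsg.Agent.Lib.H6.MaxClass

set_option autoImplicit false
open Cfsg

namespace Cfsg.Agent.S4923

/-- Let G be a finite group with Sylow 2-subgroup P of order 2^n ≥ 8, and let ζ be a primitive 2^(n−1)-th root of unity in ℂ. Then the commutator subgroup of P has index 4 in P if and only if there is an element g of P whose conjugacy class in G has even size and such that the field generated over ℚ by the values at g of all irreducible complex characters of G equals ℚ(ζ + ζ⁻¹) or ℚ(ζ − ζ⁻¹). -/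
theorem result {G : Type*} [Group G] [Finite G] (P : Sylow 2 G) (n : ℕ) (hn : 3 ≤ n) (hP : Nat.card P = 2 ^ n) (ζ : ℂ) (hζ : IsPrimitiveRoot ζ (2 ^ (n - 1))) :
    (commutator ↥P).index = 4 ↔
      ∃ g : G, g ∈ (P : Subgroup G) ∧ 2 ∣ (Subgroup.centralizer ({g} : Set G)).index ∧
        (IntermediateField.adjoin ℚ {z : ℂ | ∃ χ : Cfsg.IrrCharacter G, (χ : G → ℂ) g = z} = IntermediateField.adjoin ℚ ({ζ + ζ⁻¹} : Set ℂ) ∨
          IntermediateField.adjoin ℚ {z : ℂ | ∃ χ : Cfsg.IrrCharacter G, (χ : G → ℂ) g = z} = IntermediateField.adjoin ℚ ({ζ - ζ⁻¹} : Set ℂ)) := by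
  classical
  change (commutator (P : Subgroup G)).index = 4 ↔ _
  replace hP : Nat.card (P : Subgroup G) = 2 ^ n := hP
  obtain ⟨r, rfl⟩ : ∃ r, n = r + 3 := ⟨n - 3, by omega⟩
  clear hn
  rw [show r + 3 - 1 = r + 2 from rfl] at hζ
  set N := 2 ^ (r + 2) with hN
  have hN0 : N ≠ 0 := by positivity
  have hP2 : IsPGroup 2 P := P.isPGroup'
  have hζ0 : ζ ≠ 0 := hζ.ne_zero hN0
  have hζh : ζ ^ 2 ^ (r + 1) = -1 :=
    (hζ.pow (n := N) (by positivity) (pow_succ 2 (r + 1))).eq_neg_one_of_two_right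
  have hζint : IsIntegral ℚ ζ ∧ IsIntegral ℚ ζ⁻¹ :=
    ⟨(hζ.isIntegral (by positivity)).tower_top, (hζ.inv.isIntegral (by positivity)).tower_top⟩
  have hfix : ∀ (g : G) (σ : ℂ ≃+* ℂ) (M m : ℕ), g ^ M = 1 → (∀ z : ℂ, z ^ M = 1 → σ z = z ^ m) →
      ((∀ t ∈ {z : ℂ | ∃ χ : Cfsg.IrrCharacter G, (χ : G → ℂ) g = z}, σ t = t) ↔
        IsConj (g ^ m) g) := fun g σ M m hg hσ => by
    rw [H3.isConj_iff_irr]
    have := fun χ : Cfsg.IrrCharacter G => H3.IsCharacter_map_eq_pow (σ := σ.toRingHom) hσ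
      (H3.IsIrrCharacter_isCharacter χ.2) hg
    exact ⟨fun h χ => (this χ).symm.trans (h _ ⟨χ, rfl⟩), by
      rintro h _ ⟨χ, rfl⟩; exact (this χ).trans (h χ)⟩
  have hplus : ∀ w : ℂ, w ≠ 0 → (w + w⁻¹ = ζ + ζ⁻¹ ↔ w = ζ ∨ w = ζ⁻¹) := fun w hw => by
    constructor
    · intro h
      have : (w - ζ) * (w - ζ⁻¹) = 0 := by
        field_simp at h ⊢; linear_combination h
      simpa [sub_eq_zero] using this
    · rintro (rfl | rfl) <;> simp [add_comm]
  have hminus : ∀ w : ℂ, w ≠ 0 → (w - w⁻¹ = ζ - ζ⁻¹ ↔ w = ζ ∨ w = -ζ⁻¹) := fun w hw => by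
    constructor
    · intro h
      have : (w - ζ) * (w + ζ⁻¹) = 0 := by
        field_simp at h ⊢; linear_combination h
      simpa [sub_eq_zero, add_eq_zero_iff_eq_neg] using this
    · rintro (rfl | rfl)
      · rfl
      · rw [inv_neg, inv_inv]; ring
  have hstruct : ∀ g : (P : Subgroup G), orderOf g = N → (¬ ∀ a b : (P : Subgroup G), a * b = b * a) →
      (Subgroup.zpowers g).index = 2 ∧ ∃ (y : (P : Subgroup G)) (k : ℕ), y * g * y⁻¹ = g ^ k ∧ g ^ k ≠ g ∧
        g ^ (k * k) = g ∧ (∀ i : ℕ, g ^ i ∈ Subgroup.center _ ↔ g ^ (k * i) = g ^ i) ∧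
        Subgroup.center _ ≤ Subgroup.zpowers g ∧ (commutator (P : Subgroup G)).index =
          2 * Nat.card (Subgroup.center (P : Subgroup G)) := fun g hg hn => by
    have hi : (Subgroup.zpowers g).index = 2 := by
      have := (Subgroup.zpowers g).card_mul_index
      rw [Nat.card_zpowers, hg, hP, pow_succ 2 (r + 2)] at this
      exact Nat.eq_of_mul_eq_mul_left (by positivity) this
    have hA := Subgroup.normal_of_index_eq_two hi
    have hAc : ∀ a ∈ Subgroup.zpowers g, ∀ b ∈ Subgroup.zpowers g, a * b = b * a := by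
      rintro _ ⟨i, rfl⟩ _ ⟨j, rfl⟩; exact (Commute.zpow_zpow_self g i j).eq
    obtain ⟨hZ1, hZ2⟩ := Lead.index_commutator_eq_of_abelian_index_two hP2 hAc hi hn
    obtain ⟨y, hy⟩ : ∃ y : (P : Subgroup G), y * g ≠ g * y := by
      by_contra h; push Not at h
      have h1 : Subgroup.center (P : Subgroup G) = Subgroup.zpowers g :=
        le_antisymm hZ1 (Subgroup.zpowers_le.2 (Subgroup.mem_center_iff.2 h))
      have : IsCyclic ((P : Subgroup G) ⧸ Subgroup.center (P : Subgroup G)) :=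
        isCyclic_of_prime_card (p := 2) (by rw [← Subgroup.index, h1, hi])
      exact hn (commutative_of_cyclic_center_quotient
        (QuotientGroup.mk' (Subgroup.center (P : Subgroup G))) (by simp))
    obtain ⟨k, hk⟩ := mem_powers_iff_mem_zpowers.2 (hA.conj_mem g (Subgroup.mem_zpowers g) y)
    have hk : g ^ k = y * g * y⁻¹ := hk
    have hki : ∀ i : ℕ, g ^ (k * i) = y * g ^ i * y⁻¹ := fun i => by rw [pow_mul, hk, conj_pow]
    refine ⟨hi, y, k, hk.symm, fun h => hy ?_, ?_, fun i => ⟨fun h => ?_, fun h => ?_⟩, hZ1, hZ2⟩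
    · rw [← mul_inv_eq_iff_eq_mul, ← hk]; exact h
    · obtain ⟨i, hi⟩ := Subgroup.mul_self_mem_of_index_two hi y
      have hi : g ^ i = y * y := hi
      rw [hki, hk, show y * (y * g * y⁻¹) * y⁻¹ = (y * y) * g * (y * y)⁻¹ by group, ← hi]; group
    · rw [hki, Subgroup.mem_center_iff.1 h y, mul_inv_cancel_right]
    · have h' : H9.AbIdx 2 ⊤ (Subgroup.zpowers g) := ⟨hP2.to_subgroup ⊤, le_top, hAc,
        by rwa [Subgroup.relIndex_top_right], fun h => hn fun a b => h a trivial b trivial⟩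
      have := (h'.mem_center (x := y) trivial (fun h => hy (hAc _ h _ (Subgroup.mem_zpowers g)))
        (Subgroup.pow_mem _ (Subgroup.mem_zpowers g) i) (by
          rw [← mul_inv_eq_iff_eq_mul, ← hki, h])).2
      exact Subgroup.mem_center_iff.2 fun x => this x trivial
  have hζm : ∀ a b : ℕ, ζ ^ a = ζ ^ b ↔ a ≡ b [MOD N] := fun a b => by
    rw [(hζ.isOfFinOrder hN0).pow_eq_pow_iff_modEq, ← hζ.eq_orderOf]
  have hiff : ∀ g : (P : Subgroup G), orderOf g = N → ∀ a b : ℕ, g ^ a = g ^ b ↔ ζ ^ a = ζ ^ b :=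
    fun g hg a b => by rw [pow_eq_pow_iff_modEq, hζm, hg]
  have hdvd : ∀ a b : ℕ, ζ ^ a = ζ ^ b ↔ (2 : ℤ) ^ (r + 2) ∣ b - a := fun a b => by
    rw [hζm, Nat.modEq_iff_dvd, hN]; push_cast; rfl
  constructor
  · intro h4
    have hn := Lead.not_comm_of_index_commutator hP h4
    obtain ⟨g, hg⟩ := Lead.exists_orderOf_of_index_commutator r _ hP h4
    obtain ⟨hi, y, k, hk, hk1, hk2, hk3, -, hZ⟩ := hstruct g hg hn
    have h1 : ¬ (4 : ℤ) ∣ k - 1 := by
      rintro ⟨c, hc⟩
      have h2 : g ^ 2 ^ r ∈ Subgroup.center _ := (hk3 _).2 (by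
        rw [hiff g hg, hdvd]
        exact ⟨-c, by push_cast; rw [show (k : ℤ) = 4 * c + 1 by omega]; ring⟩)
      have h3 := orderOf_dvd_natCard (⟨_, h2⟩ : Subgroup.center (P : Subgroup G))
      rw [← Subgroup.orderOf_coe, orderOf_pow_of_dvd (by positivity) (by
        rw [hg]; exact pow_dvd_pow _ (by omega)), hg, Nat.pow_div (by omega) two_pos,
        show Nat.card (Subgroup.center (P : Subgroup G)) = 2 by omega] at h3
      simp at h3
    have h2 : (2 : ℤ) ^ (r + 2) ∣ 1 - k * k := by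
      have := (hdvd (k * k) 1).1 ((hiff g hg _ _).1 (by rw [hk2, pow_one]))
      simpa using this
    have h3 : (2 : ℤ) ^ (r + 1) ∣ k + 1 := by
      obtain ⟨a, ha⟩ : ∃ a : ℤ, (k : ℤ) = 4 * a + 3 := by
        have h5 : (2 : ℤ) ∣ 1 - k * k := (dvd_pow_self 2 (by omega)).trans h2
        rcases Int.even_or_odd' (k : ℤ) with ⟨b, hb | hb⟩
        · rw [hb, show 1 - 2 * b * (2 * b) = 1 - 2 * (2 * b * b) by ring] at h5; omega
        · exact ⟨(b - 1) / 2, by omega⟩
      rw [show (1 : ℤ) - k * k = (k + 1) * (-(2 * a + 1)) * 2 by rw [ha]; ring, pow_succ,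
        mul_dvd_mul_iff_right two_ne_zero] at h2
      refine IsCoprime.dvd_of_dvd_mul_right (IsCoprime.pow_left ?_) h2
      exact ⟨-a, -1, by ring⟩
    have h5 : ζ ^ k = ζ⁻¹ ∨ ζ ^ k = -ζ⁻¹ := by
      obtain ⟨c, hc⟩ : 2 ^ (r + 1) ∣ k + 1 := by exact_mod_cast h3
      have : ζ ^ k = (-1) ^ c * ζ⁻¹ := by
        rw [← hζh, ← pow_mul, ← hc, pow_succ, mul_inv_cancel_right₀ hζ0]
      rcases neg_one_pow_eq_or ℂ c with h | h <;> simp [this, h]
    have hgo : orderOf (g : G) = N := by rwa [Subgroup.orderOf_coe]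
    set A := Subgroup.zpowers (g : G)
    set C := Subgroup.centralizer (A : Set G)
    have hC : C = Subgroup.centralizer ({(g : G)} : Set G) := by
      rw [← Subgroup.centralizer_closure, ← Subgroup.zpowers_eq_closure]
    have hnorm : ∀ (x : G) (m : ℕ), x * g * x⁻¹ = g ^ m → x ∈ Subgroup.normalizer (A : Set G) :=
      fun x m hx => H6.mem_normalizer_zpowers (hx ▸ Subgroup.pow_mem _ (Subgroup.mem_zpowers _) m)
    have hk' : (y : G) * g * (y : G)⁻¹ = g ^ k := by exact_mod_cast congrArg Subtype.val hk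
    have hyC : (y : G) ∉ C := fun h => hk1 (Subtype.ext (by
      rw [hC, Subgroup.mem_centralizer_singleton_iff] at h
      push_cast
      rw [← hk', h, mul_inv_cancel_right]))
    have hidx : C.relIndex (Subgroup.normalizer (A : Set G)) = 2 := by
      have k1 : C.relIndex (Subgroup.normalizer (A : Set G)) ∣ 2 ^ (r + 1) := by
        rw [Subgroup.relIndex, ← Subgroup.normalizerMonoidHom_ker, Subgroup.index_ker]
        refine (Subgroup.card_subgroup_dvd_card _).trans (dvd_of_eq ?_)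
        rw [IsCyclic.card_mulAut, Nat.card_zpowers, hgo, hN, Nat.totient_prime_pow_succ Nat.prime_two]
        simp
      obtain ⟨b, -, hb⟩ := (Nat.dvd_prime_pow Nat.prime_two).1 k1
      have k2 : 2 ^ (r + 2) * 2 ^ b ∣ Nat.card G := by
        refine dvd_trans ?_ (Subgroup.card_subgroup_dvd_card (Subgroup.normalizer (A : Set G)))
        rw [← H1.card_mul_relIndex (Subgroup.centralizer_le_normalizer (A : Set G)), hb]
        refine Nat.mul_dvd_mul_right ?_ _
        rw [← hN, ← hgo, ← Nat.card_zpowers]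
        exact Subgroup.card_dvd_of_le (Subgroup.le_centralizer _)
      rw [← pow_add, Nat.prime_two.pow_dvd_iff_le_factorization Nat.card_pos.ne'] at k2
      have k3 := P.card_eq_multiplicity
      rw [hP, Nat.pow_right_inj one_lt_two] at k3
      have k4 : b ≠ 0 := fun h => hyC (Subgroup.relIndex_eq_one.1 (by rw [hb, h, pow_zero])
        (hnorm _ k hk'))
      rw [hb, show b = 1 by omega, pow_one]
    have hconj : ∀ m : ℕ, IsConj ((g : G) ^ m) g ↔ ζ ^ m = ζ ∨ ζ ^ m = ζ ^ k := fun m => by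
      have e1 : ∀ a b : ℕ, (g : G) ^ a = g ^ b ↔ ζ ^ a = ζ ^ b := fun a b => by
        rw [← hiff g hg, Subtype.ext_iff]; simp
      rw [← e1, ← pow_one ζ, ← pow_mul, one_mul, ← e1, pow_one]
      constructor
      · intro h
        obtain ⟨x, hx⟩ := isConj_iff.1 h.symm
        by_cases hxC : x ∈ C
        · left
          rw [hC, Subgroup.mem_centralizer_singleton_iff] at hxC
          rw [← hx, hxC, mul_inv_cancel_right]
        · right
          have := (Subgroup.mul_mem_iff_of_index_two hidx (a := ⟨y, hnorm _ k hk'⟩⁻¹)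
            (b := ⟨x, hnorm x m hx⟩)).2 (by simp [Subgroup.mem_subgroupOf, hxC, hyC])
          rw [Subgroup.mem_subgroupOf, hC, Subgroup.mem_centralizer_singleton_iff] at this
          have this : (y : G)⁻¹ * x * g = g * ((y : G)⁻¹ * x) := this
          rw [← hx, ← hk']
          calc x * g * x⁻¹ = y * ((y : G)⁻¹ * x * g) * x⁻¹ := by group
            _ = _ := by rw [this]; group
      · rintro (h | h)
        · rw [h]
        · rw [h, ← hk']; exact (isConj_iff.2 ⟨_, rfl⟩).symm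
    refine ⟨g, g.2, ?_, ?_⟩
    · rw [← hC, ← Subgroup.relIndex_mul_index (Subgroup.centralizer_le_normalizer (A : Set G)), hidx]
      exact Dvd.intro _ rfl
    have hint : ∀ t ∈ {z : ℂ | ∃ χ : Cfsg.IrrCharacter G, (χ : G → ℂ) g = z}, IsIntegral ℚ t := by
      rintro _ ⟨χ, rfl⟩
      exact (H3.IsCharacter_isIntegral (H3.IsIrrCharacter_isCharacter χ.2) _).tower_top
    refine h5.imp (fun h => ?_) fun h => ?_ <;>
      refine Lead.adjoin_eq_of_forall_ringEquiv hint ?_ fun σ => ?_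
    · rintro _ rfl; exact hζint.1.add hζint.2
    · obtain ⟨m, -, hm⟩ := H3.ringHom_exists_pow σ.toRingHom hN0
      rw [hfix g σ N m (hgo ▸ pow_orderOf_eq_one _) hm, hconj, h, ← hplus _ (pow_ne_zero _ hζ0),
        ← hm ζ hζ.pow_eq_one]
      simp
    · rintro _ rfl; exact hζint.1.sub hζint.2
    · obtain ⟨m, -, hm⟩ := H3.ringHom_exists_pow σ.toRingHom hN0
      rw [hfix g σ N m (hgo ▸ pow_orderOf_eq_one _) hm, hconj, h, ← hminus _ (pow_ne_zero _ hζ0),
        ← hm ζ hζ.pow_eq_one]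
      simp
  · rintro ⟨g, hgP, hev, hF⟩
    have hn : ¬ ∀ a b : (P : Subgroup G), a * b = b * a := fun h =>
      P.not_dvd_index (hev.trans (Subgroup.index_dvd_of_le fun x hx =>
        Subgroup.mem_centralizer_singleton_iff.2 (congrArg Subtype.val (h ⟨x, hx⟩ ⟨g, hgP⟩))))
    have hσ : ∀ m : ℕ, Odd m → IsConj (g ^ m) g → ζ ^ m + (ζ ^ m)⁻¹ = ζ + ζ⁻¹ ∨
        ζ ^ m - (ζ ^ m)⁻¹ = ζ - ζ⁻¹ := fun m hm hc => by
      obtain ⟨σ, hσ⟩ := H3.exists_ringEquiv_pow (n := 2 ^ (r + 3)) (by positivity)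
        (hm.coprime_two_right.pow_right _)
      have h1 := (hfix g σ _ m (by
        have := pow_card_eq_one' (x := (⟨g, hgP⟩ : (P : Subgroup G)))
        rw [hP] at this
        exact congrArg Subtype.val this) hσ).2 hc
      rw [← hσ ζ (by rw [pow_succ, pow_mul, hζ.pow_eq_one, one_pow])]
      refine hF.imp (fun h => ?_) fun h => ?_
      · simpa using Lead.fixed_of_mem_adjoin σ h1
          (h.ge (IntermediateField.subset_adjoin ℚ _ (Set.mem_singleton _)))
      · simpa using Lead.fixed_of_mem_adjoin σ h1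
          (h.ge (IntermediateField.subset_adjoin ℚ _ (Set.mem_singleton _)))
    obtain ⟨x, hx, h4⟩ : ∃ x : (P : Subgroup G), orderOf x = N ∧
        ∀ (k : ℕ), Odd k → IsConj (x ^ k) x → x ^ k ≠ x → (4 : ℤ) ∣ k + 1 := by
      rcases Nat.eq_zero_or_pos r with rfl | hr
      · obtain ⟨x, hx⟩ := Lead.exists_orderOf_four_of_card_eight hP hn
        refine ⟨x, hx, fun k hk _ h => ?_⟩
        rw [Ne, ← pow_one x, ← pow_mul, one_mul, hiff x hx, hdvd] at h
        obtain ⟨j, rfl⟩ := hk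
        push_cast at h ⊢
        omega
      have hζ4 : ζ ^ 4 ≠ 1 := fun h => by
        have := Nat.le_of_dvd (by norm_num) (hζ.dvd_of_pow_eq_one 4 h)
        have : 2 ^ 3 ≤ N := Nat.pow_le_pow_right two_pos (by omega)
        omega
      obtain ⟨a, ha, ha'⟩ := (Nat.dvd_prime_pow Nat.prime_two).1
        (hP ▸ orderOf_dvd_natCard (⟨g, hgP⟩ : (P : Subgroup G)))
      have ha1 : a ≠ r + 3 := fun h => hn
        (isCyclic_of_orderOf_eq_card _ (by rw [ha', h, hP])).commutative.is_comm.comm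
      have ha2 : ¬ a ≤ r + 1 := fun h => by
        have h1 : g ^ 2 ^ (r + 1) = 1 := by
          rw [← orderOf_dvd_iff_pow_eq_one, ← Subgroup.orderOf_mk g hgP, ha']
          exact pow_dvd_pow _ h
        have := hσ (2 ^ (r + 1) + 1) (Even.add_one (by simp [pow_succ])) (by
          rw [pow_succ, h1, one_mul])
        rw [pow_succ, hζh] at this
        apply hζ4
        rcases this with h | h
        · field_simp at h
          linear_combination (-(ζ ^ 2 - 1) / 2) * h
        · field_simp at h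
          linear_combination (-(ζ ^ 2 + 1) / 2) * h
      refine ⟨⟨g, hgP⟩, by rw [ha', show a = r + 2 by omega], fun k hk hc hne => ?_⟩
      have hx : orderOf (⟨g, hgP⟩ : (P : Subgroup G)) = N := by rw [ha', show a = r + 2 by omega]
      have h1 : ζ ^ k ≠ ζ := fun h => hne (by
        rw [← pow_one (⟨g, hgP⟩ : (P : Subgroup G)), ← pow_mul, one_mul, hiff _ hx, h, pow_one])
      have h2 := hσ k hk ((P : Subgroup G).subtype.map_isConj hc)
      rw [hplus _ (pow_ne_zero _ hζ0), hminus _ (pow_ne_zero _ hζ0)] at h2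
      have h3 : ζ ^ (2 * (k + 1)) = ζ ^ 0 := by
        rw [mul_comm, pow_mul, pow_succ ζ k]
        rcases h2 with (h | h) | h | h
        · exact absurd h h1
        · rw [h]; simp [hζ0]
        · exact absurd h h1
        · rw [h]; simp [hζ0]
      have h5 := (pow_dvd_pow 2 (show 3 ≤ r + 2 by omega)).trans ((hdvd _ _).1 h3)
      push_cast at h5
      omega
    obtain ⟨hi, y, k, hk, hk1, hk2, hk3, hZ1, hZ⟩ := hstruct x hx hn
    have hko : Odd k := by
      have := (dvd_pow_self 2 (by omega)).trans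
        ((hdvd (k * k) 1).1 ((hiff x hx _ _).1 (by rw [hk2, pow_one])))
      by_contra h
      obtain ⟨j, rfl⟩ := Nat.not_odd_iff_even.1 h
      push_cast at this
      rw [show (1 : ℤ) - (j + j) * (j + j) = 1 - 2 * (2 * j * j) by ring] at this
      omega
    obtain ⟨c, hc⟩ := h4 k hko (hk ▸ (isConj_iff.2 ⟨_, rfl⟩).symm) hk1
    have : IsCyclic (Subgroup.center (P : Subgroup G)) := Subgroup.isCyclic_of_le hZ1
    have h1 : Nat.card (Subgroup.center (P : Subgroup G)) ∣ 2 := by
      rw [← IsCyclic.exponent_eq_card]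
      refine Monoid.exponent_dvd_of_forall_pow_eq_one fun z => Subtype.ext ?_
      obtain ⟨i, hi⟩ := mem_powers_iff_mem_zpowers.2 (hZ1 z.2)
      have hi : x ^ i = z := hi
      have h2 := (hk3 i).1 (hi ▸ z.2)
      rw [hiff x hx, hdvd] at h2
      show (z : (P : Subgroup G)) ^ 2 = 1
      rw [← hi, ← pow_mul, ← pow_zero x, hiff x hx, hdvd]
      push_cast at h2 ⊢
      rw [show (i : ℤ) - k * i = (0 - i * 2) * (2 * c - 1) by
        rw [show (k : ℤ) = 4 * c - 1 by omega]; ring] at h2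
      exact IsCoprime.dvd_of_dvd_mul_right (IsCoprime.pow_left ⟨c, -1, by ring⟩) h2
    have : Nontrivial (P : Subgroup G) := by
      by_contra h
      rw [not_nontrivial_iff_subsingleton] at h
      exact hn fun a b => Subsingleton.elim _ _
    have h2 := hP2.center_nontrivial
    have h3 := Finite.one_lt_card (α := Subgroup.center (P : Subgroup G))
    have := Nat.le_of_dvd two_pos h1
    omega

end Cfsg.Agent.S4923
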