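import Cfsg.Statements.S4925
import Cfsg.Agent.Lib.K0.Fwd2
import Cfsg.Agent.Lib.K0.Odd4
import Cfsg.Agent.Lib.K0.Two

set_option autoImplicit false
open Cfsg

namespace Cfsg.Agent.S4925

/-- Let G be a finite group, p a prime, M a maximal ideal of the algebraic integers containing p, and P a Sylow p-subgroup of G with normalizer N and centralizer C. Then the principal p-block of G contains exactly four irreducible characters of degree not divisible by p if and only if either the commutator subgroup of P has index 4 in P, or P has order 5 and C has index 2 in N. -/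
theorem result {G : Type*} [Group G] [Finite G] (p : ℕ) [Fact p.Prime] (M : Ideal Cfsg.AlgInt) (hM : Cfsg.IsPModular p M) (P : Sylow p G) :
    Nat.card {χ : Cfsg.IrrCharacter G // χ ∈ Cfsg.principalBlock M G ∧ ¬ p ∣ Cfsg.charDegree (χ : G → ℂ)} = 4 ↔
      ((commutator ↥P).index = 4 ∨ (Nat.card P = 5 ∧ (Subgroup.centralizer ((P : Subgroup G) : Set G)).relIndex (Subgroup.normalizer ((P : Subgroup G) : Set G)) = 2)) := by
  have : H5.PMod p M := ⟨hM⟩
  have hp : p.Prime := Fact.out
  rw [← H3.card_autE]
  constructor
  · intro h
    by_cases hp2 : p = 2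
    · subst hp2
      exact Or.inl (K0D.index_eq_four (M := M) P h (K0.inv_mod_four P))
    have hP := K0D.card_of_four hp2 P h
    obtain ⟨t, ht, h1⟩ := S4926.count_eq (M := M) P hP
    rw [h] at h1
    rw [hP]
    generalize Nat.card (H3.autE (P : Subgroup G)) = e at ht h1
    obtain rfl : t = 4 - e := by omega
    have he : e ≤ 4 := by omega
    have h2 := hp.one_lt
    have h3 : p ≠ 4 := by rintro rfl; norm_num at hp
    right
    interval_cases e <;> omega
  · rintro (h | ⟨h, he⟩)
    · obtain ⟨i, hi⟩ := P.isPGroup'.index (commutator P)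
      obtain rfl : p = 2 := by
        have h1 : p ∣ 2 ^ 2 := by
          replace hi : 4 = p ^ i := h.symm.trans hi
          rcases i with _ | i
          · simp at hi
          · exact ⟨p ^ i, by rw [← pow_succ', ← hi]; rfl⟩
        exact (Nat.prime_dvd_prime_iff_eq hp Nat.prime_two).1 (hp.dvd_of_dvd_pow h1)
      exact K0.count_two (M := M) P h
    · have hP : Nat.card P = p := by
        obtain ⟨n, hn⟩ := IsPGroup.iff_card.1 P.isPGroup'
        have hq : (Nat.card P).Prime := by rw [h]; norm_num
        rw [hn] at hq ⊢
        rw [hq.eq_one_of_pow, pow_one]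
      obtain ⟨t, ht, h1⟩ := S4926.count_eq (M := M) P hP
      rw [h1]
      rw [hP] at h
      rw [he] at ht ⊢
      omega

end Cfsg.Agent.S4925
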