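import Cfsg.Statements.S4949
import Cfsg.Agent.Lib.H2.SymSyl

set_option autoImplicit false
open Cfsg

namespace Cfsg.Agent.S4949

open Cfsg.Agent.H2 Cfsg.Agent.H3 Cfsg.Agent.H5 Equiv Equiv.Perm Subgroup


/-- Let n be a natural number, p a prime, M a maximal ideal of the algebraic integers containing p, B a p-block of the alternating group of degree n and D a defect group of B. Then either B contains an irreducible character of height 1 and D has an irreducible complex character of degree p, or every irreducible character of B has height zero and D is commutative (so the least positive height in B and the least positive exponent of a character degree of D are both 1 or both absent). -/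
theorem result (n : ℕ) (p : ℕ) [Fact p.Prime] (M : Ideal Cfsg.AlgInt) (hM : Cfsg.IsPModular p M) (B : Set (Cfsg.IrrCharacter ↥(alternatingGroup (Fin n)))) (hB : Cfsg.IsPBlock M B) (D : Subgroup ↥(alternatingGroup (Fin n))) (hD : Cfsg.IsDefectGroup p M B D) :
    ((∃ χ : Cfsg.IrrCharacter ↥(alternatingGroup (Fin n)), χ ∈ B ∧ Cfsg.blockHeight p B (χ : ↥(alternatingGroup (Fin n)) → ℂ) = 1) ∧ (∃ φ : Cfsg.IrrCharacter ↥D, Cfsg.charDegree (φ : ↥D → ℂ) = p)) ∨
    ((∀ χ : Cfsg.IrrCharacter ↥(alternatingGroup (Fin n)), χ ∈ B → Cfsg.blockHeight p B (χ : ↥(alternatingGroup (Fin n)) → ℂ) = 0) ∧ IsMulCommutative D) := by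
  rename_i hp
  classical
  have : PMod p M := ⟨hM⟩
  obtain ⟨θ, hθ⟩ := blk_nonempty hB
  obtain ⟨χ, hχ⟩ := exists_over θ
  have hC := isPBlock_blockOf (M := M) χ
  have hχC := self_mem_blockOf (M := M) χ
  set C := blockOf M χ.1
  obtain ⟨w, π, hw, ⟨Q, hQ, hQ'⟩, hd, h1, h2, h3⟩ := Sym.sym_block (p := p) hC
  let μ : Perm (Fin n) →* ℂˣ := (Units.map (Int.castRingHom ℂ : ℤ →* ℂ)).comp sign
  have hμ : ∀ g, μ g = 1 ∨ μ g = -1 := fun g => by
    rcases Int.units_eq_one_or (sign g) with h | h <;> simp [μ, h, Units.ext_iff]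
  have hμ' : ∀ g, g ∈ (alternatingGroup (Fin n)) ↔ μ g = 1 := fun g => by
    rcases Int.units_eq_one_or (sign g) with h | h <;> norm_num [μ, h, Units.ext_iff]
  have hi : (alternatingGroup (Fin n)).index = 1 ∨ (alternatingGroup (Fin n)).index = 2 := (subsingleton_or_nontrivial (Fin n)).imp
    (@alternatingGroup.index_eq_one _ _ _) (@alternatingGroup.index_eq_two _ _ _)
  obtain ⟨g, hg, hg'⟩ : ∃ g ∈ (alternatingGroup (Fin n)), IsDefectClass M C g := by
    by_cases h : p = 2
    · obtain ⟨g, hg⟩ := exists_defectClass hC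
      exact ⟨g, mem_of_pReg_of_index (p := p) (hi.elim (fun h => ⟨0, h⟩) fun h' => ⟨1, by
        rw [h', h, pow_one]⟩) (defectClass_pReg hC hg), hg⟩
    · exact (Blk.exists_defectClass_ker h μ hμ hC).imp fun g hg => ⟨(hμ' g).2 hg.1, hg.2⟩
  obtain ⟨x, hx⟩ := Blk.exists_cj_le_of_cover hB hD hC hχC hθ hχ (g := ⟨g, hg⟩) hg' hQ
  let ρ₀ : D →* Perm (Fin n) := (MulAut.conj x).toMonoidHom.comp ((alternatingGroup (Fin n)).subtype.comp D.subtype)
  have hρ₀ : ∀ y, ρ₀ y ∈ (ofSubtype : Perm π.support →* Perm (Fin n)).range := fun y =>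
    mem_range_ofSubtype_iff.2 (by exact_mod_cast hQ' _ (H6.cj_le_iff.1 hx _ ⟨y, y.2, rfl⟩))
  let ρ : D →* Perm π.support :=
    (MonoidHom.ofInjective ofSubtype_injective).symm.toMonoidHom.comp (ρ₀.codRestrict _ hρ₀)
  have hρ : Function.Injective ρ := (MonoidHom.ofInjective ofSubtype_injective).symm.injective.comp
    ((MonoidHom.injective_codRestrict _ _ _).2 ((MulAut.conj x).injective.comp
      ((alternatingGroup (Fin n)).subtype_injective.comp D.subtype_injective)))
  have hs : ∀ y, sign (ρ y) = 1 := fun y => by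
    rw [← sign_ofSubtype, show ofSubtype (ρ y) = ρ₀ y from
      MonoidHom.apply_ofInjective_symm ofSubtype_injective _]
    simp [ρ₀, mem_alternatingGroup.1 y.1.2]
  have hA : Fintype.card π.support = p * w := by rw [Fintype.card_coe, hw]
  have hc := card_defectGroup hB hD
  have hu : ∀ ψ ∈ C, ∃ φ ∈ B, classInner (fun y : (alternatingGroup (Fin n)) => ψ.1 y) φ.1 ≠ 0 := fun ψ hψ =>
    exists_under_mem_of_sameBlock (ZO.og (blk_idem_mem hB)) (blk_sameBlock hC hχC hψ) hχ hθ
  have h4 : minDeg p B ≤ minDeg p C := by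
    obtain ⟨ψ, hψ, h⟩ := exists_minDeg (p := p) ⟨χ, hχC⟩
    obtain ⟨φ, hφ, h'⟩ := hu ψ hψ
    exact (minDeg_le hφ).trans (h ▸ Nat.factorization_le_factorization_of_dvd_right
      (H4.charDegree_dvd_of_const ψ.2 φ.2 h') (charDegree_ne_zero φ) (charDegree_ne_zero ψ))
  have h5 := minDeg_add_blockDefect (p := p) ⟨χ, hχC⟩
  have h6 := minDeg_add_blockDefect (p := p) ⟨θ, hθ⟩
  have h7 := factorization_index_add (p := p) (alternatingGroup (Fin n))
  have h8 : blockDefect p B ≤ blockDefect p C := by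
    have := card_dvd_of_injective ρ hρ
    rwa [hc, Nat.card_eq_fintype_card, Fintype.card_perm, hA,
      hp.out.pow_dvd_iff_le_factorization (Nat.factorial_ne_zero _), ← hd] at this
  by_cases hp2 : p = 2
  · subst hp2
    have h9 : 1 ≤ w → blockDefect 2 B + 1 ≤ blockDefect 2 C := fun h => by
      have : Nontrivial π.support := Fintype.one_lt_card_iff_nontrivial.1 (by omega)
      have := Nat.mul_dvd_mul_left 2 (card_dvd_of_injective (ρ.codRestrict (alternatingGroup _) hs)
        ((MonoidHom.injective_codRestrict _ _ _).2 hρ))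
      rwa [two_mul_nat_card_alternatingGroup, hc, ← pow_succ', Nat.card_eq_fintype_card,
        Fintype.card_perm, hA, hp.out.pow_dvd_iff_le_factorization (Nat.factorial_ne_zero _),
        ← hd] at this
    have h10 : (alternatingGroup (Fin n)).index.factorization 2 ≤ 1 := by
      rcases hi with h | h <;> simp [h, Nat.prime_two.factorization_self]
    rcases le_or_gt 3 w with h | h
    · obtain ⟨ψ, hψ, h11, σ, hσ, hσ'⟩ := h3 rfl h
      obtain ⟨φ, hφ, h12⟩ := hu ψ hψ
      have h13 : IsIrrCharacter (alternatingGroup (Fin n)) fun y : (alternatingGroup (Fin n)) => ψ.1 y := by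
        by_contra h13
        obtain ⟨y, hy⟩ := (H4.res_not_irr_iff (alternatingGroup (Fin n)) ψ.2).1 h13
        rcases Int.units_eq_one_or (sign y) with h14 | h14
        · exact irr_one_ne_zero ψ (by simpa using hy ⟨y⁻¹, by simp [h14]⟩)
        · exact hσ' (by simpa using hy ⟨σ * y⁻¹, by simp [h14, hσ]⟩)
      have h14 : charDegree φ.1 = charDegree ψ.1 := by
        rw [← not_not.1 (mt (IsIrrCharacter_classInner_of_ne h13 φ.2) h12)]
        exact H4.charDegree_comp (alternatingGroup (Fin n)).subtype ψ.1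
      have := h9 (by omega)
      rw [blockHeight_eq] at h11
      exact .inl ⟨⟨φ, hφ, by rw [blockHeight_eq, h14]; omega⟩,
        Sym.alt_irr hA hρ hs hc (by omega) h⟩
    · have h11 : blockDefect 2 B ≤ 2 := by
        have h11 := Sym.val_factorial (p := 2) w two_pos
        rw [add_zero, ← hd] at h11
        interval_cases w <;> simp [Nat.prime_two.factorization_self] at h11 <;> omega
      refine .inr ⟨fun φ hφ => Blk.height_zero_of_defect_le_two hB h11 hφ, ?_⟩
      rcases h11.eq_or_lt with h12 | h12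
      · exact IsPGroup.isMulCommutative_of_card_eq_prime_sq (h12 ▸ hc)
      · have := isCyclic_of_card_dvd_prime (α := D) (p := 2)
          (hc ▸ (pow_dvd_pow 2 (Nat.le_of_lt_succ h12)))
        infer_instance
  have h9 : Nat.factorization 2 p = 0 := Nat.factorization_eq_zero_of_not_dvd fun h =>
    hp2 ((Nat.prime_dvd_prime_iff_eq hp.out Nat.prime_two).1 h)
  have h10 : (alternatingGroup (Fin n)).index.factorization p = 0 := by rcases hi with h | h <;> simp [h, h9]
  have h11 : ∀ (ψ : IrrCharacter (Perm (Fin n))) (φ : IrrCharacter (alternatingGroup (Fin n))),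
      classInner (fun y : (alternatingGroup (Fin n)) => ψ.1 y) φ.1 ≠ 0 → blockHeight p B φ.1 = blockHeight p C ψ.1 := by
    intro ψ φ h
    obtain ⟨k, hk⟩ := H4.charDegree_dvd_of_const ψ.2 φ.2 h
    have h12 := Blk.charDegree_le_of_under h
    have h13 := charDegree_ne_zero ψ
    have h14 := charDegree_ne_zero φ
    rw [hk, mul_comm, Nat.mul_le_mul_right_iff (Nat.pos_of_ne_zero h14)] at h12
    have h15 : k.factorization p = 0 := by
      have : k ≤ 2 := by omega
      interval_cases k <;> simp [h9]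
    rw [blockHeight_eq, blockHeight_eq, hk, Nat.factorization_mul h14 (by rintro rfl; simp_all),
      Finsupp.add_apply]
    omega
  rcases le_or_gt p w with h | h
  · obtain ⟨ψ, hψ, h12⟩ := h2 hp2 h
    obtain ⟨φ, hφ, h13⟩ := hu ψ hψ
    exact .inl ⟨⟨φ, hφ, (h11 ψ φ h13).trans h12⟩, Sym.sylow_irr hA hρ (by rw [hc]; congr 1; omega) h⟩
  · refine .inr ⟨fun φ hφ => ?_, Sym.comm_of_lt hA (.of_card hc) hρ h⟩
    obtain ⟨ψ, hψ, h12⟩ := Blk.exists_over_mem hp2 μ hμ hμ' hB hC hχC hθ hχ hφ
    exact (h11 ψ φ h12).trans (h1 h ψ hψ)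

end Cfsg.Agent.S4949
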