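import Cfsg.Statements.S4984
import Cfsg.Agent.Lib.DG.MainB
import Cfsg.Agent.Lib.DG.MainC
import Cfsg.Agent.Lib.DG.MainD
import Cfsg.Agent.Lib.DG.MainE
import Cfsg.Agent.Lib.DG.Bridge

set_option autoImplicit false
open Cfsg

namespace Cfsg.Agent.S4984

/-- Let G be a finite simple symplectic group PSp_{2m}(q) (m ≥ 2, excluding PSp₄(2)) or a finite simple orthogonal group PΩ_{2m+1}(q) (m ≥ 3, q odd), PΩ⁺_{2m}(q) or PΩ⁻_{2m}(q) (m ≥ 4). Then the character degree graph of G is complete: for any two distinct primes each dividing some irreducible complex character degree of G, their product divides some irreducible character degree of G. -/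
theorem result {G : Type*} [Group G] [Finite G] (h : Cfsg.IsPSp G ∨ Cfsg.IsPOmegaOdd G ∨ Cfsg.IsPOmegaPlus G ∨ Cfsg.IsPOmegaMinus G) (r s : ℕ) (hr : r ∈ Cfsg.degreePrimes G) (hs : s ∈ Cfsg.degreePrimes G) (hrs : r ≠ s) : (Cfsg.degreeGraph G).Adj r s := by
  refine DG.adj_of_cpl ?_ hr hs hrs
  rcases h with ⟨F, _, _, m, hm, h2, ⟨e⟩⟩ | ⟨F, _, _, m, hm, hq, ⟨e⟩⟩ | ⟨F, _, _, m, hm, ⟨e⟩⟩ |
    ⟨F, _, _, m, a, b, hm, hab, ⟨e⟩⟩
  · obtain ⟨i⟩ := DG.bridge_sp (F := F) m
    obtain ⟨j⟩ := DG.ps_equiv i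
    exact DG.cpl_of_equiv (e.trans j).symm
      (DG.Fm.cplC hm (fun h => by rw [Nat.card_eq_fintype_card]; exact h2 h))
  · have h2 : (2 : F) ≠ 0 := by
      intro h0
      have hc : ringChar F = 2 := by
        have := (ringChar.spec F 2).mp (by exact_mod_cast h0)
        exact ((Nat.dvd_prime Nat.prime_two).mp this).resolve_left CharP.ringChar_ne_one
      have := FiniteField.even_card_of_char_two hc
      rw [Nat.odd_iff] at hq
      omega
    obtain ⟨i⟩ := DG.bridge_odd h2 m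
    obtain ⟨j⟩ := DG.po_equiv i
    exact DG.cpl_of_equiv (e.trans j).symm (DG.Fm.cplB h2 hm)
  · obtain ⟨i⟩ := DG.bridge_plus (F := F) m
    obtain ⟨j⟩ := DG.po_equiv i
    exact DG.cpl_of_equiv (e.trans j).symm (DG.Fm.cplD hm)
  · have hab' : DG.AnB a b := hab
    obtain ⟨i⟩ := DG.bridge_minus hab' (m - 1)
    obtain ⟨j⟩ := DG.po_equiv i
    exact DG.cpl_of_equiv (e.trans j).symm (DG.Fm.cplE hab' (by omega))

end Cfsg.Agent.S4984
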