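import Cfsg.Statements.S4993
import Cfsg.Agent.Lib.Lead.Primitive

set_option autoImplicit false
open Cfsg

namespace Cfsg.Agent.S4993

/-- Let G be a group of odd order whose order has exactly two prime divisors and whose quotient by its Fitting subgroup is nilpotent (G is metanilpotent), and let χ be a primitive irreducible complex character of G (not induced from a character of any proper subgroup). Then χ(1) divides the size of some conjugacy class of G. -/
theorem result {G : Type*} [Group G] [Fintype G] (hodd : Odd (Nat.card G)) (h2 : (Nat.card G).primeFactors.card = 2) [hF : (Cfsg.fittingSubgroup G).Normal] (hmeta : Group.IsNilpotent (G ⧸ Cfsg.fittingSubgroup G)) (χ : Cfsg.IrrCharacter G) (hprim : ¬ ∃ (H : Subgroup G), H ≠ ⊤ ∧ ∃ θ : ↥H → ℂ, Cfsg.IsCharacter ↥H θ ∧ Cfsg.indFun H θ = (χ : G → ℂ)) : ∃ g : G, Cfsg.charDegree (χ : G → ℂ) ∣ (Subgroup.centralizer ({g} : Set G)).index := by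
  have : Group.IsSolvable G := solvable_of_ker_le_range (Cfsg.fittingSubgroup G).subtype
    (QuotientGroup.mk' (Cfsg.fittingSubgroup G)) (by simp)
  obtain ⟨p, q, hpq, h⟩ := Finset.card_eq_two.1 h2
  have hp : p.Prime := Nat.prime_of_mem_primeFactors (h.ge (by simp))
  have hq : q.Prime := Nat.prime_of_mem_primeFactors (h.ge (by simp))
  have := Fact.mk hp
  have := Fact.mk hq
  obtain ⟨P⟩ : Nonempty (Sylow p G) := inferInstance
  obtain ⟨Q⟩ : Nonempty (Sylow q G) := inferInstance
  set F := Cfsg.fittingSubgroup G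
  have hN : ∀ (r : ℕ) [Fact r.Prime] (R : Sylow r G), ((R : Subgroup G) ⊔ F).Normal := fun r _ R => by
    have h1 := H1.sylow_normal_of_isNilpotent (R.mapSurjective (QuotientGroup.mk'_surjective F))
    have h2 := h1.comap (QuotientGroup.mk' F)
    rwa [Sylow.coe_mapSurjective, Subgroup.comap_map_eq, QuotientGroup.ker_mk'] at h2
  have hP := hN p P
  have hQ := hN q Q
  have htop : ((P : Subgroup G) ⊔ F) ⊔ ((Q : Subgroup G) ⊔ F) = ⊤ := by
    refine H1.eq_top_of_forall_sylow_le fun r hr => ?_
    by_cases hr' : r ∣ Nat.card G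
    · have : r ∈ ({p, q} : Finset ℕ) := h.le (Nat.mem_primeFactors.2 ⟨hr.out, hr', Nat.card_pos.ne'⟩)
      simp only [Finset.mem_insert, Finset.mem_singleton] at this
      rcases this with rfl | rfl
      · exact ⟨P, le_sup_of_le_left le_sup_left⟩
      · exact ⟨Q, le_sup_of_le_right le_sup_left⟩
    · obtain ⟨R⟩ : Nonempty (Sylow r G) := inferInstance
      refine ⟨R, ?_⟩
      rw [Subgroup.card_eq_one.1 (show Nat.card R = 1 by
        rw [R.card_eq_multiplicity, Nat.factorization_eq_zero_of_not_dvd hr', pow_zero])]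
      exact bot_le
  obtain ⟨x, hx⟩ := Lead.exists_class_of_primitive p χ.2 hprim
  obtain ⟨y, hy⟩ := Lead.exists_class_of_primitive q χ.2 hprim
  obtain ⟨a, ha, b, hb, hab⟩ := Subgroup.mem_sup_of_normal_right.1
    (htop.ge (Subgroup.mem_top (x⁻¹ * y)))
  have h1 := hx a (Lead.centPChief_of_metanilpotent hmeta P a ha)
  have h3 := hy b⁻¹ (Lead.centPChief_of_metanilpotent hmeta Q _ (inv_mem hb))
  have hxy : y * b⁻¹ = x * a := by
    rw [mul_inv_eq_iff_eq_mul, mul_assoc, hab]; group
  rw [hxy] at h3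
  refine ⟨x * a, ?_⟩
  have hd := H3.IsIrrCharacter_charDegree_dvd χ.2
  have h0 := (H3.IsIrrCharacter_charDegree_pos χ.2).ne'
  rw [← Nat.factorization_prime_le_iff_dvd h0 Subgroup.index_ne_zero_of_finite]
  intro r hr
  by_cases hr' : r ∣ Cfsg.charDegree (χ : G → ℂ)
  · have : r ∈ ({p, q} : Finset ℕ) :=
      h.le (Nat.mem_primeFactors.2 ⟨hr, hr'.trans hd, Nat.card_pos.ne'⟩)
    simp only [Finset.mem_insert, Finset.mem_singleton] at this
    rcases this with rfl | rfl
    · exact (hr.pow_dvd_iff_le_factorization Subgroup.index_ne_zero_of_finite).1 h1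
    · exact (hr.pow_dvd_iff_le_factorization Subgroup.index_ne_zero_of_finite).1 h3
  · simp [Nat.factorization_eq_zero_of_not_dvd hr']

end Cfsg.Agent.S4993
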