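import Cfsg.Statements.S5011
import Cfsg.Agent.Lib.H4.Misc2

set_option autoImplicit false
open Cfsg

namespace Cfsg.Agent.S5011

/-- Let G be a finite non-abelian simple group and ρ an irreducible complex representation of G on a space of dimension greater than one (irreducible in the sense that the only subspaces invariant under every ρ(x) are 0 and the whole space). Then for every non-identity element g of G, the centralizer of g does not act irreducibly: there is a non-zero proper subspace invariant under ρ(c) for every c commuting with g. -/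
theorem result {G : Type*} [Group G] [Finite G] [IsSimpleGroup G]
    (hG : ¬ IsMulCommutative G) {V : Type*} [AddCommGroup V] [Module ℂ V] [FiniteDimensional ℂ V]
    (ρ : Representation ℂ G V)
    (hirr : ∀ W : Submodule ℂ V, (∀ x : G, ∀ v ∈ W, ρ x v ∈ W) → W = ⊥ ∨ W = ⊤)
    (hdim : 1 < Module.finrank ℂ V) (g : G) (hg : g ≠ 1) :
    ∃ W : Submodule ℂ V, W ≠ ⊥ ∧ W ≠ ⊤ ∧ ∀ c ∈ Subgroup.centralizer ({g} : Set G), ∀ v ∈ W, ρ c v ∈ W := by
  have hnt : Nontrivial V := Module.nontrivial_of_finrank_pos (R := ℂ) (by omega)
  obtain ⟨μ, hμ⟩ := Module.End.exists_eigenvalue (ρ g)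
  refine ⟨Module.End.eigenspace (ρ g) μ, hμ, fun htop => ?_, fun c hc v hv => ?_⟩
  · have h1 : ∀ v, ρ g v = μ • v := fun v =>
      Module.End.mem_eigenspace_iff.mp (htop ▸ Submodule.mem_top)
    rcases (inferInstance : (MonoidHom.ker ρ).Normal).eq_bot_or_eq_top with h | h
    · have h2 : g ∈ Subgroup.center G := by
        rw [Subgroup.mem_center_iff]
        intro x
        apply (MonoidHom.ker_eq_bot_iff ρ).mp h
        ext v
        simp [h1]
      rcases (inferInstance : (Subgroup.center G).Normal).eq_bot_or_eq_top with h3 | h3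
      · exact hg (Subgroup.mem_bot.mp (h3 ▸ h2))
      · exact hG ⟨⟨fun a b => Subgroup.mem_center_iff.mp (h3 ▸ Subgroup.mem_top b) a⟩⟩
    · obtain ⟨v, hv⟩ := exists_ne (0 : V)
      rcases hirr (ℂ ∙ v) (fun x w hw => by
        rw [MonoidHom.mem_ker.mp (h ▸ Subgroup.mem_top x : x ∈ MonoidHom.ker ρ)]
        exact hw) with h2 | h2
      · exact hv ((Submodule.span_singleton_eq_bot).mp h2)
      · have := finrank_span_singleton (K := ℂ) hv
        rw [h2, finrank_top] at this
        omega
  · rw [Module.End.mem_eigenspace_iff] at hv ⊢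
    rw [← Module.End.mul_apply, ← map_mul, ← Subgroup.mem_centralizer_singleton_iff.mp hc, map_mul,
      Module.End.mul_apply, hv, map_smul]

end Cfsg.Agent.S5011
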