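import Cfsg.Statements.S5126
import Cfsg.Agent.Lib.H7.Transport
import Cfsg.Agent.Lib.Lead.Model3

set_option autoImplicit false
open Cfsg

namespace Cfsg.Agent.S5126

open Cfsg.FusionSystem Cfsg.Agent.H7

/-- In a saturated fusion system over a finite p-group S, the normalizer system of a fully normalized, centric, radical subgroup R is constrained, and in every model of that normalizer system the largest normal p-subgroup is the image of R. -/
theorem result {Ω : Type*} [Group Ω] {S : Subgroup Ω} [Finite S] (p : ℕ) [Fact p.Prime] (hS : IsPGroup p S) (F : Cfsg.FusionSystem S) (hF : F.IsSaturated p) (R : Subgroup Ω) (hRn : F.IsFullyNormalized R) (hRc : F.IsCentric R) (hRr : F.IsRadical p R) (E : Cfsg.FusionSystem (Cfsg.FusionSystem.normalizerIn S R)) (hE : F.IsNormalizerSystem R E) {G : Type*} [Group G] (ι : ↥(Cfsg.FusionSystem.normalizerIn S R) →* G) : E.IsConstrained p ∧ (E.IsModel p G ι → (Cfsg.pCore p G : Subgroup G) = (R.subgroupOf (Cfsg.FusionSystem.normalizerIn S R)).map ι) := by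
  have hK := hE.isKNormSys
  refine ⟨hK.isConstrained hF hS hRn hRc.centralizerIn_le, fun hM => ?_⟩
  have hT : IsPGroup p (normalizerIn S R) := hK.isPGroup hS
  have hRT : R ≤ normalizerIn S R := le_normalizerIn hRn.le
  have hn := hK.isNormal_top hRn.le
  rw [← Lead.img_homFun_eq hRT]
  refine le_antisymm ?_ (Lead.model_img_le_pCore hT hM hn)
  obtain ⟨s, hs⟩ := hM.2.1.exists_isoVia
  have hle := Lead.model_pCore_le_range hM
  have h1 : E.IsNormal (img (pCore p G) s) := hs.symm.isNormal (groupFusionSystem_isNormal hle)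
  have hc : E.IsCentric R := hRc.of_isSubsystemOf' hK.isSubsystemOf hRT
  have hr : E.IsRadical p R := by
    rw [isRadical_iff, hK.top_autGroup_self hRn.le]
    exact ⟨hRT, hRr.pCoreIn_eq⟩
  have h2 := h1.le_of_centric_radical hT hc hr
  intro x hx
  exact (hs.mem_img_iff hRT).2 ⟨hle hx, h2 (mem_img_of_mem s hx)⟩

end Cfsg.Agent.S5126
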