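import Cfsg.Statements.S5127
import Cfsg.Agent.Lib.Lead.CentSub

set_option autoImplicit false
open Cfsg

namespace Cfsg.Agent.S5127

/-- Let F be a saturated fusion system over a finite p-group S and E a normal subsystem of F over T. Among the subgroups Y of C_S(T) whose centralizer system C_F(Y) contains E there is a largest one, C_S(E), and it is strongly closed in F. -/
theorem result {Ω : Type*} [Group Ω] {S : Subgroup Ω} [Finite S] (p : ℕ) [Fact p.Prime] (hS : IsPGroup p S) (F : Cfsg.FusionSystem S) (hF : F.IsSaturated p) {T : Subgroup Ω} (E : Cfsg.FusionSystem T) (hE : E.IsNormalIn F p) : ∃ C : Subgroup Ω, C ≤ Cfsg.FusionSystem.centralizerIn S T ∧ (∀ P : Subgroup Ω, E.Hom P ⊆ F.centralizerHom C P) ∧ (∀ Y : Subgroup Ω, Y ≤ Cfsg.FusionSystem.centralizerIn S T → (∀ P : Subgroup Ω, E.Hom P ⊆ F.centralizerHom Y P) → Y ≤ C) ∧ F.StronglyClosed C := by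
  refine ⟨Cfsg.Agent.Lead.CE E F p, Cfsg.Agent.Lead.CE_le_centralizerIn, fun P => ?_,
    fun Y hY h => Cfsg.Agent.Lead.le_CE hY fun P =>
      FusionSystem.hom_subset_centralizerHom_iff.1 (h P),
    Cfsg.Agent.Lead.stronglyClosed_CE hF hS hE⟩
  exact FusionSystem.hom_subset_centralizerHom_iff.2 fun f hf =>
    Cfsg.Agent.Lead.isCentMor_CE hF hS hE hf

end Cfsg.Agent.S5127
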