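import Cfsg.Statements.S5130
import Cfsg.Agent.Lib.H8.Comp2
import Cfsg.Agent.Lib.H7.Limit
-- import your own Cfsg.Agent.* helpers here

set_option autoImplicit false
open Cfsg

namespace Cfsg.Agent.S5130

open Cfsg.FusionSystem Cfsg.Agent.H7 Cfsg.Agent.H8

variable {Ω : Type*} [Group Ω] {S T P A B : Subgroup Ω} {p : ℕ} {F : FusionSystem S}
  {E : FusionSystem T} {f : Ω → Ω}

theorem full_isWeaklyNormalIn [Finite S] [Fact p.Prime] (hF : F.IsSaturated p) (hS : IsPGroup p S)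
    (hT : F.StronglyClosed T) (hC : S ≤ T ⊔ centralizerIn S T)
    (h : ∀ P f, P ≤ T → (E.IsMor P f ↔ F.IsMor P f)) : E.IsWeaklyNormalIn F p := by
  have hsub : E.IsSubsystemOf F := isSubsystemOf_iff.2 fun P f hf => (h P f hf.le).1 hf
  refine ⟨fun P hP => ?_, hF, H8.isInvariantIn_iff.2 ⟨hsub, hT, fun P f g hf hg => ?_,
    fun P f hP hf => frM_of_isMor hT.le ((h P f hP).2 hf)⟩⟩
  · obtain ⟨Q, hc, hfn⟩ := F.exists_isFullyNormalized (hP.trans hT.le)
    have hQ := le_of_isConj hT hc hP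
    obtain ⟨φ, hφ⟩ := hc.exists_isIso
    refine ⟨Q, (hφ.of_isMor ((h P φ hP).2 hφ.mor)).isConj, isFullyAutomized_iff.2 ⟨hQ, ?_⟩,
      isReceptive_iff.2 ⟨hQ, fun X ψ hψ => ?_⟩⟩
    · have a1 : autInducedBy T Q = autInducedBy S Q := le_antisymm (autInducedBy_mono hT.le _)
        fun α hα => by
          obtain ⟨s, hs, -, e⟩ := mem_autInducedBy_iff'.1 hα
          obtain ⟨t, ht, c, hc, rfl⟩ := mem_sup_centralizerIn.1 (hC hs)
          refine mem_autInducedBy_iff.2 ⟨t, ht, fun x => ?_⟩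
          rw [← equivFun_coe, e x x.2]
          conv_rhs => rw [← conj_eq_of_mem_centralizer hc.2 (hQ x.2)]
          group
      rw [a1, autGroup_congr fun f => h Q f hQ]
      exact hF.sylowIn hS hfn
    · obtain ⟨g, hg, e⟩ := (hF.isReceptive hS hfn).exists_ext (hsub.isIso hψ)
      exact ⟨g, (h _ _ extSub_le).2 (hg.mono fun a ⟨h1, h2, b, hb, e⟩ =>
        ⟨hT.le h1, h2, b, hT.le hb, e⟩), e⟩
  · obtain ⟨k, hk, e1, -⟩ := hg.exists_symm
    have hi := hg.mor.isIso_img_of_le hf.le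
    have hle : img P g ≤ T := img_le_iff.2 fun x hx => hg.mapsTo x (hf.le hx)
    have hk' := IsIso.symm_restrict hk hi hle fun x hx => e1 x (hf.le hx)
    exact ⟨fun y => g (f (k y)), (h _ _ hle).2 (hg.mor.comp' ((hsub.isMor hf).comp' hk'.mor
      hk'.mapsTo) fun y hy => hf.mem (hk'.mapsTo y hy)), fun x hx => by simp only [e1 x (hf.le hx)]⟩

theorem exists_ext [Finite S] [Fact p.Prime] (hF : F.IsSaturated p) (hS : IsPGroup p S)
    (hA : F.StronglyClosed A) (hB : F.StronglyClosed B) (h : A ⊓ B = ⊥) (hP : P ≤ A)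
    (hf : F.IsMor P f) : ∃ g, F.IsMor (P ⊔ B) g ∧ ∀ x ∈ P, g x = f x := by
  obtain ⟨g, hg, e⟩ := hF.exists_lift_mod hS hB hf
  refine ⟨g, hg, fun x hx => (inv_mul_eq_one.1 (h.le ⟨A.mul_mem (A.inv_mem
    (hA.map_mem hf hx (hP hx))) (hA.map_mem hg (Subgroup.mem_sup_left hx) (hP hx)), e x hx⟩)).symm⟩

/-- Let F be a saturated fusion system over a finite p-group S that is the direct product of two subgroups S₁ and S₂, each strongly closed in F. Let R be the full subsystem of F over S₁ (all maps of F between subgroups of S₁) and R′ the subsystem over S₁ of those maps that extend to the subgroup generated with S₂ fixing S₂ elementwise. Then R and R′ are saturated, R′ is normal in F and in R, and R is weakly normal in F. -/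
theorem result {Ω : Type*} [Group Ω] {S : Subgroup Ω} [Finite S] (p : ℕ) [Fact p.Prime] (hS : IsPGroup p S) (F : Cfsg.FusionSystem S) (hF : F.IsSaturated p) (S₁ S₂ : Subgroup Ω) (hprod : Cfsg.IsInternalDirectProduct S₁ S₂ S) (h₁ : F.StronglyClosed S₁) (h₂ : F.StronglyClosed S₂) (R R' : Cfsg.FusionSystem S₁) (hR : ∀ P : Subgroup Ω, P ≤ S₁ → R.Hom P = F.Hom P) (hR' : ∀ P : Subgroup Ω, P ≤ S₁ → R'.Hom P = F.centralizerHom S₂ P) : R.IsSaturated p ∧ R'.IsSaturated p ∧ R'.IsNormalIn F p ∧ R'.IsNormalIn R p ∧ R.IsWeaklyNormalIn F p := by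
  obtain ⟨-, -, hcomm, hinf, hsup⟩ := hprod
  have h12 : S₁ ≤ Subgroup.centralizer (S₂ : Set Ω) := fun a ha b hb => (hcomm a ha b hb).symm
  have h21 : S₂ ≤ Subgroup.centralizer (S₁ : Set Ω) := fun b hb a ha => hcomm a ha b hb
  have hdec : ∀ x ∈ S, ∃ a ∈ S₁, ∃ b ∈ S₂, a * b = x := fun x hx =>
    (mem_sup_of_le_normalizer (h₁.le.trans h₂.le_normalizer)).1 (hsup.ge hx)
  have e1 : ∀ P f, P ≤ S₁ → (R.IsMor P f ↔ F.IsMor P f) := fun P f hP => hom_eq_iff.1 (hR P hP) f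
  have e2 : ∀ P f, P ≤ S₁ → (R'.IsMor P f ↔ F.IsCentMor S₂ P f) := fun P f hP =>
    hom_eq_centralizerHom_iff.1 (hR' P hP) f
  have w1 := full_isWeaklyNormalIn hF hS h₁ (hsup.ge.trans (sup_le_sup_left (le_inf h₂.le h21) _)) e1
  obtain ⟨C, hC⟩ := exists_isKNormSys F h₂.le ⊥ kNormalizerIn_bot.symm
  have w2 := full_isWeaklyNormalIn (hC.isSaturated hF hS (hF.isFullyKNormalized_of_fc hS
    h₂.weaklyClosed.isFullyCentralized bot_le)) (hS.to_le centralizerIn_le)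
    (h₁.of_isSubsystemOf hC.isSubsystemOf (le_inf h₁.le h12)) (fun x hx => by
      obtain ⟨a, ha, b, hb, rfl⟩ := hdec x hx.1
      exact Subgroup.mul_mem_sup ha ⟨⟨h₂.le hb, (Subgroup.mul_mem_cancel_left _ (h12 ha)).1 hx.2⟩,
        h21 hb⟩) fun P f hP => (e2 P f hP).trans hC.bot_isMor_iff.symm
  have hinv : R'.IsInvariantIn F := H8.isInvariantIn_iff.2
    ⟨(Inv.sub w2.2.2).trans hC.isSubsystemOf, h₁, fun P f g hf hg => by
      obtain ⟨k, hk, ek⟩ := exists_ext hF hS h₁ h₂ hinf le_rfl hg.mor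
      rw [hsup] at hk
      obtain ⟨k', hk', e, -⟩ := hk.isIso_top.exists_symm
      have e3 : img P k = img P g := img_congr fun x hx => ek x (hf.le hx)
      refine ⟨_, (e2 _ _ (img_le_iff.2 fun x hx => hg.mapsTo x (hf.le hx))).2 (e3 ▸
        isCentMor_conj hk.isIso_top hk' e (h₂.isIso_self (hk.mono h₂.le)) h₂.le centralizerIn_le
          ((e2 P f hf.le).1 hf)), fun x hx => ?_⟩
      rw [← ek x (hf.le hx), e x (h₁.le (hf.le hx)), ek _ (hf.mem hx)], fun P f hP hf => by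
      obtain ⟨g, hg, eg⟩ := exists_ext hF hS h₁ h₂ hinf hP hf
      obtain ⟨k, hk, ek⟩ := exists_ext hF hS h₂ h₁ (by rwa [inf_comm]) le_rfl
        (hg.mono le_sup_right)
      rw [sup_comm, hsup] at hk
      obtain ⟨k', hk', e, e'⟩ := hk.isIso_top.exists_symm
      refine ⟨k, k' ∘ g, h₁.isIso_self (hk.mono h₁.le), (e2 _ _ hP).2
        ⟨hP.trans (le_inf h₁.le h12), _, hk'.mor.comp hg fun x hx => hg.mem hx, fun _ _ => rfl,
          fun x hx => ?_⟩, fun x hx => ?_⟩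
      · rw [Function.comp_apply, ← ek x hx, e x (h₂.le hx)]
      · rw [Function.comp_apply, e' _ (hg.mem (Subgroup.mem_sup_left hx)), eg x hx]⟩
  have := finite_of_le h₁.le
  refine ⟨w1.1, w2.1, H8.isNormalIn_iff.2 ⟨⟨w2.1, hF, hinv⟩, fun α hα => ?_⟩,
    isNormalIn_of_top ⟨w2.1, w1.1, hinv.of_between hS w1.1 (isSubsystemOf_iff.2 fun P f hf =>
      (e1 P f hf.le).2 ((Inv.sub hinv).isMor hf)) (Inv.sub w1.2.2)⟩, w1⟩
  obtain ⟨-, g, hg, eg, hfix⟩ := (e2 _ _ le_rfl).1 (isMor_of_mem_autGroup le_rfl hα)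
  rw [hsup] at hg
  refine mem_extC_of (hg.mono (sup_le h₁.le centralizerIn_le)) eg fun c hc => ?_
  obtain ⟨a, ha, b, hb, rfl⟩ := hdec c hc.1
  rw [hg.map_mul (h₁.le ha) (h₂.le hb), hfix b hb]
  simpa [mul_assoc] using inv_conj_mem_of_mem_normalizer (h₁.le_normalizer (h₂.le hb))
    (S₁.mul_mem (S₁.inv_mem ha) (h₁.map_mem hg (h₁.le ha) ha))

end Cfsg.Agent.S5130
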