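import Cfsg.Statements.S5138
import Cfsg.Agent.Lib.Lead.CentProd

set_option autoImplicit false
open Cfsg

namespace Cfsg.Agent.S5138

/-- Let F be a saturated fusion system over a finite p-group S and E₁, E₂ normal subsystems over T₁, T₂ with [T₁, T₂] = 1. Then there is a normal subsystem of F over T₁T₂ which, if moreover T₁ ∩ T₂ lies in the centre of E₁ and in the centre of E₂, is a central product of E₁ and E₂ (the factor system of a direct product of E₁ and E₂ modulo a subgroup of its centre meeting both factors trivially). -/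
theorem result {Ω : Type*} [Group Ω] {S : Subgroup Ω} [Finite S] (p : ℕ) [Fact p.Prime] (hS : IsPGroup p S) (F : Cfsg.FusionSystem S) (hF : F.IsSaturated p) {T₁ T₂ : Subgroup Ω} (E₁ : Cfsg.FusionSystem T₁) (E₂ : Cfsg.FusionSystem T₂) (hE₁ : E₁.IsNormalIn F p) (hE₂ : E₂.IsNormalIn F p) (hc : ⁅T₁, T₂⁆ = ⊥) : ∃ D : Cfsg.FusionSystem (T₁ ⊔ T₂), D.IsNormalIn F p ∧ (T₁ ⊓ T₂ ≤ E₁.center → T₁ ⊓ T₂ ≤ E₂.center → Cfsg.FusionSystem.IsCentralProductOf E₁ E₂ D) := by
  obtain ⟨D, hD, h⟩ := Cfsg.Agent.Lead.exists_normal_sup hS hE₁ hE₂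
    (Cfsg.Agent.H7.commutator_eq_bot_iff_forall.1 hc)
  have := Cfsg.FusionSystem.finite_of_le hE₁.1.2.2.1.le
  have := Cfsg.FusionSystem.finite_of_le hE₂.1.2.2.1.le
  exact ⟨D, hD, fun a b => (h a b).isCentralProductOf⟩

end Cfsg.Agent.S5138
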