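import Cfsg.Statements.S5141
import Cfsg.Agent.Lib.H8.Comp
-- import your own Cfsg.Agent.* helpers here

set_option autoImplicit false
open Cfsg

namespace Cfsg.Agent.S5141

open Cfsg.FusionSystem Cfsg.Agent.H7 Cfsg.Agent.H8 Cfsg.Agent.Lead

theorem exists_parts {X : Type*} [Group X] [Finite X] (p : ℕ) [hp : Fact p.Prime] (x : X) :
    ∃ y ∈ Subgroup.zpowers x, (∃ k, y ^ p ^ k = 1) ∧ (orderOf (y⁻¹ * x)).Coprime p := by
  obtain ⟨a, n, hn, e⟩ := Nat.exists_eq_pow_mul_and_not_dvd (orderOf_pos x).ne' p hp.out.ne_one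
  have hc : n.Coprime p := ((Nat.Prime.coprime_iff_not_dvd hp.out).2 hn).symm
  obtain ⟨u, v, huv⟩ := (Nat.isCoprime_iff_coprime.2 (hc.pow_right a))
  have h1 : x ^ ((p ^ a * n : ℕ) : ℤ) = 1 := by rw [← e, zpow_natCast, pow_orderOf_eq_one]
  refine ⟨x ^ (u * n), ⟨_, rfl⟩, ⟨a, ?_⟩, Nat.Coprime.coprime_dvd_left
    (orderOf_dvd_of_pow_eq_one (n := n) ?_) hc⟩
  · rw [← zpow_natCast, ← zpow_mul, show u * n * ((p ^ a : ℕ) : ℤ) = ((p ^ a * n : ℕ) : ℤ) * u by
      push_cast; ring, zpow_mul, h1, one_zpow]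
  · rw [← zpow_neg, ← zpow_add_one, ← zpow_natCast, ← zpow_mul, show (-(u * n) + 1) * (n : ℤ) =
      ((p ^ a * n : ℕ) : ℤ) * v by rw [← huv]; push_cast; ring, zpow_mul, h1, one_zpow]

variable {Ω : Type*} [Group Ω] {S T P Q : Subgroup Ω} {p : ℕ} {F : FusionSystem S}
  {E : FusionSystem T} {f : Ω → Ω} [Finite S] [Fact p.Prime]

theorem mem_extC_of_pElt (hS : IsPGroup p S) (hE : E.IsWeaklyNormalIn F p) (hQ : E.IsCentric Q)
    {α : MulAut Q} (hα : α ∈ E.autGroup Q) {k : ℕ} (hk : α ^ p ^ k = 1) : α ∈ extC F Q := by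
  obtain ⟨hEs, hF, hi⟩ := hE
  have hT := Inv.sc hi
  have := finite_of_le hT.le
  obtain ⟨U, hc, hfn⟩ := F.exists_isFullyNormalized (hQ.le.trans hT.le)
  obtain ⟨f, hf⟩ := hc.exists_isIso
  have hU := Inv.isCentric_of_isConj hi hQ hc
  refine mem_extC_of_congrAut hf (hF.isReceptive hS hfn) ?_
  obtain ⟨b, hb, e⟩ := (hEs.sylowIn (hS.to_le hT.le) (isFullyNormalized_of_sub hF hS (Inv.sub hi) hT
    hU.le hfn)).exists_conj (isPGroup_zpowers_of_pow (b := hf.congrAut α) (k := k)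
      (by rw [← map_pow, hk, map_one])) (Subgroup.zpowers_le.2 (Inv.congrAut_mem hi hf hQ.le hα))
  exact (Subgroup.mem_normalizer_iff.1 (extC_le_normalizer (hF.isReceptive hS hfn)
    ((Inv.sub hi).autGroup_le U hb)) _).2 (autInducedBy_le_extC hT hU.le hU.centralizerIn_le
      (e _ (Subgroup.mem_zpowers _)))

theorem exists_ext_of_chain (hS : IsPGroup p S) (hE : E.IsWeaklyNormalIn F p) (hP : TC F T P)
    (hf : GenChain T (PPB E p) P f) : ∃ g, F.IsMor (P ⊔ centralizerIn S T) g ∧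
      (∀ x ∈ P, g x = f x) ∧ ∀ c ∈ centralizerIn S T, c⁻¹ * g c ∈ T := by
  have hT := Inv.sc hE.2.2
  induction hf with
  | id h e => exact ⟨id, isMor_id F (sup_le (h.trans hT.le) centralizerIn_le),
      fun x hx => (e x hx).symm, fun c _ => by simp⟩
  | @step f₁ g₁ h₁ Q _ h2 h3 h4 ih =>
    obtain ⟨g, hg, e, hm⟩ := ih
    obtain ⟨hc, -, α, hα, ⟨k, hk⟩, eα⟩ := h2
    obtain ⟨γ, ⟨hγ, hγm⟩, eγ⟩ := mem_extC_of_pElt hS hE hc hα hk
    have hi := hg.isIso_img_of_le le_sup_left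
    have hC : ∀ c ∈ centralizerIn S T, g c ∈ Q ⊔ centralizerIn S Q := fun c hc' => by
      have h5 : c⁻¹ * g c ∈ img P g := (hP.of_isIso hT hi).cent hT.le ⟨hm c hc', Subgroup.mul_mem _
        (Subgroup.inv_mem _ (Subgroup.centralizer_le (hP.of_isIso hT hi).le hc'.2))
        (hi.map_mem_centralizer hg le_sup_left (Subgroup.mem_sup_right hc')
          (Subgroup.centralizer_le hP.le hc'.2))⟩
      have h6 := Subgroup.mul_mem _ (Subgroup.mem_sup_right (S := Q) (centralizerIn_anti hc.le hc'))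
        (Subgroup.mem_sup_left (img_le_iff.2 (fun x hx => e x hx ▸ h3 x hx) h5))
      rwa [mul_inv_cancel_left] at h6
    refine ⟨equivFun γ ∘ g, (isMor_of_mem_autGroup (sup_le (hc.le.trans hT.le) centralizerIn_le)
      hγ).comp hg (hg.isHomOn.mapsTo_sup (fun x hx => Subgroup.mem_sup_left (e x hx ▸ h3 x hx)) hC),
      fun x hx => ?_, fun c hc' => ?_⟩
    · rw [Function.comp_apply, e x hx, eγ _ (h3 x hx), h4 x hx, eα _ (h3 x hx)]
    · simpa [mul_assoc] using T.mul_mem (hm c hc') (hc.le (hγm _ (hC c hc')))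

theorem exists_fix (hF : F.IsSaturated p) (hS : IsPGroup p S) (hT : F.StronglyClosed T)
    {V : Subgroup Ω} (hV : F.StronglyClosed V) (hTV : T ≤ V)
    (hP : P ≤ S) (hU : TC F T (P ⊓ T)) {β : MulAut P} (hβ : β ∈ F.autGroup P)
    (hfix : β ∈ fixAut P T) (ho : (orderOf β).Coprime p) : V ≤ (P ⊓ V) ⊔ T →
      ∃ k, F.IsIso V V k ∧ (∀ t ∈ T, k t = t) ∧ ∀ x ∈ P ⊓ V, (k x)⁻¹ * equivFun β x ∈ T := by
  refine climb_fix hF hS hT (C := fun P β => V ≤ (P ⊓ V) ⊔ T →
    ∃ k, F.IsIso V V k ∧ (∀ t ∈ T, k t = t) ∧ ∀ x ∈ P ⊓ V, (k x)⁻¹ * equivFun β x ∈ T)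
    (fun P Q f hi α h h1 => ?_) (fun P Q hPQ hQ α β e h h1 => ?_)
    (fun P hTP hP β hβ hfix _ h1 => ?_) hP hU hβ hfix ho
  · obtain ⟨g, hg, e⟩ := hF.exists_lift_mod hS hT (hi.mor.mono (inf_le_left : P ⊓ V ≤ P))
    rw [le_antisymm (sup_le inf_le_right hTV) h1] at hg
    have hg' := hV.isIso_self hg
    have hgT := hT.isIso_self (hg.mono hTV)
    have hn := hV.le.trans hT.le_normalizer
    have hf := hV.isIso_inf hi
    obtain ⟨k, hk, k1, k2⟩ := h fun y hy => by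
      obtain ⟨x, hx, rfl⟩ := hg'.surj y hy
      obtain ⟨a, ha, t, ht, rfl⟩ := (mem_sup_of_le_normalizer (inf_le_right.trans hn)).1 (h1 hx)
      rw [hg.map_mul ha.2 (hTV ht), ← mul_inv_cancel_left (f a) (g a), mul_assoc]
      exact Subgroup.mul_mem_sup (hf.mapsTo a ha) (T.mul_mem (e a ha) (hgT.mapsTo t ht))
    obtain ⟨g', hg'', e1, e2⟩ := hg'.exists_symm
    refine ⟨g' ∘ k ∘ g, hg''.comp (hk.comp hg'), fun t ht => ?_, fun x hx => ?_⟩
    · simp only [Function.comp_apply]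
      rw [k1 _ (hgT.mapsTo t ht), e1 t (hTV ht)]
    · have h4 := k2 _ (hf.mapsTo x hx)
      rw [hi.equivFun_congrAut α hx.1] at h4
      have hx' : equivFun α x ∈ P ⊓ V := ⟨equivFun_mem α hx.1, (hV.map_mem_iff hi.mor
        (equivFun_mem α hx.1)).1 (by
          simpa using V.mul_mem (hk.mapsTo _ (hf.mapsTo x hx).2) (hTV h4))⟩
      have h2 := hk.mapsTo _ (hg'.mapsTo x hx.2)
      have h3 := hg''.mapsTo _ h2
      simp only [Function.comp_apply]
      rw [← hT.map_mem_iff hg (V.mul_mem (V.inv_mem h3) hx'.2), hg.map_mul (V.inv_mem h3) hx'.2,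
        hg.map_inv h3, e2 _ h2]
      have h5 := hT.map_mem hk.mor (hTV (e x hx)) (e x hx)
      rw [hk.mor.map_mul (V.inv_mem (hf.mapsTo x hx).2) (hg'.mapsTo x hx.2),
        hk.mor.map_inv (hf.mapsTo x hx).2] at h5
      simpa [mul_assoc] using T.mul_mem (T.mul_mem (T.inv_mem h5) h4) (e _ hx')
  · obtain ⟨k, hk, k1, k2⟩ := h (h1.trans (sup_le_sup_right (inf_le_inf_right _ hPQ) _))
    exact ⟨k, hk, k1, fun x hx => e x hx.1 ▸ k2 x ⟨hPQ hx.1, hx.2⟩⟩
  · have hVP : V ≤ P := h1.trans (sup_le inf_le_left hTP)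
    exact ⟨_, hV.isIso_self ((isMor_of_mem_autGroup hP hβ).mono hVP),
      fun t ht => mem_fixAut.1 hfix t (hTP ht) ht, fun x _ => by simp⟩

theorem mem_extC_of_chain (hS : IsPGroup p S) (hE : E.IsWeaklyNormalIn F p) (hP : TC F T P)
    {α : MulAut T} (hα : α ∈ F.autGroup T) (ho : (orderOf α).Coprime p)
    (hf : GenChain T (PPB E p) P (equivFun α)) : α ∈ extC F T := by
  have hF := hE.2.1
  have hT := Inv.sc hE.2.2
  have hαi := isIso_of_mem_autGroup hT.le hα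
  obtain ⟨g₀, hg₀, e₀⟩ := (hF.isReceptive hS hT.weaklyClosed.isFullyNormalized).exists_ext_centralizerIn
    hαi
  obtain ⟨γ, hγ, hγo, eγ⟩ := exists_coprime_ext le_sup_left
    (isIso_sup_centralizerIn hg₀ (hαi.congr fun x hx => (e₀ x hx).symm)) e₀ ho
  obtain ⟨g, hg, eg, hm⟩ := exists_ext_of_chain hS hE hP hf
  have hV := hF.stronglyClosed_sup_centralizerIn hS hT
  have hWV : P ⊔ centralizerIn S T ≤ T ⊔ centralizerIn S T := sup_le_sup_right hP.le _
  have hCP : centralizerIn S T ≤ Subgroup.normalizer (P : Set Ω) :=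
    (centralizerIn_anti hP.le).trans centralizerIn_le_normalizer
  have hδ := isIso_of_mem_autGroup hV.le (Subgroup.inv_mem _ hγ)
  have hδT := hT.isIso_self (hδ.mor.mono le_sup_left)
  have hgV : ∀ x ∈ P ⊔ centralizerIn S T, g x ∈ T ⊔ centralizerIn S T := fun x hx =>
    hV.map_mem hg hx (hWV hx)
  have hh := hδ.mor.comp hg hgV
  have hfix : ∀ x ∈ P, (equivFun γ⁻¹ ∘ g) x = x := fun x hx => by
    rw [Function.comp_apply, eg x hx, ← eγ x (hP.le hx),
      equivFun_inv_apply γ (Subgroup.mem_sup_left (hP.le hx))]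
  have hmod : ∀ x ∈ P ⊔ centralizerIn S T, x⁻¹ * g x ∈ T := fun x hx => by
    obtain ⟨c, hc, a, ha, rfl⟩ := (mem_sup_of_le_normalizer' (P := P) (Q := centralizerIn S T)
      (hP.le.trans (le_normalizer_centralizerIn hT.le))).1 hx
    have h1 := conj_mem_of_mem_normalizer (T.le_normalizer (T.inv_mem (hP.le ha))) (hm c hc)
    rw [hg.map_mul (Subgroup.mem_sup_right hc) (Subgroup.mem_sup_left ha), eg a ha]
    simpa [mul_assoc] using T.mul_mem h1 (T.mul_mem (T.inv_mem (hP.le ha)) (equivFun_mem α (hP.le ha)))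
  have hsplit : ∀ (n : ℕ), ∀ x ∈ P ⊔ centralizerIn S T, equivFun (γ⁻¹ ^ n) (g x) =
      equivFun (γ⁻¹ ^ n) x * equivFun (γ⁻¹ ^ n) (x⁻¹ * g x) := fun n x hx => by
    rw [← (isHomOn_equivFun _).map_mul (hWV hx) (Subgroup.mem_sup_left (hmod x hx)),
      mul_inv_cancel_left]
  obtain ⟨β, hβ, eβ⟩ := (hh.isIso_self (hh.isHomOn.mapsTo_sup
    (fun x hx => by rw [hfix x hx]; exact Subgroup.mem_sup_left hx) fun c hc => by
      have h1 : equivFun γ⁻¹ c ∈ centralizerIn S T := ⟨hδ.mor.mem (Subgroup.mem_sup_right hc),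
        hδT.map_mem_centralizer hδ.mor le_sup_left (Subgroup.mem_sup_right hc) hc.2⟩
      have h2 := ((isIso_id F (hP.le.trans hT.le)).congr fun x hx => (hfix x hx).symm).map_mem_centralizer
        hh le_sup_left (Subgroup.mem_sup_right hc) (Subgroup.centralizer_le hP.le hc.2)
      have h3 := hsplit 1 c (Subgroup.mem_sup_right hc)
      rw [pow_one] at h3
      rw [Function.comp_apply, h3] at h2 ⊢
      refine Subgroup.mul_mem _ (Subgroup.mem_sup_right h1) (Subgroup.mem_sup_left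
        (hP.cent hT.le ⟨hδT.mapsTo _ (hm c hc), ?_⟩))
      simpa using Subgroup.mul_mem _ (Subgroup.inv_mem _ (Subgroup.centralizer_le hP.le h1.2)) h2)).exists_aut
  have hpow : ∀ (n : ℕ), ∀ x ∈ P ⊔ centralizerIn S T,
      (equivFun (γ⁻¹ ^ n) x)⁻¹ * equivFun (β ^ n) x ∈ T := fun n => by
    induction n with
    | zero => exact fun x hx => by simp [equivFun_one hx, equivFun_one (hWV hx)]
    | succ n ih =>
      intro x hx
      have h1 := ih _ (equivFun_mem β hx)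
      rw [← equivFun_pow_succ' β n hx, eβ x hx, Function.comp_apply,
        ← equivFun_pow_succ' _ n (hgV x hx), hsplit _ x hx] at h1
      have h2 := hT.map_mem (isMor_of_mem_autGroup hV.le (Subgroup.pow_mem _ (Subgroup.inv_mem _ hγ)
        (n + 1))) (Subgroup.mem_sup_left (hmod x hx)) (hmod x hx)
      simpa [mul_assoc] using T.mul_mem h2 h1
  have := finite_of_le hh.le
  have := finite_of_le hV.le
  obtain ⟨m, hmo, hm1⟩ := exists_pow_coprime_modEq (p := p) (isOfFinOrder_of_finite β)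
    (n := orderOf γ⁻¹) (by rwa [orderOf_inv])
  have hWT : (P ⊔ centralizerIn S T) ⊓ T = P := le_antisymm (fun x hx => by
    obtain ⟨a, ha, c, hc, rfl⟩ := (mem_sup_of_le_normalizer (P := P) (Q := centralizerIn S T)
      (hP.le.trans (le_normalizer_centralizerIn hT.le))).1 hx.1
    exact P.mul_mem ha (hP.cent hT.le ⟨by simpa using T.mul_mem (T.inv_mem (hP.le ha)) hx.2,
      Subgroup.centralizer_le hP.le hc.2⟩)) (le_inf le_sup_left hP.le)
  obtain ⟨k, hk, k1, k2⟩ := exists_fix hF hS hT hV le_sup_left hh.le (hWT.symm ▸ hP)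
    (Subgroup.pow_mem _ hβ m) (Subgroup.pow_mem _ (mem_fixAut.2 fun x hx hxT => by
      rw [eβ x hx, hfix x (hWT.le ⟨hx, hxT⟩)]) m) hmo
    (sup_le le_sup_right (le_sup_of_le_left (le_inf le_sup_right le_sup_right)))
  have hγM := isMor_of_mem_autGroup hV.le hγ
  refine mem_extC_of (hγM.comp hk.mor hk.mapsTo) (fun x hx => by
    rw [Function.comp_apply, k1 x hx, eγ x hx]) fun c hc => ?_
  have hc' : c ∈ T ⊔ centralizerIn S T := Subgroup.mem_sup_right hc
  have h1 := hpow m c (Subgroup.mem_sup_right hc)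
  rw [pow_eq_pow_iff_modEq.2 hm1, pow_one] at h1
  have h2 : (equivFun γ⁻¹ c)⁻¹ * k c ∈ T := by
    simpa [mul_assoc] using T.mul_mem h1 (T.inv_mem (k2 c ⟨Subgroup.mem_sup_right hc, hc'⟩))
  have h3 := hT.map_mem hγM (Subgroup.mem_sup_left h2) h2
  rwa [hγM.map_mul (Subgroup.inv_mem _ (hδ.mapsTo c hc')) (hk.mapsTo c hc'),
    hγM.map_inv (hδ.mapsTo c hc'), equivFun_apply_inv γ hc'] at h3

/-- Let F be a saturated fusion system over a finite p-group S and E a weakly normal subsystem of F over T. Then the p'-residual subsystem of E (the least saturated subsystem of E over T of index prime to p) is normal in F. -/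
theorem result {Ω : Type*} [Group Ω] {S : Subgroup Ω} [Finite S] (p : ℕ) [Fact p.Prime] (hS : IsPGroup p S) (F : Cfsg.FusionSystem S) (hF : F.IsSaturated p) {T : Subgroup Ω} (E : Cfsg.FusionSystem T) (hE : E.IsWeaklyNormalIn F p) (D : Cfsg.FusionSystem T) (hD : E.IsPPrimeResidual p D) : D.IsNormalIn F p := by
  have hT := Inv.sc hE.2.2
  have hTp := hS.to_le hT.le
  have := finite_of_le hT.le
  refine H8.isNormalIn_iff.2 ⟨⟨hD.1, hF, isInvariantIn_of_char
    (pPrimeResidual_isNormalIn hE.1 hTp hD).1.2.2 hE.2.2 fun a ha => ?_⟩, ?_⟩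
  · obtain ⟨a', -, hv⟩ := hE.2.2.exists_isoVia ha
    obtain ⟨D', hD'⟩ := exists_isoVia D hv.toGrpIso
    obtain rfl := pPrimeResidual_unique (IsoVia.isPPrimeResidual hv hD' hD) hD
    exact ⟨a', hD'⟩
  · rw [pPrimeResidual_eq hE.1 hTp hD, ppMul_autGroup _ _ _ le_rfl]
    refine (autZero_le_iff hE.1 hTp).2 fun α hα P hc _ hf => ?_
    obtain ⟨y, hy, ⟨k, hk⟩, ho⟩ := exists_parts p α
    have hy' := Subgroup.zpowers_le.2 hα hy
    have h1 := mem_extC_of_chain hS hE ((tc_iff hE.2.2).1 hc) ((Inv.sub hE.2.2).autGroup_le T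
      (Subgroup.mul_mem _ (Subgroup.inv_mem _ hy') hα)) ho ((ppSys_isMor hE.1 hTp).1
        (((isMor_of_mem_autGroup le_rfl (Subgroup.inv_mem _ (ppIn_le_ppSys hE.1 hTp
          (isCentric_top E) (hE.1.isRadical_top hTp) (mem_ppIn hy' hk)))).comp hf
            fun x hx => hf.mem hx).congr fun x hx => (equivFun_mul _ _ (hc.le hx)).symm))
    simpa using Subgroup.mul_mem _ (mem_extC_of_pElt hS hE (isCentric_top E) hy' hk) h1

end Cfsg.Agent.S5141
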