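import Cfsg.Statements.S5153
import Cfsg.Agent.Lib.H8.NormalSub
-- import your own Cfsg.Agent.* helpers here

set_option autoImplicit false
open Cfsg

namespace Cfsg.Agent.S5153

/-- Let F be a saturated fusion system over a finite p-group S and E a subnormal subsystem of F over T. Then every subgroup of T that is fully normalized in F is fully normalized in E. -/
theorem result {Ω : Type*} [Group Ω] {S : Subgroup Ω} [Finite S] (p : ℕ) [Fact p.Prime] (hS : IsPGroup p S) (F : Cfsg.FusionSystem S) (hF : F.IsSaturated p) {T : Subgroup Ω} (E : Cfsg.FusionSystem T) (hE : E.IsSubnormalIn F p) (P : Subgroup Ω) (hPT : P ≤ T) (hP : F.IsFullyNormalized P) : E.IsFullyNormalized P := by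
  exact H8.subnormal_induction
    (C := fun {U} D => D.IsSubsystemOf F ∧ (P ≤ U → D.IsFullyNormalized P))
    (fun D D' hS' hD h => ⟨hD.1.2.2.1.trans h.1, fun hPU => H8.isFullyNormalized_of_sub hD.1.2.1 hS'
      hD.1.2.2.1 hD.1.2.2.2.1 hPU (h.2 (hPU.trans hD.1.2.2.1.le))⟩) hE ‹_› hS
      ⟨Cfsg.FusionSystem.IsSubsystemOf.refl F, fun _ => hP⟩ |>.2 hPT

end Cfsg.Agent.S5153
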