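import Cfsg.Statements.S5162
import Cfsg.Agent.Lib.Lead.Dich
import Cfsg.Agent.Lib.H8.Product
import Cfsg.Agent.Lib.H8.Factor
-- import your own Cfsg.Agent.* helpers here

set_option autoImplicit false
open Cfsg

namespace Cfsg.Agent.S5162

open Cfsg.FusionSystem Cfsg.Agent.H7 Cfsg.Agent.H8 Cfsg.Agent.Lead

variable {Ω : Type*} [Group Ω] {S S₁ S₂ P : Subgroup Ω} {p : ℕ} {F : FusionSystem S}
  {F₁ : FusionSystem S₁} {F₂ : FusionSystem S₂} {f : Ω → Ω}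

structure CP (F₁ : FusionSystem S₁) (F₂ : FusionSystem S₂) (F : FusionSystem S) : Prop where
  split : ∀ P f, F.IsMor P f → ∃ P₁ P₂ f₁ f₂, F₁.IsMor P₁ f₁ ∧ F₂.IsMor P₂ f₂ ∧
    ∀ a ∈ S₁, ∀ b ∈ S₂, a * b ∈ P → a ∈ P₁ ∧ b ∈ P₂ ∧ f (a * b) = f₁ a * f₂ b
  glue : ∀ f₁ f₂, F₁.IsMor S₁ f₁ → F₂.IsMor S₂ f₂ → ∃ f, F.IsMor S f ∧
    ∀ a ∈ S₁, ∀ b ∈ S₂, f (a * b) = f₁ a * f₂ b
  surj : ∀ x ∈ S, ∃ a ∈ S₁, ∃ b ∈ S₂, a * b = x
  comm : ∀ a ∈ S₁, ∀ b ∈ S₂, a * b = b * a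

theorem CP.symm (h : CP F₁ F₂ F) : CP F₂ F₁ F where
  split P f hf := by
    obtain ⟨P₁, P₂, f₁, f₂, h1, h2, e⟩ := h.split P f hf
    refine ⟨P₂, P₁, f₂, f₁, h2, h1, fun b hb a ha hab => ?_⟩
    rw [← h.comm a ha b hb] at hab ⊢
    obtain ⟨e1, e2, e3⟩ := e a ha b hb hab
    exact ⟨e2, e1, by rw [e3, h.comm _ (h1.mem e1) _ (h2.mem e2)]⟩
  glue f₂ f₁ h2 h1 := by
    obtain ⟨f, hf, e⟩ := h.glue f₁ f₂ h1 h2
    exact ⟨f, hf, fun b hb a ha => by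
      rw [← h.comm a ha b hb, e a ha b hb, h.comm _ (h1.mem ha) _ (h2.mem hb)]⟩
  surj x hx := by
    obtain ⟨a, ha, b, hb, e⟩ := h.surj x hx
    exact ⟨b, hb, a, ha, by rw [← h.comm a ha b hb, e]⟩
  comm b hb a ha := (h.comm a ha b hb).symm

theorem cp_of [Finite S₁] [Finite S₂] (hc : IsCentralProductOf F₁ F₂ F) : CP F₁ F₂ F := by
  obtain ⟨D, hD, Z, θ, hZ, -, -, e1, e2, h⟩ := hc
  have m1 : ∀ a ∈ S₁, ((a, 1) : Ω × Ω) ∈ S₁.prod S₂ := fun a ha => ⟨ha, S₂.one_mem⟩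
  have m2 : ∀ b ∈ S₂, ((1, b) : Ω × Ω) ∈ S₁.prod S₂ := fun b hb => ⟨S₁.one_mem, hb⟩
  have hθ : ∀ a ∈ S₁, ∀ b ∈ S₂, homFun θ (a, b) = a * b ∧ homFun θ (a, b) = b * a :=
    fun a ha b hb => by
      have h1 := (isHomOn_homFun θ).map_mul (m1 a ha) (m2 b hb)
      have h2 := (isHomOn_homFun θ).map_mul (m2 b hb) (m1 a ha)
      rw [homFun_of_mem θ (m1 a ha), homFun_of_mem θ (m2 b hb), e1, e2] at h1 h2
      exact ⟨by simpa using h1, by simpa using h2⟩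
  refine ⟨fun P f hf => ?_, fun f₁ f₂ h1 h2 => ?_, fun x hx => ?_,
    fun a ha b hb => (hθ a ha b hb).1.symm.trans (hθ a ha b hb).2⟩
  · obtain ⟨-, g, hg, e⟩ := (factor_isMor_iff h).1 hf
    obtain ⟨f₁, f₂, h1, h2, e'⟩ := prod_isIso_split hD hg.isIso_img
    refine ⟨_, _, f₁, f₂, h1.mor, h2.mor, fun a ha b hb hab => ?_⟩
    have hm : (a, b) ∈ preimageAlong θ P :=
      mem_preimageAlong.2 ⟨⟨ha, hb⟩, by rwa [(hθ a ha b hb).1]⟩
    have ha' := mem_pr₁.2 ⟨_, hm, rfl⟩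
    have hb' := mem_pr₂.2 ⟨_, hm, rfl⟩
    exact ⟨ha', hb', by
      rw [← (hθ a ha b hb).1, e _ hm, e' _ hm, (hθ _ (h1.mor.mem ha') _ (h2.mor.mem hb')).1]⟩
  · have hg := prod_isMor hD h1 h2 le_rfl
    obtain ⟨f, e⟩ := factor_exists_induced h ((isCentral_center D).mono hZ).isNormal.stronglyClosed hg
    have hf := factor_isMor_of_le h hg (factor_le h) e
    rw [← range_eq_img_homFun, factor_range h] at hf
    exact ⟨f, hf, fun a ha b hb => by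
      rw [← (hθ a ha b hb).1, e _ ⟨ha, hb⟩, (hθ _ (h1.mem ha) _ (h2.mem hb)).1]⟩
  · obtain ⟨⟨a, b⟩, ⟨ha, hb⟩, rfl⟩ := factor_surj h hx
    exact ⟨a, ha, b, hb, (hθ a ha b hb).1.symm⟩

theorem CP.res (h : CP F₁ F₂ F) (hf : F.IsMor P f) : F₁.IsMor (P ⊓ S₁) f := by
  obtain ⟨P₁, P₂, f₁, f₂, h1, h2, e⟩ := h.split P f hf
  have e' := fun a (ha : a ∈ P ⊓ S₁) => e a ha.2 1 S₂.one_mem (by simpa using ha.1)
  exact (h1.mono fun a ha => (e' a ha).1).congr fun a ha => by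
    simpa [h2.map_one] using (e' a ha).2.2.symm

theorem CP.isNormalIn [Finite S] (h : CP F₁ F₂ F) (hF : F.IsSaturated p) (h₁ : F₁.IsSaturated p)
    (h₁F : F₁.IsSubsystemOf F) (h₂F : F₂.IsSubsystemOf F) : F₁.IsNormalIn F p := by
  have full : ∀ P f, P ≤ S₁ → F.IsMor P f → F₁.IsMor P f := fun P f hP hf =>
    (h.res hf).mono (le_inf le_rfl hP)
  refine H8.isNormalIn_iff.2 ⟨⟨h₁, hF, H8.isInvariantIn_iff.2 ⟨h₁F, stronglyClosed_iff.2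
    ⟨h₁F.le, fun P f hf x hx hx' => (h.res hf).mem ⟨hx, hx'⟩⟩, fun P f g hf hg => ?_,
    fun P f hP hf => frM_of_isMor h₁F.le (full P f hP hf)⟩⟩, fun α hα => ?_⟩
  · obtain ⟨k, hk, e, -⟩ := (hg.mor.mono hf.le).isIso_img.exists_symm
    refine ⟨g ∘ f ∘ k, full _ _ (img_le_iff.2 fun x hx => hg.mapsTo x (hf.le hx))
      (hg.mor.comp ((h₁F.isMor hf).comp hk.mor hk.mapsTo) fun x hx => hf.mem (hk.mapsTo x hx)),
      fun x hx => by simp [e x hx]⟩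
  · obtain ⟨f, hf, e⟩ := h.glue _ id (isMor_of_mem_autGroup le_rfl hα) (isMor_id F₂ le_rfl)
    refine mem_extC_of (hf.mono (sup_le h₁F.le centralizerIn_le))
      (fun x hx => by simpa using e x hx 1 S₂.one_mem) fun c hc => ?_
    obtain ⟨a, ha, b, hb, rfl⟩ := h.surj c hc.1
    rw [e a ha b hb, id, h.comm _ (equivFun_mem α ha) b hb, h.comm a ha b hb]
    simpa [mul_assoc] using S₁.mul_mem (S₁.inv_mem ha) (equivFun_mem α ha)

/-- Let F be a saturated fusion system over a finite p-group S that is a central product of two saturated subsystems F₁ (over S₁) and F₂ (over S₂) inside S. Then every component of F is a component of F₁ or a component of F₂. -/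
theorem result {Ω : Type*} [Group Ω] {S : Subgroup Ω} [Finite S] (p : ℕ) [Fact p.Prime] (hS : IsPGroup p S) (F : Cfsg.FusionSystem S) (hF : F.IsSaturated p) {S₁ S₂ : Subgroup Ω} (F₁ : Cfsg.FusionSystem S₁) (F₂ : Cfsg.FusionSystem S₂) (h₁ : F₁.IsSaturated p) (h₂ : F₂.IsSaturated p) (h₁F : F₁.IsSubsystemOf F) (h₂F : F₂.IsSubsystemOf F) (hc : Cfsg.FusionSystem.IsCentralProductOf F₁ F₂ F) {T : Subgroup Ω} (C : Cfsg.FusionSystem T) (hC : C.IsComponentIn F p) : C.IsComponentIn F₁ p ∨ C.IsComponentIn F₂ p := by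
  have := finite_of_le h₁F.le
  have := finite_of_le h₂F.le
  have h := cp_of hc
  have n2 := h.symm.isNormalIn hF h₂ h₂F h₁F
  rcases weak_dichotomy hS hC (h.isNormalIn hF h₁ h₁F h₂F) with h1 | h1
  · exact .inl ⟨h1, hC.2⟩
  refine .inr (isComponentIn_of_le hS hC n2 ((Quasisimple.le_focal hC.2).trans
    (focalSubgroup_le_iff.2 fun P f hf x hx => ?_)))
  obtain ⟨hP, g, hg, e, e'⟩ := h1 P f hf
  obtain ⟨a, ha, b, hb, rfl⟩ := h.surj x (hP hx).1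
  have ha' : a ∈ P ⊔ S₁ := Subgroup.mem_sup_right ha
  have hb' : b ∈ P ⊔ S₁ := by
    simpa using Subgroup.mul_mem _ (Subgroup.inv_mem _ ha') (Subgroup.mem_sup_left hx)
  rw [← e _ hx, hg.map_mul ha' hb', e' a ha]
  simpa [mul_assoc] using S₂.mul_mem (S₂.inv_mem hb) ((Inv.sc n2.1.2.2).map_mem hg hb' hb)

end Cfsg.Agent.S5162
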