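import Cfsg.Statements.S5176
import Cfsg.Agent.Lib.QP.Two
import Cfsg.Agent.Lib.QP.Uniq
import Cfsg.Agent.Lib.QP.Model

set_option autoImplicit false
universe u
open Cfsg

namespace Cfsg.Agent.S5176

/-- The fusion-system form of the standard form problem for SL(2, q), q odd. Let F be a simple saturated fusion system over a finite 2-group S and let R ≤ S be generalized quaternion of order at least 16. Suppose R is weakly closed in S with respect to F, and R is strongly closed in the centralizer system C_F(⟨y⟩) for every involution y of C_S(R). Then either F is the 2-fusion system of PSL(3, q) or of G₂(q) for some odd q (realized by an injective homomorphism of S onto a Sylow 2-subgroup), or S contains a quasi-dihedral subgroup that is strongly closed in F. -/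
theorem result {Ω : Type u} [Group Ω] {S : Subgroup Ω} [Finite S] (hS : IsPGroup 2 S)
    (F : Cfsg.FusionSystem S) (hF : F.IsSimple 2)
    (R : Subgroup Ω) (hRS : R ≤ S) (k : ℕ) (hk : 2 ≤ k) (eR : ↥R ≃* QuaternionGroup (2 ^ k))
    (hW : F.WeaklyClosed R)
    (hC : ∀ y ∈ Cfsg.FusionSystem.centralizerIn S R, orderOf y = 2 →
      ∀ C : Cfsg.FusionSystem (Cfsg.FusionSystem.centralizerIn S (Subgroup.zpowers y)),
        F.IsCentralizerSystem (Subgroup.zpowers y) C → C.StronglyClosed R) :
    (∃ (K : Type) (_ : Field K) (_ : Fintype K), Odd (Fintype.card K) ∧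
        ((∃ ι : ↥S →* Matrix.ProjectiveSpecialLinearGroup (Fin 3) K, F.IsRealizedBy ι ∧
            ∃ T : Sylow 2 (Matrix.ProjectiveSpecialLinearGroup (Fin 3) K),
              (T : Subgroup (Matrix.ProjectiveSpecialLinearGroup (Fin 3) K)) = ι.range) ∨
         (∃ ι : ↥S →* ↥(Cfsg.Lie.G2 K), F.IsRealizedBy ι ∧
            ∃ T : Sylow 2 ↥(Cfsg.Lie.G2 K), (T : Subgroup ↥(Cfsg.Lie.G2 K)) = ι.range))) ∨
      ∃ P : Subgroup Ω, P ≤ S ∧ Cfsg.IsQuasiDihedral ↥P ∧ F.StronglyClosed P := by
  open H6 H2 QP FusionSystem Subgroup in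
  have hsat : F.IsSaturated 2 := hF.1
  haveI : Finite R := finite_of_le hRS
  obtain ⟨k', r, y, e, hm⟩ := exists_mc_of_quaternion (hS.to_le hRS)
    (n := 2 ^ k) (by calc 2 = 2 ^ 1 := rfl
                        _ ≤ 2 ^ k := Nat.pow_le_pow_right (by norm_num) (by omega)) eR
  obtain ⟨j, rfl⟩ : ∃ j, k' = j + 1 := ⟨k' - 1, by
    have : k = k' + 1 := Nat.pow_right_injective le_rfl (by simpa [pow_succ, mul_comm] using e)
    omega⟩
  have hz : orderOf (y * y) = 2 := by rw [hm.sq, mul_one]; exact hm.orderOf_z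
  have hzS : y * y ∈ S := hRS (mul_mem hm.y_mem hm.y_mem)
  have h : Ctx F R (2 ^ (j + 1)) r y := ⟨hS, hsat, hm, ⟨j, rfl⟩, hW, fun s hs h1 h2 ho P f hf hP e x hx hxR => by
    have hsR : ∀ v ∈ R, v * s = s * v := fun v hv =>
      (mem_centralizer_singleton_iff.1 (hm.le_of_mem (T := centralizer {s})
        (mem_centralizer_singleton_iff.2 h1.symm) (mem_centralizer_singleton_iff.2 h2.symm) hv))
    obtain ⟨C, hCC⟩ := F.exists_centralizerSystem ((zpowers_le_of_mem hs : zpowers s ≤ S))
    have hxC : zpowers x ≤ centralizerIn S (zpowers s) := zpowers_le_of_mem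
      (mem_centralizerIn'.2 ⟨hRS hxR, fun v ⟨n, hn⟩ => hn ▸
        ((Commute.zpow_right (hsR x hxR : Commute x s) n).symm : _)⟩)
    exact (hC s (mem_centralizerIn'.2 ⟨hs, hsR⟩) ho C hCC).map_mem
      (hCC.isKNormSys.bot_isMor_of_fixed hf (zpowers_le_of_mem hP) (zpowers_le_of_mem hx) hxC
        (fix_zpowers hf.isHomOn hP e)) (mem_zpowers x) hxR⟩
  have hc : 2 < Nat.card S := by
    have := card_le_of_le hRS
    rw [hm.card] at this
    have := hm.pos
    omega
  have hn : ¬ F.IsNormal S := fun h => hF.2.1 (simple_normal hS hF hc h)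
  have hh := simple_hyp_eq hS hF fun e => hn (by
    rw [e]; exact FusionSystem.innerFusionSystem_isNormal le_rfl Subgroup.le_normalizer)
  obtain ⟨t, ht, hne⟩ : ∃ t, F.IsConjElt (y * y) t ∧ t ≠ y * y := by
    by_contra! hc'
    have := (hsat.mem_center_iff hS).2 ⟨hzS, hc'⟩
    rw [simple_normal hS hF hc F.isCentral_center.isNormal, mem_bot] at this
    simp [this] at hz
  by_cases hall : ∀ s, F.IsConjElt (y * y) s → s ≠ y * y → ∀ w ∈ R, w * w = y * y → s * w ≠ w * s
  · exact Or.inr (h.case1 ht hne hall)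
  push Not at hall
  obtain ⟨s, hs, hne', w, hw, hww, hc'⟩ := hall
  obtain ⟨K, _, _, hK, u, hu, e'⟩ := exists_field_minus (j + 1)
  refine Or.inl ⟨K, inferInstance, inferInstance, Nat.odd_iff.2 (by omega), ?_⟩
  rcases h.case2 hs hne' hw hww hc' hh with ⟨a, b, v, hw⟩ | ⟨a, b, y', ι, h1, h2, h3, h4⟩
  · have := wr_hasOdd_of_hyp hw hsat hh
    exact Or.inl ((wmodel_SL3 hK hu e').realizedIn hw hsat (iff_true_intro this.1) this.2).psl3
  · obtain ⟨U, a', b', y'', ι', hM⟩ := exists_GM K hK hu e'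
    exact Or.inr (h1.realizedIn hsat h2 h3 h4 hh hM)

end Cfsg.Agent.S5176
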