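import Cfsg.Statements.S5196
import Cfsg.Agent.Lib.H1.FusionTools

set_option autoImplicit false
universe u
open Cfsg

namespace Cfsg.Agent.S5196

/-- Let p be an odd prime and W a positive characteristic p-functor: W assigns to every finite p-group Q (in a fixed universe) a subgroup W(Q), nontrivial when Q is, carried to W(R) by every isomorphism Q ≅ R; assume also Z(Q) ≤ W(Q) for every finite p-group Q. Suppose W satisfies the local condition: for every finite group G with Sylow p-subgroup P, O_p(G) ∩ Z(G) = O_p(G) ∩ Z(N_G(W(P))). Then W controls weak closure of elements in every saturated fusion system F over a finite p-group S: the centre of the normalizer fusion system of W(S) in F equals the centre of F. (For p = 2 no functor satisfies the local condition, so p is taken odd.) -/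
theorem result {p : ℕ} [Fact p.Prime] (hp : p ≠ 2) (W : ∀ (Q : Type u) [Group Q], Subgroup Q) (hW1 : ∀ (Q : Type u) [Group Q] [Finite Q], IsPGroup p Q → Nontrivial Q → W Q ≠ ⊥) (hW2 : ∀ (Q R : Type u) [Group Q] [Group R] [Finite Q], IsPGroup p Q → ∀ φ : Q ≃* R, (W Q).map φ.toMonoidHom = W R) (hWZ : ∀ (Q : Type u) [Group Q] [Finite Q], IsPGroup p Q → Subgroup.center Q ≤ W Q) (hC : ∀ (G : Type u) [Group G] [Finite G] (P : Sylow p G), Cfsg.pCore p G ⊓ Subgroup.center G = Cfsg.pCore p G ⊓ (Subgroup.center ↥(Subgroup.normalizer (((W ↥(P : Subgroup G)).map (P : Subgroup G).subtype : Subgroup G) : Set G))).map (Subgroup.normalizer (((W ↥(P : Subgroup G)).map (P : Subgroup G).subtype : Subgroup G) : Set G)).subtype) {Ω : Type u} [Group Ω] {S : Subgroup Ω} [Finite S] (hS : IsPGroup p S) (F : Cfsg.FusionSystem S) (hF : F.IsSaturated p) (N : Cfsg.FusionSystem (Cfsg.FusionSystem.normalizerIn S ((W ↥S).map S.subtype))) (hN : F.IsNormalizerSystem ((W ↥S).map S.subtype) N) : N.center = F.center := by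
  have hW : H1.IsNatural p W := hW2
  have hn : FusionSystem.normalizerIn S (H1.wOf W S) = S := H1.normalizerIn_wOf hW hS
  have hNs : N.IsSaturated p := hN.isSaturated hF hS
    (F.isFullyNormalized_of_le_normalizer (H1.wOf_le S) (H1.le_normalizer_wOf hW hS))
  refine le_antisymm (fun x hx => ?_)
    (H1.center_le_center_of_subsystem hNs hS hN.isSubsystemOf hn.ge)
  have hx1 : x ∈ FusionSystem.centralizerIn S S := by
    have := N.center_le_centralizerIn hx
    exact ⟨this.1.1, fun y hy => this.2 y (hn.ge hy)⟩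
  refine H1.mem_center_of_local hW hWZ hF hS hx1 (fun f hf => ?_) ?_
  · have h1 : N.IsMor (H1.wOf W S) f := hN.isKNormSys.top_isMor_of_isIso hf.mor le_rfl le_rfl
      (FusionSystem.le_normalizerIn (H1.wOf_le S)) hf
    exact h1.apply_eq_of_mem_center (H1.centralizerIn_le_wOf hWZ hS hx1) hx
  · intro Q hQ hxQ G _ _ j hM hg g
    obtain ⟨P, hP⟩ := H7.sylowIn_top_iff.1 hM.syl
    have h1 : j x ∈ pCore p G :=
      hM.le_pCore (FusionSystem.mem_img_of_mem j (Subgroup.mem_sup_left hxQ))
    have h2 : j x ∈ Subgroup.normalizer (H1.wOf W (P : Subgroup G) : Set G) :=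
      H1.le_normalizer_wOf hW P.isPGroup' (H1.pCore_le_sylow P h1)
    have h3 : j x ∈ pCore p G ⊓ Subgroup.center G := by
      rw [hC G P]
      refine ⟨h1, ⟨j x, h2⟩, Subgroup.mem_center_iff.2 fun y => Subtype.ext ?_, rfl⟩
      have := hg y (by rw [← hP]; exact y.2)
      show (y : G) * j x = j x * y
      rw [← mul_inv_eq_iff_eq_mul, this]
    rw [mul_inv_eq_iff_eq_mul]
    exact Subgroup.mem_center_iff.1 h3.2 g

end Cfsg.Agent.S5196
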