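import Cfsg.Statements.S5198
import Cfsg.Agent.Lib.H8.Hyp
-- import your own Cfsg.Agent.* helpers here

set_option autoImplicit false
open Cfsg

namespace Cfsg.Agent.S5198

open Cfsg.FusionSystem Cfsg.Agent.H8 Cfsg.Agent.H7 in
/-- The elements of `S` acting on `T` as an element of `A`. -/
def actSub {Ω : Type*} [Group Ω] (S T : Subgroup Ω) (hT : S ≤ Subgroup.normalizer (T : Set Ω))
    (A : Subgroup (MulAut T)) : Subgroup Ω where
  carrier := {x | ∃ hx : x ∈ S, conjAut T (hT hx) ∈ A}
  mul_mem' := by
    rintro a b ⟨ha, ha'⟩ ⟨hb, hb'⟩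
    refine ⟨S.mul_mem ha hb, ?_⟩
    have : conjAut T (hT (S.mul_mem ha hb)) = conjAut T (hT ha) * conjAut T (hT hb) :=
      (eq_conjAut _ fun x hx => by
        rw [equivFun_mul _ _ hx, equivFun_conjAut _ hx,
          equivFun_conjAut _ (conj_mem_of_mem_normalizer (hT hb) hx)]; group).symm
    rw [this]; exact A.mul_mem ha' hb'
  one_mem' := ⟨S.one_mem, by
    rw [mulAut_eq_one (α := conjAut T _) fun x hx => by rw [equivFun_conjAut _ hx]; simp]
    exact A.one_mem⟩
  inv_mem' := by
    rintro a ⟨ha, ha'⟩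
    refine ⟨S.inv_mem ha, ?_⟩
    have : conjAut T (hT (S.inv_mem ha)) = (conjAut T (hT ha))⁻¹ :=
      eq_inv_of_mul_eq_one_left (mulAut_eq_one fun x hx => by
        rw [equivFun_mul _ _ hx, equivFun_conjAut _ hx,
          equivFun_conjAut _ (conj_mem_of_mem_normalizer (hT ha) hx)]; group)
    rw [this]; exact A.inv_mem ha'

/-- Let F be a saturated fusion system over a finite p-group S and T a subgroup of S strongly closed in F (so T is normal in S). Then every element x of the hyperfocal subgroup of F acts on T by conjugation as an element of O^p(Aut_F(T))·Inn(T): there is an automorphism of T in the subgroup generated by the elements of Aut_F(T) of order prime to p together with the inner automorphisms of T that agrees with conjugation by x. -/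
theorem result {Ω : Type*} [Group Ω] {S : Subgroup Ω} [Finite S] (p : ℕ) [Fact p.Prime] (hS : IsPGroup p S) (F : Cfsg.FusionSystem S) (hF : F.IsSaturated p) (T : Subgroup Ω) (hT : F.StronglyClosed T) : ∀ x ∈ F.hyperfocalSubgroup p, ∃ α ∈ ((Cfsg.pResidual p ↥(F.autGroup T)).map (F.autGroup T).subtype ⊔ Cfsg.Inn ↥T : Subgroup (MulAut ↥T)), ∀ t : ↥T, ((α t : ↥T) : Ω) = x * (t : Ω) * x⁻¹ := by
  open Cfsg.FusionSystem Cfsg.Agent.H8 Cfsg.Agent.H7 in
  rw [← pResIn_eq_map]
  set A : Subgroup (MulAut T) := pResIn p (F.autGroup T) ⊔ Inn T with hA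
  have hN := hT.le_normalizer
  have hAn : F.autGroup T ≤ Subgroup.normalizer (A : Set (MulAut T)) := fun α hα =>
    mem_normalizer_sup (le_normalizer_pResIn hα) (le_normalizer_inn _ hα)
  have key : F.hyperfocalSubgroup p ≤ actSub S T hN A := by
    refine hyp_le_of_above hF hS hT (le_normalizer_of_conj_mem ?_) (fun t ht => ⟨hT.le ht,
      Subgroup.mem_sup_right ?_⟩) fun P hP _ _ hTP α hα ho x hx => ?_
    · rintro s hs a ⟨ha, ha'⟩
      refine ⟨S.mul_mem (S.mul_mem hs ha) (S.inv_mem hs), ?_⟩
      have := conj_mem_of_mem_normalizer (hAn (conjAut_mem_autGroup F hT.le hs (hN hs))) ha'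
      convert this using 1
      refine (eq_conjAut _ fun x hx => ?_).symm
      have hx' := inv_conj_mem_of_mem_normalizer (hN hs) hx
      have e : x = equivFun (conjAut T (hN hs)) (s⁻¹ * x * s) := by
        rw [equivFun_conjAut _ hx']; group
      conv_lhs => rw [e, equivFun_conj' _ _ hx', equivFun_conjAut _ hx',
        equivFun_conjAut _ (conj_mem_of_mem_normalizer (hN ha) hx')]
      group
    · rw [inn_eq_autInducedBy]; exact conjAut_mem_autInducedBy ht _
    · have hxS := hP.le hx
      have hαx := equivFun_mem α hx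
      refine ⟨S.mul_mem (S.inv_mem hxS) (hP.le hαx), Subgroup.mem_sup_left ?_⟩
      obtain ⟨β, e⟩ := exists_res hTP (autGroup_le_stabAut hT hP.le hα)
      have hβ : β ∈ F.autGroup T := (mem_autGroup_iff hT.le).2
        (((isMor_of_mem_autGroup hP.le hα).mono hTP).congr e).isIso_equivFun
      have hβ' : β ∈ pResIn p (F.autGroup T) := mem_pResIn hβ (coprime_of_res hTP e ho)
      have h1 := inv_conj_mem_of_mem_normalizer
        (le_normalizer_pResIn (p := p) (conjAut_mem_autGroup F hT.le hxS (hN hxS))) hβ'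
      convert Subgroup.mul_mem _ h1 (Subgroup.inv_mem _ hβ') using 1
      refine (eq_conjAut _ fun y hy => ?_).symm
      have hy' := equivFun_mem β⁻¹ hy
      have hc := conj_mem_of_mem_normalizer (hN hxS) hy'
      rw [equivFun_mul _ _ hy, equivFun_mul _ _ hy', equivFun_conjAut _ hy', equivFun_mul _ _ hc,
        ← e _ hc, (isHomOn_equivFun α).map_conj hx (hTP hy'), e _ hy', equivFun_apply_inv β hy]
      have hc2 := inv_conj_mem_of_mem_normalizer (hN hxS)
        (conj_mem_of_mem_normalizer (hN (hP.le hαx)) hy)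
      apply equivFun_inj (α := conjAut T (hN hxS)) (equivFun_mem _
        (conj_mem_of_mem_normalizer (hN (hP.le hαx)) hy))
        (conj_mem_of_mem_normalizer (hN (S.mul_mem (S.inv_mem hxS) (hP.le hαx))) hy)
      rw [equivFun_apply_inv _ (conj_mem_of_mem_normalizer (hN (hP.le hαx)) hy),
        equivFun_conjAut _ (conj_mem_of_mem_normalizer (hN (S.mul_mem (S.inv_mem hxS)
          (hP.le hαx))) hy)]
      group
  intro x hx
  obtain ⟨hxS, h⟩ := key hx
  exact ⟨_, h, fun t => coe_conjAut _ t⟩

end Cfsg.Agent.S5198
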