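import Cfsg.Statements.S5200
import Cfsg.Agent.Lib.H7.Trace
import Cfsg.Agent.Lib.Lead.CentSys
import Cfsg.Agent.Lib.Lead.Expand
import Cfsg.Agent.Lib.Lead.Family4
import Cfsg.Agent.Lib.H1.Inner

set_option autoImplicit false
open Cfsg

namespace Cfsg.Agent.S5200

open Cfsg.FusionSystem Cfsg.Agent.H7 Cfsg.Agent.H8 Cfsg.Agent.Lead
open scoped commutatorElement

theorem exists_relTrace' {G V : Type*} [Group G] [CommGroup V] (ρ : G →* MulAut V)
    (H : Subgroup G) [Finite G] (K : Subgroup V) {x : V} (hx : ∀ h ∈ H, ρ h x = x)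
    (hK : ∀ g, x⁻¹ * ρ g x ∈ K) : ∃ y : V, (∀ g, ρ g y = y) ∧ (x ^ H.index)⁻¹ * y ∈ K := by
  classical
  have := Fintype.ofFinite (G ⧸ H)
  refine ⟨∏ q : G ⧸ H, ρ q.out x, fun g => ?_, ?_⟩
  · have key : ∀ a : G, ρ (QuotientGroup.mk a : G ⧸ H).out x = ρ a x := by
      intro a
      obtain ⟨h, e⟩ := QuotientGroup.mk_out_eq_mul H a
      rw [e, map_mul, MulAut.mul_apply, hx h h.2]
    simp only [map_prod]
    refine Fintype.prod_equiv (MulAction.toPerm g) _ _ fun q => ?_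
    obtain ⟨a, rfl⟩ := QuotientGroup.mk_surjective q
    rw [key, MulAction.toPerm_apply, MulAction.Quotient.smul_mk, key, smul_eq_mul, map_mul,
      MulAut.mul_apply]
  · rw [Subgroup.index, Nat.card_eq_fintype_card, ← inv_pow, ← Finset.card_univ,
      ← Finset.prod_const, ← Finset.prod_mul_distrib]
    exact K.prod_mem fun g _ => hK _

theorem commutator_sup_le {Ω : Type*} [Group Ω] {T A : Subgroup Ω}
    (hn : A ≤ Subgroup.normalizer (T : Set Ω)) (h : ∀ c ∈ A, ∀ d ∈ A, ⁅c, d⁆ ∈ T) :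
    ⁅T ⊔ A, T ⊔ A⁆ ≤ T := by
  refine Subgroup.commutator_le.2 fun x hx y hy => ?_
  rw [sup_comm] at hx hy
  obtain ⟨t, ht, c, hc, rfl⟩ := (mem_sup_of_le_normalizer' hn).1 hx
  obtain ⟨u, hu, d, hd, rfl⟩ := (mem_sup_of_le_normalizer' hn).1 hy
  have h3 : ⁅t * c, u * d⁆ = t * (c * u * c⁻¹) * ⁅c, d⁆ * (d * t⁻¹ * d⁻¹) * u⁻¹ := by
    simp only [commutatorElement_def]; group
  rw [h3]
  exact T.mul_mem (T.mul_mem (T.mul_mem (T.mul_mem ht (conj_mem_of_mem_normalizer (hn hc) hu))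
    (h c hc d hd)) (conj_mem_of_mem_normalizer (hn hd) (T.inv_mem ht))) (T.inv_mem hu)

section

variable {Ω : Type*} [Group Ω] {S T P U : Subgroup Ω} {p : ℕ} {F : FusionSystem S}
  {E : FusionSystem T} [Finite S] [Fact p.Prime]

open scoped IsMulCommutative in
theorem mem_sup_center (hF : F.IsSaturated p) (hS : IsPGroup p S) (hp : p ≠ 2)
    (hT : F.focalSubgroup ≤ T) {x : Ω} (hx : x ∈ centralizerIn S S) : x ∈ F.center ⊔ T := by
  set J := thompsonSubgroupAOf S with hJ
  have hJS : J ≤ S := H1.thompson_le S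
  have := finite_of_le hJS
  have := F.finite_autGroup J
  have hsyl := hF.sylowIn hS
    (F.isFullyNormalized_of_le_normalizer hJS (H1.le_normalizer_thompson S))
  let φ : F.autGroup J →* MulAut (Subgroup.center J) :=
    (MulAut.characteristic (Subgroup.center J)).comp (F.autGroup J).subtype
  have hφ : ∀ γ (x : Subgroup.center J), ((φ γ x : J) : Ω) = equivFun (γ : MulAut J) x :=
    fun γ x => (equivFun_coe _ _).symm
  have hxJ := H1.centralizerIn_le_thompson S hx
  obtain ⟨y, h1, h2⟩ := exists_relTrace' φ ((autInducedBy S J).subgroupOf (F.autGroup J))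
    ((T.comap J.subtype).comap (Subgroup.center J).subtype)
    (x := ⟨⟨x, hxJ⟩, Subgroup.mem_center_iff.2 fun z => Subtype.ext (hx.2 z (hJS z.2))⟩)
    (fun h hh => by
      obtain ⟨a, ha, -, e⟩ := mem_autInducedBy_iff'.1 hh
      refine Subtype.ext (Subtype.ext ?_)
      rw [hφ]
      exact (e x hxJ).trans (by rw [hx.2 a ha, mul_inv_cancel_right]))
    (fun g => by
      have := hT ((isMor_of_mem_autGroup hJS g.2).mem_focalSubgroup hxJ)
      rw [← hφ g ⟨⟨x, hxJ⟩, Subgroup.mem_center_iff.2 fun z => Subtype.ext (hx.2 z (hJS z.2))⟩]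
        at this
      exact this)
  have h3 : ∀ f, F.IsIso J J f → f y = y := fun f hf => by
    obtain ⟨α, hα, e⟩ := hf.exists_aut
    rw [← e _ y.1.2, ← hφ ⟨α, hα⟩, h1]
  have h4 : ((y : J) : Ω) ∈ F.center :=
    H1.mem_center_of_thompson hF hS (Or.inl hp) ⟨hJS y.1.2, fun s hs =>
      mul_inv_eq_iff_eq_mul.1 (h3 _ ((F.isMor_conj hJS hs).isIso_self fun x hx =>
        conj_mem_of_mem_normalizer (H1.le_normalizer_thompson S hs) hx))⟩ h3
  refine mem_of_pow_mem_of_not_dvd hS hx.1 hsyl.not_dvd_relIndex ?_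
  have h5 : (x ^ (autInducedBy S J).relIndex (F.autGroup J))⁻¹ * ((y : J) : Ω) ∈ T := h2
  simpa using Subgroup.mul_mem_sup h4 (T.inv_mem h5)

variable (hF : F.IsSaturated p) (hS : IsPGroup p S) (hE : E.IsNormalIn F p) (hC : CE E F p ≤ T)
include hF hS hE hC

theorem exists_conj_of_fix (hU : TC F T U) (hfn : F.IsFullyNormalized U) (hUP : U ≤ P)
    (hP : P ≤ normalizerIn S U) {g : Ω → Ω} (hg : F.IsMor P g) (hfix : ∀ x ∈ U, g x = x) :
    ∃ s ∈ S, ∀ x ∈ P, g x = s * x * s⁻¹ := by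
  have hT := Inv.sc hE.1.2.2
  obtain ⟨N, hN⟩ := F.exists_isKNormSys hfn.le (autInducedBy S U)
    (kNormalizerIn_eq_normalizerIn le_rfl).symm
  have hNs := hN.isSaturated hF hS (hF.isFullyKNormalized_of_le hS hfn le_rfl)
  have hp : IsPGroup p (normalizerIn S U) := hS.to_le normalizerIn_le
  have hUn := hN.isNormal (le_normalizerIn hfn.le)
  have h1 : N = innerFusionSystem _ := by
    refine hNs.eq_inner_of_isPGroup hp fun X hX => ?_
    have hXN : X ≤ normalizerIn S U := (hNs.of_top_or_essential hp hX).1.le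
    have hUX : U ≤ X := by
      rcases hX with rfl | hX
      · exact hUn.le
      · exact hUn.le_of_essential hp hX
    have hXS : X ≤ S := hXN.trans normalizerIn_le
    refine isPGroup_of_coprime_eq_one fun φ hφ ho => ?_
    obtain ⟨-, hφF, κ, hκ, e⟩ := (hN.isMor_iff_of_le hUX).1 (isMor_of_mem_autGroup hXN hφ)
    have hκ1 : κ = 1 := by
      obtain ⟨k, hk⟩ := isPGroup_autInducedBy hS U ⟨κ, hκ⟩
      exact orderOf_eq_one_iff.1 ((Nat.coprime_self _).1 (Nat.Coprime.coprime_dvd_right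
        (orderOf_dvd_of_pow_eq_one (by simpa using congrArg Subtype.val hk))
        ((coprime_of_res hUX e ho).pow_right k)))
    have hφ' := hN.isSubsystemOf.autGroup_le X hφ
    have h2 : φ ∈ fixAut X T := mem_fixAut_lift hS hT
      (by rw [inf_eq_left.2 hU.le]; exact hU.cent hT.le) hUX hXN hφ' ho
      (hκ1 ▸ Subgroup.one_mem _) e
    have h3 := mem_modAut_CE hF hS hE hXS (hU.mono (le_inf hUX hU.le) inf_le_right) hφ' h2 ho
    exact mulAut_eq_one fun x hx =>
      apply_eq_of_two_step (hS.to_le hXS) ho (N := T) (fun y hy => hC (h3 y hy)) h2 hx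
  obtain ⟨s, hs, e⟩ := eq_inner_iff.1 h1 P g (hN.isMor_of_ext hg hUP le_rfl hP
    (Subgroup.one_mem _) fun x hx => by rw [hfix x hx, equivFun_one hx])
  exact ⟨s, hs.1, e⟩

theorem mem_modAut_of_resE (hP : P ≤ S) (hU : TC F T (P ⊓ T)) {α : MulAut P}
    (hα : α ∈ F.autGroup P) (hr : α ∈ resE E P) (ho : (orderOf α).Coprime p) :
    α ∈ modAut P T := by
  have hI := hE.1.2.2
  have hT := Inv.sc hI
  obtain ⟨P', χ, -, hi, -, hfn⟩ := exists_fn_pair hF hS hT hP
  rw [← congrAut_mem_modAut_iff hT hi]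
  have hU' := hU.of_isIso hT (hT.isIso_inf hi)
  have hα' := hi.congrAut_mem_autGroup_iff.2 hα
  have hr' := congrAut_mem_resE hI hi hr
  have ho' := coprime_congrAut hi ho
  have hP' := hi.le_right
  generalize hi.congrAut α = β at hα' hr' ho'
  obtain ⟨α₀, hα₀, e⟩ := exists_res_of_mem_resE hr'
  obtain ⟨γ, hγ, hγo, eγ⟩ := exists_BE_lift hF hS hE hU' hα₀ (coprime_of_res inf_le_left e ho')
  have hPN : P' ≤ normalizerIn S (P' ⊓ T) := le_normalizerIn_inf hT (le_normalizerIn hP')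
  obtain ⟨β', hβ', hm, -, e'⟩ := exists_ext_mod_sup hF hS hI hE.1.1 hU' hfn inf_le_left hPN hα₀ e
    (mem_BE.1 hγ).1 (mem_BE.1 hγ).2.1 hγo eγ
  have hW : P' ⊔ centralizerIn S (P' ⊓ T) ≤ S := sup_le hP' centralizerIn_le
  obtain ⟨s, hs, es⟩ := exists_conj_of_fix hF hS hE hC hU' hfn inf_le_left hPN
    ((isMor_of_mem_autGroup hW (Subgroup.inv_mem _ hβ')).comp' (isMor_of_mem_autGroup hP' hα')
      fun x hx => Subgroup.mem_sup_left (equivFun_mem β hx)) fun x hx => by
        rw [e x hx, ← eγ x hx, ← e' x (Subgroup.mem_sup_left hx),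
          equivFun_inv_apply β' (Subgroup.mem_sup_left hx.1)]
  obtain ⟨k, hk⟩ := hS ⟨s, hs⟩
  refine mem_modAut_of_conjMod ho' (hT.le_normalizer hs) (k := k)
    (by simpa using congrArg Subtype.val hk) fun x hx => ?_
  have h1 := hm _ (equivFun_mem β'⁻¹ (Subgroup.mem_sup_left (equivFun_mem β hx)))
  rwa [equivFun_apply_inv β' (Subgroup.mem_sup_left (equivFun_mem β hx)), es x hx] at h1

theorem fam_prod : Fam F (T ⊔ centralizerIn S T) p (DT F T)
    (fun P => F.autGroup P ⊓ modAut P (T ⊔ centralizerIn S T) ⊓ resE E P) := by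
  have hI := hE.1.2.2
  have hT := Inv.sc hI
  have hR := hF.stronglyClosed_sup_centralizerIn hS hT
  refine ⟨fun h => h.1, fun h hf => h.iso hT hf, DT.up, fun _ => inf_le_left.trans inf_le_left,
    fun _ => inf_le_left.trans inf_le_right, fun hf _ α hα =>
      ⟨⟨hf.congrAut_mem_autGroup_iff.2 hα.1.1, (congrAut_mem_modAut_iff hR hf).2 hα.1.2⟩,
        congrAut_mem_resE hI hf hα.2⟩,
    fun {P} hP α hα => ?_, fun {P Q} hP hPQ hQ β hβ ho α e => ⟨fun hα => ?_, fun hβ' => ?_⟩⟩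
  · obtain ⟨a, ha, haN, e⟩ := mem_autInducedBy_iff'.1 hα
    rw [eq_conjAut haN e]
    refine ⟨⟨conjAut_mem_autGroup F hP.1.le (hR.le ha) haN,
      conjAut_mem_modAut (hP.1.le.trans hR.le_normalizer) ha haN⟩, ?_⟩
    have := finite_of_le hT.le
    obtain ⟨t, ht, c, hc, rfl⟩ := mem_sup_centralizerIn.1 ha
    refine mem_resE_of_isMor ((E.isMor_conj inf_le_right ht).congr fun x hx => ?_)
    rw [equivFun_conjAut _ hx.1]
    conv_lhs => rw [← conj_eq_of_mem_centralizer hc.2 hx.2]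
    group
  · have h1 := mem_resE_lift hS hI hE.1.1 hP.2 hPQ hQ hβ ho hα.2 e
    have hQS := hQ.trans normalizerIn_le
    exact ⟨⟨hβ, fun x hx => Subgroup.mem_sup_left (mem_modAut_of_resE hF hS hE hC hQS
      (hP.up hPQ hQS).2 hβ h1 ho x hx)⟩, h1⟩
  · have := finite_of_le hT.le
    exact ⟨⟨mem_autGroup_of_res (hQ.trans normalizerIn_le) hPQ hβ e,
      mem_modAut_of_res hPQ e hβ'.1.2⟩, mem_resE_of_isMor (((mem_resE.1 hβ'.2).mor.mono
        (inf_le_inf_right _ hPQ)).congr fun x hx => e x hx.1)⟩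

theorem exists_prod : ∃ D : FusionSystem (T ⊔ centralizerIn S T), D.IsSaturated p ∧
    D.IsSubsystemOf F ∧ E.IsSubsystemOf D ∧ D.hyperfocalSubgroup p ≤ T := by
  have hI := hE.1.2.2
  have hT := Inv.sc hI
  have hR := hF.stronglyClosed_sup_centralizerIn hS hT
  obtain ⟨D, hD, hB⟩ := (fam_prod hF hS hE hC).exists_normal_of_cr hF hS hR
    fun P hc hr => dt_of_cr hF hS hI hE.1.1 hc hr
  have hDF := Inv.sub hD.1.2.2
  have := finite_of_le hR.le
  refine ⟨D, hD.1.1, hDF, sub_of_BE hF hS hE hD.1.2.2 le_sup_left fun U hU hfn γ hγ ho => ?_,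
    hyp_le_of_above hD.1.1 (hS.to_le hR.le) (hT.of_isSubsystemOf hDF le_sup_left)
      (hR.le.trans hT.le_normalizer) le_rfl fun P hP hc _ hTP α hα ho => ?_⟩
  · refine (hB _ (dt_sup hT.le hU (hF.isFullyCentralized hS hfn)) ?_ γ ho).1
      ⟨⟨hγ.1.1, fun x hx => Subgroup.mem_sup_left (hγ.1.2 x hx)⟩, hγ.2⟩
    rw [sup_centralizerIn_inf_of_le (hU.le.trans le_sup_left) hR.le]
    exact tc_sup_centralizerIn hR (hU.le.trans le_sup_left) (hF.isReceptive hS hfn)
  · have hTC := (tc_iff hD.1.2.2).1 hc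
    have hPS := hP.le.trans hR.le
    have hcF : F.IsCentric P := ⟨hPS, fun Q hQ x hx => by
      obtain ⟨f, hf⟩ := hQ.exists_isIso
      have hTQ : T ≤ Q := fun t ht => by
        obtain ⟨u, hu, rfl⟩ := (hT.isIso_self (hf.mor.mono hTP)).surj t ht
        exact hf.mapsTo u (hTP hu)
      exact hTC.2 Q hQ ⟨Subgroup.mem_sup_right (centralizerIn_anti hTQ hx), hx.2⟩⟩
    have hdt := dt_of_le hT hcF hTP
    have h1 := (hB P hdt (by rwa [inf_eq_left.2 hP.le]) α ho).2 (by rwa [BE_of_le hDF hP.le])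
    exact mem_modAut_of_resE hF hS hE hC hPS hdt.2 h1.1.1 h1.2 ho

end

/-- Let F be a saturated fusion system over a finite p-group S and E a normal subsystem of F over T whose centralizer in S lies in T: every subgroup Y of C_S(T) such that E is contained in the centralizer fusion system of Y in F satisfies Y ≤ T. Then T·C_S(T)/T is abelian (the commutator subgroup of T·C_S(T) lies in T), and if p is odd then C_S(T) ≤ T. -/
theorem result {Ω : Type*} [Group Ω] {S : Subgroup Ω} [Finite S] (p : ℕ) [Fact p.Prime] (hS : IsPGroup p S) (F : Cfsg.FusionSystem S) (hF : F.IsSaturated p) {T : Subgroup Ω} (E : Cfsg.FusionSystem T) (hE : E.IsNormalIn F p) (hCE : ∀ Y : Subgroup Ω, Y ≤ Cfsg.FusionSystem.centralizerIn S T → (∀ C : Cfsg.FusionSystem (Cfsg.FusionSystem.centralizerIn S Y), F.IsCentralizerSystem Y C → E.IsSubsystemOf C) → Y ≤ T) : ⁅T ⊔ Cfsg.FusionSystem.centralizerIn S T, T ⊔ Cfsg.FusionSystem.centralizerIn S T⁆ ≤ T ∧ (p ≠ 2 → Cfsg.FusionSystem.centralizerIn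 S T ≤ T) := by
  have hI := hE.1.2.2
  have hT := Inv.sc hI
  have hC : CE E F p ≤ T := hCE _ CE_le_centralizerIn fun C hC =>
    isSubsystemOf_iff.2 fun P f hf =>
      (isCentralizerSystem_iff.1 hC P f).2 (isCentMor_CE hF hS hE hf)
  have hW : T ⊔ centralizerIn S T ≤ S := sup_le hT.le centralizerIn_le
  refine ⟨commutator_sup_le (centralizerIn_le.trans hT.le_normalizer) fun c hc d hd => ?_,
    fun hp x hx => ?_⟩
  · have h1 := hC (inv_mul_mem_CE hF hS hE (F.isMor_conj le_rfl hd.1) hT.le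
      (fun t ht => conj_eq_of_mem_centralizer hd.2 ht) (S.inv_mem hc.1) (Subgroup.inv_mem _ hc.2))
    simpa [commutatorElement_def, mul_assoc] using h1
  · obtain ⟨D, hD, hDF, hED, hh⟩ := exists_prod hF hS hE hC
    have := finite_of_le hW
    have hR : T ⊔ Subgroup.zpowers x ≤ T ⊔ centralizerIn S T :=
      sup_le_sup_left (Subgroup.zpowers_le.2 hx) _
    obtain ⟨D', hD', hi⟩ := exists_pPowerIndex hD (hS.to_le hW) hR (hh.trans le_sup_left)
    have := finite_of_le hR
    have hp' := hS.to_le (hR.trans hW)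
    have hED' := le_of_hasPPowerIndexIn (hS.to_le hW) hE.1.1 hED le_sup_left hi
    have hxR : x ∈ T ⊔ Subgroup.zpowers x := Subgroup.mem_sup_right (Subgroup.mem_zpowers x)
    have hxZ : x ∈ centralizerIn (T ⊔ Subgroup.zpowers x) (T ⊔ Subgroup.zpowers x) := by
      refine ⟨hxR, ?_⟩
      rw [Subgroup.sup_eq_closure, Subgroup.centralizer_closure]
      rintro y (hy | ⟨n, rfl⟩)
      · exact hx.2 y hy
      · exact (Commute.zpow_self x n).eq
    have hfoc : D'.focalSubgroup ≤ T := by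
      rw [focal_eq_hyp_sup hD' hp']
      refine sup_le ((hyp_mono hi.1).trans hh) (commutator_sup_le
        (Subgroup.zpowers_le.2 (hT.le_normalizer hx.1)) ?_)
      rintro _ ⟨m, rfl⟩ _ ⟨n, rfl⟩
      rw [commutatorElement_eq_one_iff_commute.2 (Commute.zpow_zpow_self x m n)]
      exact T.one_mem
    have h1 := mem_sup_center hD' hp' hp hfoc hxZ
    refine (sup_le ?_ le_rfl : D'.center ⊔ T ≤ T) h1
    refine (le_CE (fun z hz => ?_) fun P f hf => ?_).trans hC
    · have := D'.center_le_centralizerIn hz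
      exact ⟨hW (hR this.1), fun t ht => this.2 t (Subgroup.mem_sup_left ht)⟩
    · obtain ⟨g, hg, e, hfix⟩ := D'.isCentral_center.exists_ext (hED'.isMor hf)
      exact isCentMor_of_ext (hDF.isMor (hi.1.isMor hg)) le_sup_right le_sup_left
        (fun y hy z hz => ((D'.center_le_centralizerIn hz).2 y
          (Subgroup.mem_sup_left (hf.le hy))).symm) e hfix

end Cfsg.Agent.S5200
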