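import Cfsg.Statements.S5201
import Cfsg.Agent.Lib.H7.Limit
import Cfsg.Agent.Lib.Lead.CentSub

set_option autoImplicit false
open Cfsg

namespace Cfsg.Agent.S5201

open Cfsg.FusionSystem Cfsg.Agent.H7 Cfsg.Agent.H8 Cfsg.Agent.Lead

/-- A reduction to normal subsystems. Let F be a saturated fusion system over a finite p-group S and E a normal subsystem of F over T whose centralizer in S lies in T (every subgroup Y of C_S(T) with E contained in the centralizer fusion system of Y in F satisfies Y ≤ T), and suppose Aut_F(T)/Aut_E(T) is p-solvable. Then F and E have the same residual limit: if F∞ is the residual limit of F (reached by alternately passing to the p-residual and the p'-residual subsystem until nothing changes) and E∞ that of E, then F∞ and E∞ have the same maps. -/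
theorem result {Ω : Type*} [Group Ω] {S : Subgroup Ω} [Finite S] (p : ℕ) [Fact p.Prime] (hS : IsPGroup p S) (F : Cfsg.FusionSystem S) (hF : F.IsSaturated p) {T : Subgroup Ω} (E : Cfsg.FusionSystem T) (hE : E.IsNormalIn F p) (hCE : ∀ Y : Subgroup Ω, Y ≤ Cfsg.FusionSystem.centralizerIn S T → (∀ C : Cfsg.FusionSystem (Cfsg.FusionSystem.centralizerIn S Y), F.IsCentralizerSystem Y C → E.IsSubsystemOf C) → Y ≤ T) [hn : ((E.autGroup T).subgroupOf (F.autGroup T)).Normal] (hsolv : Cfsg.IsPSolvable p (↥(F.autGroup T) ⧸ (E.autGroup T).subgroupOf (F.autGroup T))) {U V : Subgroup Ω} (Finf : Cfsg.FusionSystem U) (hFinf : Finf.IsResidualLimitOf F p) (Einf : Cfsg.FusionSystem V) (hEinf : Einf.IsResidualLimitOf E p) : ∀ P : Subgroup Ω, Finf.Hom P = Einf.Hom P := by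
  have hI := hE.1.2.2
  have hTS := Inv.le hI
  have := finite_of_le hTS
  have hC : CE E F p ≤ T := hCE _ CE_le_centralizerIn fun C hC =>
    isSubsystemOf_iff.2 fun P f hf =>
      (isCentralizerSystem_iff.1 hC P f).2 (isCentMor_CE hF hS hE hf)
  obtain ⟨D, h1, h2, h3, h4⟩ := exists_reduction hF hS hI hE.1.1 hsolv
  have hDF := Inv.sub h1.1.2.2
  have hle := hDF.le
  have := finite_of_le hle
  have hp := hS.to_le hle
  have hI' := hI.of_between hS h1.1.1 h2 hDF
  have hhyp : D.hyperfocalSubgroup p ≤ T := by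
    refine hyp_le_of_above h1.1.1 hp (Inv.sc hI') (Inv.sc hI').le_normalizer le_rfl
      fun P hP _ _ hTP α hα _ x hx => ?_
    have hαF := hDF.autGroup_le P hα
    have hPS := hP.le.trans hle
    obtain ⟨β, hβ, e⟩ := exists_res_autGroup hP.le hTP hα
      (autGroup_le_stabAut (Inv.sc hI) hPS hαF)
    rw [h3] at hβ
    obtain ⟨γ, ⟨hγ, hm⟩, e'⟩ := (H8.isNormalIn_iff.1 hE).2 hβ
    have hg : F.IsMor P (fun y => equivFun γ⁻¹ (equivFun α y)) :=
      (isMor_of_mem_autGroup hle (Subgroup.inv_mem _ hγ)).comp' (isMor_of_mem_autGroup hPS hαF)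
        fun y hy => hP.le (equivFun_mem α hy)
    have hfix : ∀ t ∈ T, equivFun γ⁻¹ (equivFun α t) = t := fun t ht => by
      rw [e t ht, ← e' t ht, equivFun_inv_apply γ (Subgroup.mem_sup_left ht)]
    obtain ⟨t, ht, c, hc, rfl⟩ := mem_sup_centralizerIn.1 (hP.le hx)
    have hcP : c ∈ P := by simpa using P.mul_mem (P.inv_mem (hTP ht)) hx
    have h5 := hC (inv_mul_mem_CE hF hS hE hg hTP hfix hcP hc.2)
    have h6 := hm _ (equivFun_mem γ⁻¹ (hP.le (equivFun_mem α hx)))
    rw [equivFun_apply_inv γ (hP.le (equivFun_mem α hx))] at h6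
    have h7 := hg.map_mul (hTP ht) hcP
    simp only [hfix t ht] at h7
    rw [h7] at h6
    simpa [mul_assoc] using T.mul_mem h5 h6
  obtain ⟨E', hE', hi⟩ := exists_pPowerIndex h1.1.1 hp le_sup_left hhyp
  have h5 : E.IsSubsystemOf E' := le_of_hasPPowerIndexIn hp hE.1.1 h2 le_rfl hi
  have h6 : E'.IsSubsystemOf E := isSubsystemOf_iff.2 fun P f hf => by
    obtain ⟨g, f₀, hg, hf₀, e⟩ := Inv.frM hI' hf.le (hi.1.isMor hf)
    obtain ⟨α, hα, e'⟩ := hg.exists_aut
    rw [h3] at hα
    exact ((isMor_of_mem_autGroup le_rfl hα).comp' hf₀ fun x hx => hf₀.mem hx).congr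
      fun x hx => by rw [e x hx, e' _ (hf₀.mem hx)]
  obtain rfl := eq_of_sub_of_sub h5 h6
  obtain ⟨a, b⟩ := ((sameLimit_of_pPowerIndex hp hE' hi).trans h1.1.1 hp h4) _ _ _ _ hEinf hFinf
  exact fun P => Set.Subset.antisymm (b P) (a P)

end Cfsg.Agent.S5201
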