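import Cfsg.Statements.S5210
import Cfsg.Agent.Lib.U4.Main
import Cfsg.Agent.Lib.U42.Main

set_option autoImplicit false
open Cfsg

namespace Cfsg.Agent.S5210

/-- Let p be a prime, K a finite field with q² elements where q = pⁿ (n ≥ 1), and S a finite p-group isomorphic to a Sylow p-subgroup of the projective special unitary group PSU₄(q) realised over K. Then every saturated fusion system F over S with no nontrivial normal subgroup (O_p(F) = 1) is realizable: it is the fusion system of a finite group on a Sylow p-subgroup. -/
theorem result {Ω : Type*} [Group Ω] {S : Subgroup Ω} [Finite S] (p : ℕ) [Fact p.Prime] (hS : IsPGroup p S) (F : Cfsg.FusionSystem S) (hF : F.IsSaturated p) {K : Type*} [Field K] [Fintype K] [CharP K p] (n : ℕ) (hn : 1 ≤ n) (hK : Fintype.card K = (p ^ n) ^ 2) (T : Sylow p (Cfsg.PSU 4 K (p ^ n))) (e : ↥S ≃* ↥(T : Subgroup (Cfsg.PSU 4 K (p ^ n)))) (hcore : F.core = ⊥) : F.IsRealizable p := by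
  have hσ : ∀ x : K, iterateFrobenius K p n (iterateFrobenius K p n x) = x := fun x => by
    rw [iterateFrobenius_def, iterateFrobenius_def, ← pow_mul, ← pow_two, ← hK, FiniteField.pow_card]
  letI : StarRing K :=
    { star := iterateFrobenius K p n
      star_involutive := hσ
      star_mul := fun x y => by rw [map_mul, mul_comm]
      star_add := map_add _ }
  have hq : ∀ x : K, star x = x ^ p ^ n := fun x => iterateFrobenius_def p n x
  haveI : U5.UF K := ⟨inferInstance, p ^ n, Nat.card_eq_fintype_card.trans hK, hq⟩
  obtain ⟨e'⟩ := U4.sylow_PSU hq T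
  by_cases h4 : Nat.card K = 4
  · exact U42.realizable h4 hF (e.trans e')
  · exact U4.realizable h4 hF (e.trans e')

end Cfsg.Agent.S5210
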