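import Cfsg.Statements.S5212
import Cfsg.Agent.Lib.H9.Metacyclic

set_option autoImplicit false
open Cfsg

namespace Cfsg.Agent.S5212

/-- Let S be a finite metacyclic 2-group that is not homocyclic abelian (a direct product of cyclic groups of one common order), not dihedral, not semidihedral and not generalized quaternion. Then every saturated fusion system over S is the inner fusion system of S. -/
theorem result {Ω : Type*} [Group Ω] {S : Subgroup Ω} [Finite S] (hS : IsPGroup 2 S) (F : Cfsg.FusionSystem S) (hF : F.IsSaturated 2) (hm : Cfsg.IsMetacyclic ↥S) (hh : ¬ ∃ n k : ℕ, Nonempty (↥S ≃* Multiplicative (Fin k → ZMod (2 ^ n)))) (hd : ¬ ∃ m : ℕ, Nonempty (↥S ≃* DihedralGroup m)) (hq : ¬ ∃ m : ℕ, Nonempty (↥S ≃* QuaternionGroup m)) (hsd : ¬ Cfsg.IsQuasiDihedral ↥S) : ∀ P : Subgroup Ω, F.Hom P = (Cfsg.innerFusionSystem S).Hom P := by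
  have : Fact (Nat.Prime 2) := ⟨Nat.prime_two⟩
  have hn : F.IsNormal S := H9.isNormal_of_metacyclic hS hF F.stronglyClosed_top hm fun _ n h => by
    rcases h with h | h | h
    exacts [hd ⟨_, h⟩, hq ⟨_, h⟩, hsd h]
  have key : F = Cfsg.innerFusionSystem S := hF.eq_inner_of_isPGroup hS fun P hP => by
    rcases hP with rfl | hP
    · rcases H9.metacyclic_trichotomy hS hm (F.autGroup P) with
        ⟨M, h1, h2, h3, h4⟩ | ⟨k, ⟨e⟩⟩ | ⟨-, n, h | h | h⟩
      · exact H9.isPGroup_of_chain2 hS h1
          (fun α hα => by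
            simpa using H9.trivOn_pow_pred (H9.AInv.top _) h1 (hS.to_subgroup ⊤) le_top h3 hα)
          (fun α hα => by
            simpa using H9.trivOn_pow_pred h1 (H9.AInv.top _).Phi (hS.to_subgroup M) h2 h4 hα)
      · exact absurd ⟨k + 1, 2, ⟨e.trans ((MulEquiv.prodMultiplicative _ _).symm.trans
          (AddEquiv.toMultiplicative (LinearEquiv.finTwoArrow ℤ _).toAddEquiv).symm)⟩⟩ hh
      · exact absurd ⟨_, h⟩ hd
      · exact absurd ⟨_, h⟩ hq
      · exact absurd h hsd
    · exact absurd hP ((hF.isNormal_top_iff hS).1 hn P)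
  intro P
  rw [← key]

end Cfsg.Agent.S5212
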