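import Cfsg.Statements.S5214
import Cfsg.Agent.Lib.SZ.HigMain
import Cfsg.Agent.Lib.H8.Solv

set_option autoImplicit false
open Cfsg

namespace Cfsg.Agent.S5214

open Cfsg.FusionSystem Cfsg.Agent.H7

/-- Let S be a Suzuki 2-group (a finite nonabelian 2-group with more than one involution admitting a cyclic group of automorphisms permuting its involutions regularly). Then S is normal in every saturated fusion system over S (such a group is resistant). -/
theorem result {Ω : Type*} [Group Ω] {S : Subgroup Ω} [Finite S] (hS : IsPGroup 2 S) (F : Cfsg.FusionSystem S) (hF : F.IsSaturated 2) (hsz : Cfsg.IsSuzukiTwoGroup ↥S) : F.IsNormal S := by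
  obtain ⟨h1, h2, hna, h3, K, hK, hreg⟩ := hsz
  have h : Hig.Setup S K := ⟨h1, h2, fun k l => hK.isMulCommutative.is_comm.comm k l, h3, hreg⟩
  have hZ : F.StronglyClosed (h.Z.map S.subtype) :=
    ⟨Subgroup.map_subtype_le _, fun R hR φ hφ x => by
      obtain ⟨y, hy, e⟩ := hR x.2
      have e1 : x * x = 1 := Subtype.ext (by
        rw [Subgroup.coe_mul, ← e]; exact congrArg Subtype.val (h.mem_Z.1 hy))
      exact ⟨⟨φ x, (F.le_of_mem hφ).2 x⟩, Subtype.ext (by
        show φ x * φ x = 1
        rw [← map_mul, e1, map_one]), rfl⟩⟩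
  refine H8.isNormal_of_class_two hF hS (stronglyClosed_top F) hZ.weaklyClosed hZ.1
    (Subgroup.commutator_le.2 fun x hx y hy => ⟨_, h.comm_mem_Z hna ⟨x, hx⟩ ⟨y, hy⟩, rfl⟩)
    (Subgroup.commutator_eq_bot_iff_le_centralizer.2 ?_)
  rintro _ ⟨z, hz, rfl⟩
  exact Subgroup.mem_centralizer_iff.2 fun g hg => congrArg Subtype.val (h.central hz ⟨g, hg⟩)

end Cfsg.Agent.S5214
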