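import Cfsg.Statements.S5215
import Cfsg.Agent.Lib.H6.Real

set_option autoImplicit false
open Cfsg

namespace Cfsg.Agent.S5215

/-- Let S be a finite 2-group of 2-rank 2 (an elementary abelian subgroup of order 4, none of order 8) and F a simple saturated fusion system over S. Then S is dihedral, semidihedral or wreathed, and F is the fusion system of the projective special linear group PSL₂(q) for some odd prime power q ≡ ±1 (mod 8) or of PSL₃(q) for some odd prime power q: it is realized by an injective homomorphism of S into that group whose image is a Sylow 2-subgroup. -/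
theorem result {Ω : Type*} [Group Ω] {S : Subgroup Ω} [Finite S] (hS : IsPGroup 2 S) (F : Cfsg.FusionSystem S) (hF : F.IsSaturated 2) (hr : Cfsg.PRankAtLeast 2 2 ↥S ∧ ¬ Cfsg.PRankAtLeast 2 3 ↥S) (hsimple : F.IsSimple 2) : ((∃ m : ℕ, Nonempty (↥S ≃* DihedralGroup m)) ∨ Cfsg.IsQuasiDihedral ↥S ∨ Cfsg.IsWreathed ↥S) ∧ ∃ (K : Type) (_ : Field K) (_ : Fintype K) (q : ℕ), Fintype.card K = q ∧ Odd q ∧ (((q % 8 = 1 ∨ q % 8 = 7) ∧ ∃ ι : ↥S →* Matrix.ProjectiveSpecialLinearGroup (Fin 2) K, F.IsRealizedBy ι ∧ ∃ T : Sylow 2 (Matrix.ProjectiveSpecialLinearGroup (Fin 2) K), (T : Subgroup (Matrix.ProjectiveSpecialLinearGroup (Fin 2) K)) = ι.range) ∨ (∃ ι : ↥S →* Matrix.ProjectiveSpecialLinearGroup (Fin 3) K, F.IsRealizedBy ι ∧ ∃ T : Sylow 2 (Matrix.ProjectiveSpecialLinearGroup (Fin 3) K), (T : Subgroup (Matrix.ProjectiveSpecialLinearGroup (Fin 3) K)) = ι.range)) := by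
  open H6 H2 in
  have hc : 2 < Nat.card S := by
    obtain ⟨A, -, -, h⟩ := hr.1
    have := Nat.card_le_card_of_injective _ A.subtype_injective
    omega
  have hn : ¬ F.IsNormal S := fun h => hsimple.2.1 (simple_normal hS hsimple hc h)
  have hh := simple_hyp_eq hS hsimple fun e => hn (by
    rw [e]; exact FusionSystem.innerFusionSystem_isNormal le_rfl Subgroup.le_normalizer)
  rcases (rank2Shape_of_center hS hF hr (simple_normal hS hsimple hc
    F.isCentral_center.isNormal)).cases hS hF with h | ⟨k, x, y, h⟩ | h' | h'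
  · exact absurd h hn
  · obtain ⟨K, _, _, φ, ζ, hK⟩ := exists_tw k
    obtain ⟨u, hu, e⟩ := hK.card_sq
    refine ⟨Or.inl ⟨_, h.nonempty_dihedral⟩, K, inferInstance, inferInstance, _, rfl,
      Nat.odd_iff.2 hK.odd, Or.inl ⟨Or.inl hK.mod_eight, ?_⟩⟩
    exact ((model_PSL2 hK.odd hu e).realizedIn h (by simp) hF
      (iff_true_intro (h.act_of_hyp (by simp) hh 0))
      (iff_true_intro (h.act_of_hyp (by simp) hh 1))).of_top
  · obtain ⟨k, x, y, h⟩ := exists_mc_of_isQuasiDihedral h'
    obtain ⟨K, _, _, hK, u, hu, e⟩ := exists_field_plus k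
    refine ⟨Or.inr (Or.inl h'), K, inferInstance, inferInstance, _, rfl,
      Nat.odd_iff.2 (by omega), Or.inr ?_⟩
    exact ((model_SL3 hK hu e).realizedIn h (by simp) hF
      (iff_true_intro (h.act_of_hyp (by simp) hh 0))
      (iff_true_intro (h.act_of_hyp (by simp) hh 1))).of_top.psl3
  · obtain ⟨k, x, y, z, h⟩ := exists_wr h'
    obtain ⟨K, _, _, hK, u, hu, e⟩ := exists_field_minus k
    refine ⟨Or.inr (Or.inr h'), K, inferInstance, inferInstance, _, rfl,
      Nat.odd_iff.2 (by omega), Or.inr ?_⟩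
    have := wr_hasOdd_of_hyp h hF hh
    exact ((wmodel_SL3 hK hu e).realizedIn h hF (iff_true_intro this.1) this.2).psl3

end Cfsg.Agent.S5215
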