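import Cfsg.Statements.S5217
import Cfsg.Agent.Lib.H3.Bic9
import Cfsg.Agent.Lib.H9.BicC

set_option autoImplicit false
open Cfsg

namespace Cfsg.Agent.S5217

/-- Let S be a finite bicyclic 2-group (S = ⟨x⟩⟨y⟩) that is not metacyclic. Then S supports a saturated fusion system other than its inner fusion system if and only if the commutator subgroup of S is cyclic. -/
theorem result {Ω : Type*} [Group Ω] {S : Subgroup Ω} [Finite S] (hS : IsPGroup 2 S) (hb : ∃ x y : ↥S, ∀ g : ↥S, ∃ i j : ℤ, g = x ^ i * y ^ j) (hm : ¬ Cfsg.IsMetacyclic ↥S) : (∃ F : Cfsg.FusionSystem S, F.IsSaturated 2 ∧ ¬ ∀ P : Subgroup Ω, F.Hom P = (Cfsg.innerFusionSystem S).Hom P) ↔ IsCyclic ↥(commutator ↥S) := by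
  refine ⟨fun ⟨F, hF, h⟩ => by_contra fun hn => h fun P => ?_, H9.Bic.exists_nonnilp hS hb hm⟩
  rw [H3.Bic.eq_inner hS hb hn hF]

end Cfsg.Agent.S5217
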