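import Cfsg.Statements.S5223
import Cfsg.Agent.Lib.H7.Alperin

set_option autoImplicit false
open Cfsg

namespace Cfsg.Agent.S5223

/-- Let F be a saturated fusion system over a finite p-group S. Suppose there are subgroups Q₀ = S, Q₁, …, Qₙ = 1 (not required to be nested) such that for each i < n the focal subgroup of Qᵢ (generated by the elements x⁻¹φ(x), x ∈ Qᵢ, φ a map of F defined on the cyclic group generated by x) lies in Qᵢ₊₁. Then F is the inner fusion system of S. -/
theorem result {Ω : Type*} [Group Ω] {S : Subgroup Ω} [Finite S] (p : ℕ) [Fact p.Prime] (hS : IsPGroup p S) (F : Cfsg.FusionSystem S) (hF : F.IsSaturated p) (n : ℕ) (Q : Fin (n + 1) → Subgroup Ω) (hQ0 : Q 0 = S) (hQn : Q (Fin.last n) = ⊥) (hstep : ∀ i : Fin n, Subgroup.closure {y : Ω | ∃ x ∈ Q i.castSucc, ∃ φ ∈ F.Hom (Subgroup.zpowers x), y = x⁻¹ * φ ⟨x, Subgroup.mem_zpowers x⟩} ≤ Q i.succ) : ∀ P : Subgroup Ω, F.Hom P = (Cfsg.innerFusionSystem S).Hom P := by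
  classical
  let C : ℕ → Subgroup Ω := fun j => ⨅ k : Fin (n + 1), ⨅ _ : k.1 ≤ n - j, Q k
  have hC : ∀ j x, x ∈ C j ↔ ∀ k : Fin (n + 1), k.1 ≤ n - j → x ∈ Q k := fun j x => by
    simp only [C, Subgroup.mem_iInf]
  have hmono : Monotone C := fun i j hij x hx =>
    (hC j x).2 fun k hk => (hC i x).1 hx k (by omega)
  have h := hF.eq_inner_of_isPGroup hS (fun P hP => by
    have hPS : P ≤ S := (hF.of_top_or_essential hS hP).1.le
    have : Finite P := Cfsg.FusionSystem.finite_of_le hPS
    have h1 := H7.isPGroup_chainStab (P := P) (hS.to_le hPS) hmono (n := n)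
      (by
        rw [eq_bot_iff]
        intro x hx
        rw [← hQn]
        exact (hC 0 x).1 hx.2 _ (by simp))
      (fun x hx => (hC n x).2 fun k hk => by
        have : k = 0 := Fin.ext (by simpa using hk)
        rw [this, hQ0]; exact hPS hx)
    refine h1.to_le fun α hα => (H7.mem_chainStab hmono).2 fun i x hx hxC =>
      (hC i _).2 fun k hk => ?_
    have hm := Cfsg.FusionSystem.isMor_of_mem_autGroup hPS hα
    rcases Fin.eq_zero_or_eq_succ k with rfl | ⟨k', rfl⟩
    · rw [hQ0]; exact S.mul_mem (S.inv_mem (hPS hx)) (hm.mem hx)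
    · refine hstep k' (Subgroup.subset_closure ⟨x, (hC _ x).1 hxC _ (by
        simp only [Fin.val_succ] at hk
        simp only [Fin.val_castSucc]; omega), _,
        (hm.mono (Subgroup.zpowers_le.2 hx)).toHom_mem, rfl⟩))
  intro P
  rw [h]

end Cfsg.Agent.S5223
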