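import Cfsg.Statements.S5224
import Cfsg.Agent.Lib.Lead.Tate

set_option autoImplicit false
open Cfsg

namespace Cfsg.Agent.S5224

/-- Tate's Theorem for fusion systems. Let F be a saturated fusion system over a finite p-group S and H a saturated fusion system over S contained in F. Then the following are equivalent: the elementary focal subgroups Φ(S)·foc agree for F and H; the focal subgroups of F and H agree; the hyperfocal subgroups of F and H agree. -/
theorem result {Ω : Type*} [Group Ω] {S : Subgroup Ω} [Finite S] (p : ℕ) [Fact p.Prime] (hS : IsPGroup p S) (F : Cfsg.FusionSystem S) (hF : F.IsSaturated p) (H : Cfsg.FusionSystem S) (hH : H.IsSaturated p) (hHF : H.IsSubsystemOf F) : (((frattini ↥S).map S.subtype ⊔ F.focalSubgroup) = ((frattini ↥S).map S.subtype ⊔ H.focalSubgroup) ↔ F.focalSubgroup = H.focalSubgroup) ∧ (F.focalSubgroup = H.focalSubgroup ↔ F.hyperfocalSubgroup p = H.hyperfocalSubgroup p) := by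
  have e1 := H8.focal_eq_hyp_sup hF hS
  have e2 := H8.focal_eq_hyp_sup hH hS
  have h3 : F.hyperfocalSubgroup p = H.hyperfocalSubgroup p → F.focalSubgroup = H.focalSubgroup :=
    fun h => by rw [e1, e2, h]
  have h1 : ((frattini ↥S).map S.subtype ⊔ F.focalSubgroup) =
      ((frattini ↥S).map S.subtype ⊔ H.focalSubgroup) →
      F.hyperfocalSubgroup p = H.hyperfocalSubgroup p := fun h => by
    refine Lead.tate hS hF (H8.le_normalizer_hyp H p) (H8.hyp_mono hHF) ?_
    refine ((F.hyperfocalSubgroup_le_focalSubgroup p).trans le_sup_right).trans (h.le.trans ?_)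
    rw [e2]
    refine sup_le le_sup_left (sup_le le_sup_right (le_trans ?_ le_sup_left))
    have := Subgroup.map_mono (f := S.subtype) (H1.commutator_le_frattini hS)
    rwa [commutator_def, Subgroup.map_commutator, ← MonoidHom.range_eq_map,
      Subgroup.range_subtype] at this
  exact ⟨⟨fun h => h3 (h1 h), fun h => by rw [h]⟩, ⟨fun h => h1 (by rw [h]), h3⟩⟩

end Cfsg.Agent.S5224
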