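import Cfsg.Statements.S5225
import Cfsg.Agent.Lib.Lead.Yoshida
import Cfsg.Agent.Lib.H8.Hyp

set_option autoImplicit false
open Cfsg

namespace Cfsg.Agent.S5225

/-- Yoshida's Theorem for fusion systems. Let F be a saturated fusion system over a finite p-group S and N the normalizer fusion system of S in F. If the focal subgroups of F and N differ (N does not control transfer in F), then S has a quotient isomorphic to the wreath product C_p ≀ C_p (realised as a Sylow p-subgroup of the symmetric group of degree p²). -/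
theorem result {Ω : Type*} [Group Ω] {S : Subgroup Ω} [Finite S] (p : ℕ) [Fact p.Prime] (hS : IsPGroup p S) (F : Cfsg.FusionSystem S) (hF : F.IsSaturated p) (N : Cfsg.FusionSystem (Cfsg.FusionSystem.normalizerIn S S)) (hN : F.IsNormalizerSystem S N) (hne : N.focalSubgroup ≠ F.focalSubgroup) : ∃ (W : Sylow p (Equiv.Perm (Fin (p ^ 2)))) (f : ↥S →* ↥(W : Subgroup (Equiv.Perm (Fin (p ^ 2))))), Function.Surjective f := by
  have hN' := Cfsg.FusionSystem.isNormalizerSystem_iff.1 hN
  have hSS : Cfsg.FusionSystem.normalizerIn S S = S := Cfsg.FusionSystem.normalizerIn_self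
  refine Cfsg.Agent.Lead.yoshida hS hF (R := N.focalSubgroup) ?_ (fun f hf x hx => ?_) fun h => hne ?_
  · have := Cfsg.Agent.H8.commutator_le_focal N
    rwa [show ⁅Cfsg.FusionSystem.normalizerIn S S, Cfsg.FusionSystem.normalizerIn S S⁆ = ⁅S, S⁆ by
      rw [hSS]] at this
  · refine Cfsg.FusionSystem.IsMor.mem_focalSubgroup (P := S) ((hN' S f).2 ⟨hSS.ge, f, ?_,
      fun _ _ => rfl, hf.isIso_top⟩) hx
    rwa [sup_idem]
  · refine le_antisymm ?_ h
    exact Cfsg.FusionSystem.focalSubgroup_le_iff.2 fun P f hf x hx =>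
      ((hN' P f).1 hf).isMor.mem_focalSubgroup hx

end Cfsg.Agent.S5225
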