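import Cfsg.Statements.S5226
import Cfsg.Agent.Lib.H7.Normal

set_option autoImplicit false
open Cfsg

namespace Cfsg.Agent.S5226

/-- Let F be a saturated fusion system over a finite p-group S and Q a subgroup of S. Then Q is normal in F (F equals the normalizer system of Q) if and only if Q is strongly closed in F and admits a central series 1 = Q₀ ≤ Q₁ ≤ ⋯ ≤ Qₙ = Q ([Qᵢ₊₁, Q] ≤ Qᵢ) all of whose proper terms are weakly closed in F. -/
theorem result {Ω : Type*} [Group Ω] {S : Subgroup Ω} [Finite S] (p : ℕ) [Fact p.Prime] (hS : IsPGroup p S) (F : Cfsg.FusionSystem S) (hF : F.IsSaturated p) (Q : Subgroup Ω) : F.IsNormal Q ↔ F.StronglyClosed Q ∧ ∃ (n : ℕ) (C : Fin (n + 1) → Subgroup Ω), C 0 = ⊥ ∧ C (Fin.last n) = Q ∧ Monotone C ∧ (∀ i : Fin n, ⁅C i.succ, Q⁆ ≤ C i.castSucc) ∧ ∀ i : Fin n, F.WeaklyClosed (C i.castSucc) := by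
  constructor
  · intro h
    have := FusionSystem.finite_of_le h.le
    obtain ⟨n, hn⟩ := H7.exists_zeta_eq (hS.to_le h.le)
    exact ⟨h.stronglyClosed, n, fun i => H7.zeta Q i, H7.zeta_zero Q, hn,
      fun i j hij => H7.zeta_monotone Q hij, fun i => H7.commutator_zeta_le Q i,
      fun i => (h.zeta _).weaklyClosed⟩
  · rintro ⟨hQ, n, C, h0, hn, hm, h, hw⟩
    refine hF.isNormal_of_series hS hQ (H7.chainOfFin_monotone hm)
      (by simp [H7.chainOfFin, ← h0]) (n := n) (by simp [H7.chainOfFin, ← hn]; rfl)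
      (fun i hi => ?_) fun i hi => ?_
    · simp only [H7.chainOfFin]
      rw [dif_pos (by omega), dif_pos (by omega)]
      exact h ⟨i, hi⟩
    · simp only [H7.chainOfFin]
      rw [dif_pos (by omega)]
      exact hw ⟨i, hi⟩

end Cfsg.Agent.S5226
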