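import Cfsg.Statements.S5233
import Cfsg.Agent.Lib.H9.Transv

set_option autoImplicit false
open Cfsg

namespace Cfsg.Agent.S5233

/-- Let F be a saturated fusion system over a finite p-group S and P a subgroup of S strongly closed in F that is generalized extraspecial (its Frattini subgroup equals its commutator subgroup and has order p) and not isomorphic to E × A with A elementary abelian and E dihedral of order 8 (p = 2) or extraspecial of order p³ and exponent p (p odd). Then P is normal in F. -/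
theorem result {Ω : Type*} [Group Ω] {S : Subgroup Ω} [Finite S] (p : ℕ) [Fact p.Prime] (hS : IsPGroup p S) (F : Cfsg.FusionSystem S) (hF : F.IsSaturated p) (P : Subgroup Ω) (hP : F.StronglyClosed P) (hge : frattini ↥P = commutator ↥P ∧ Nat.card ↥(commutator ↥P) = p) (h2 : p = 2 → ¬ ∃ (A : Type) (_ : CommGroup A), (∀ a : A, a ^ 2 = 1) ∧ Nonempty (↥P ≃* DihedralGroup 4 × A)) (hodd : p ≠ 2 → ¬ ∃ (E : Type) (_ : Group E) (A : Type) (_ : CommGroup A), Cfsg.IsExtraspecial p E ∧ Nat.card E = p ^ 3 ∧ Monoid.exponent E = p ∧ (∀ a : A, a ^ p = 1) ∧ Nonempty (↥P ≃* E × A)) : F.IsNormal P := by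
  have : Finite P := H9.finite_of_le hP.le
  have hZ : Nat.card (H9.Phi p P) = p := by
    rw [H9.card_Phi_eq_of_frattini (hS.to_le hP.le), hge.1, hge.2]
  refine hF.isNormal_of_weaklyClosed hS hP.weaklyClosed fun E hE => ?_
  obtain ⟨M, h⟩ := H9.exists_essCtx hS hF hE
  by_contra hne
  obtain ⟨R, A, ⟨e⟩, hA, hR, hna, h3, h4⟩ := h.genExtra_struct hP hZ hne
  have hRA : Finite (R × A) := Finite.of_equiv _ e.toEquiv
  have : Finite A := Finite.of_injective (fun a : A => ((1 : R), a)) fun _ _ h => (Prod.ext_iff.1 h).2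
  have : Finite R := Finite.of_injective (fun a : R => (a, (1 : A))) fun _ _ h => (Prod.ext_iff.1 h).1
  obtain ⟨A', _, ⟨eA⟩⟩ := H9.exists_type_copy A
  have hA1 : ∀ a b : A', a * b = b * a := fun a b => by
    obtain ⟨a, rfl⟩ := eA.surjective a
    obtain ⟨b, rfl⟩ := eA.surjective b
    rw [← map_mul, ← map_mul, hA.1.is_comm.comm]
  have hA2 : ∀ a : A', a ^ p = 1 := fun a => by
    obtain ⟨a, rfl⟩ := eA.surjective a
    rw [← map_pow, show a ^ p = 1 from Subtype.ext (hA.2 a a.2), map_one]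
  by_cases hp2 : p = 2
  · obtain ⟨eR⟩ := h3 hp2
    exact h2 hp2 ⟨A', { ‹Group A'› with mul_comm := hA1 }, hp2 ▸ hA2, ⟨e.trans (eR.prodCongr eA)⟩⟩
  · obtain ⟨R', _, ⟨eR⟩⟩ := H9.exists_type_copy R
    have hR' : Nat.card R' = p ^ 3 := by rw [← hR, Nat.card_congr eR.toEquiv]
    have : Nontrivial R' := by
      have : Finite R' := Finite.of_equiv _ eR.toEquiv
      rw [← Finite.one_lt_card_iff_nontrivial, hR']
      exact Nat.one_lt_pow (by norm_num) (Fact.out : p.Prime).one_lt
    refine hodd hp2 ⟨R', _, A', { ‹Group A'› with mul_comm := hA1 },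
      H9.isExtraspecial_of_equiv eR (H9.isExtraspecial_of_card_cube hR hna), hR',
      (Monoid.exponent_eq_prime_iff Fact.out).2 fun x hx => orderOf_eq_prime ?_ hx, hA2,
      ⟨e.trans (eR.prodCongr eA)⟩⟩
    obtain ⟨x, rfl⟩ := eR.surjective x
    have := congrArg (fun y => eR (e y).1)
      (show e.symm (x, 1) ^ p = 1 from Subtype.ext (h4 hp2 _ (e.symm (x, 1)).2))
    simpa using this

end Cfsg.Agent.S5233
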