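import Cfsg.Statements.S5236
import Cfsg.Agent.Lib.H9.SC

set_option autoImplicit false
open Cfsg

namespace Cfsg.Agent.S5236

/-- Let p be an odd prime, F a saturated fusion system over a finite p-group S and P a subgroup of S strongly closed in F. Then P is normal in F if and only if Ω₁(P) (the subgroup generated by the elements of order p of P) has a chain of subgroups 1 = Q₀ ≤ Q₁ ≤ ⋯ ≤ Qₙ = Ω₁(P), each strongly closed in F, with [Qᵢ₊₁, P] ≤ Qᵢ for all i. -/
theorem result {Ω : Type*} [Group Ω] {S : Subgroup Ω} [Finite S] (p : ℕ) [Fact p.Prime] (hS : IsPGroup p S) (F : Cfsg.FusionSystem S) (hF : F.IsSaturated p) (hp : p ≠ 2) (P : Subgroup Ω) (hP : F.StronglyClosed P) : F.IsNormal P ↔ ∃ (n : ℕ) (Q : Fin (n + 1) → Subgroup Ω), Q 0 = ⊥ ∧ Q (Fin.last n) = Cfsg.omegaOne p P ∧ Monotone Q ∧ (∀ i : Fin (n + 1), F.StronglyClosed (Q i)) ∧ ∀ i : Fin n, ⁅Q i.succ, P⁆ ≤ Q i.castSucc := by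
  have : Finite P := H9.finite_of_le hP.le
  constructor
  · intro h
    obtain ⟨n, hn⟩ := H7.exists_zeta_eq (hS.to_le hP.le)
    have hO : F.IsNormal (Cfsg.omegaOne p P) := h.of_invariant (H9.omegaOne_le P) fun g hg x hx =>
      hg.mor.isHomOn.mapsTo_closure (s := {x | x ∈ P ∧ x ^ p = 1}) (fun _ h => h.1)
        (fun y hy => H9.mem_omegaOne (hg.mapsTo y hy.1)
          (by rw [← hg.mor.map_pow hy.1, hy.2, hg.mor.map_one])) x hx
    refine ⟨n, fun i => Cfsg.omegaOne p P ⊓ H7.zeta P i, by simp [H7.zeta_zero], ?_,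
      fun i j hij => inf_le_inf_left _ (H7.zeta_monotone P hij),
      fun i => hO.stronglyClosed.inf (h.zeta i).stronglyClosed, fun i => le_inf ?_ ?_⟩
    · simp [hn, H9.omegaOne_le]
    · exact (Subgroup.commutator_mono inf_le_left le_rfl).trans
        (Subgroup.le_normalizer_iff_commutator_le_left.1 (hP.le.trans hO.le_normalizer))
    · exact (Subgroup.commutator_mono inf_le_right le_rfl).trans (H7.commutator_zeta_le P i)
  · rintro ⟨n, Q, h0, hn, -, hsc, hc⟩
    refine H9.isNormal_of_omega_chain hS hF ((Fact.out : p.Prime).odd_of_ne_two hp) hP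
      (fun i => Q ⟨min i n, by omega⟩) n (by simpa using h0) ?_ (fun i => hsc _) fun i hi => ?_
    · rw [← hn]; simp [Fin.last]
    · have := hc ⟨i, hi⟩
      simpa [Fin.succ, Fin.castSucc, Fin.castAdd, Fin.castLE, min_eq_left hi.le,
        min_eq_left (Nat.succ_le_of_lt hi)] using this

end Cfsg.Agent.S5236
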