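import Cfsg.Statements.S5237
import Cfsg.Agent.Lib.H1.StQ
import Cfsg.Agent.Lib.G74.Main

set_option autoImplicit false
open Cfsg

namespace Cfsg.Agent.S5237

/-- Let S be a nontrivial finite 2-group (p = 2). Then S has a nontrivial characteristic subgroup W that is normal in every saturated fusion system over S that is S₄-free (the symmetric group of degree 4 is not involved in any model of the normalizer system of a fully normalized centric subgroup). -/
theorem result {Ω : Type*} [Group Ω] {S : Subgroup Ω} [Finite S] (hS : IsPGroup 2 S) (hS1 : S ≠ ⊥) : ∃ W : Subgroup Ω, W ≤ S ∧ W ≠ ⊥ ∧ (W.subgroupOf S).Characteristic ∧ ∀ F : Cfsg.FusionSystem S, F.IsSaturated 2 → F.IsSectionFree 2 (Equiv.Perm (Fin 4)) → F.IsNormal W := by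
  obtain ⟨W, h1, h2, h3, h4⟩ := St.exists_char_normal
    (fun _ _ _ _ _ _ hH => let ⟨Q, D, t, h, _⟩ := BD.bender_simple hH; ⟨Q, D, t, h⟩)
    (fun _ _ _ _ S _ h1 h2 h3 => G74.goldschmidt S h1 h2 h3) hS hS1
  exact ⟨W, h1, h2, h3, fun F hF h =>
    h4 F hF ((H1.odd_or_not_hasSec hF hS (Or.inr h)).resolve_left fun e => e rfl)⟩

end Cfsg.Agent.S5237
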