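import Cfsg.Statements.S5243
import Cfsg.Agent.Lib.H8.PPrime
-- import your own Cfsg.Agent.* helpers here

set_option autoImplicit false
open Cfsg

namespace Cfsg.Agent.S5243

open Cfsg.FusionSystem Cfsg.Agent.H8 Cfsg.Agent.H7

/-- Let F be a saturated fusion system over a finite p-group S, E a normal subsystem of F over T ≤ S, and χ a surjective homomorphism from Aut_F(T) onto a nontrivial finite group Δ of order prime to p whose kernel contains Aut_E(T). Then there is a proper normal subsystem F₀ of F over S containing E such that Aut_{F₀}(S) consists of those α ∈ Aut_F(S) whose restriction to T is an element of Aut_F(T) in the kernel of χ; moreover every p'-residual subsystem O^{p'}(F) of F is contained in F₀. -/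
theorem result {Ω : Type*} [Group Ω] {S : Subgroup Ω} [Finite S] (p : ℕ) [Fact p.Prime] (hS : IsPGroup p S) (F : Cfsg.FusionSystem S) (hF : F.IsSaturated p) {T : Subgroup Ω} (hTS : T ≤ S) (E : Cfsg.FusionSystem T) (hE : E.IsNormalIn F p) {Δ : Type*} [Group Δ] [Finite Δ] [Nontrivial Δ] (hΔ : (Nat.card Δ).Coprime p) (χ : ↥(F.autGroup T) →* Δ) (hχ : Function.Surjective χ) (hker : (E.autGroup T).subgroupOf (F.autGroup T) ≤ χ.ker) : ∃ F₀ : Cfsg.FusionSystem S, F₀.IsNormalIn F p ∧ ¬ (∀ P : Subgroup Ω, F₀.Hom P = F.Hom P) ∧ E.IsSubsystemOf F₀ ∧ (∀ α : MulAut ↥S, α ∈ F₀.autGroup S ↔ α ∈ F.autGroup S ∧ ∃ β : ↥(F.autGroup T), χ β = 1 ∧ ∀ t : ↥T, (((β : MulAut ↥T) t : ↥T) : Ω) = ((α ⟨(t : Ω), hTS t.2⟩ : ↥S) : Ω)) ∧ ∀ R : Cfsg.FusionSystem S, F.IsPPrimeResidual p R → R.IsSubsystemOf F₀ := by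
  have hEi := hE.1.2.2
  have hEs := hE.1.1
  set K : Subgroup (MulAut T) := χ.ker.map (F.autGroup T).subtype with hKdef
  have hK : K ≤ F.autGroup T := Subgroup.map_subtype_le _
  have hmem : ∀ β : F.autGroup T, (β : MulAut T) ∈ K ↔ χ β = 1 := fun β =>
    ⟨fun ⟨y, hy, e⟩ => by rw [← Subtype.ext e]; exact hy, fun h => ⟨β, h, rfl⟩⟩
  have hpp : ppIn p (F.autGroup T) ≤ K := ppIn_le_iff.2 fun x hx k hk => (hmem ⟨x, hx⟩).2 (by
    have h1 : χ ⟨x, hx⟩ ^ p ^ k = 1 := by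
      rw [← map_pow, show (⟨x, hx⟩ : F.autGroup T) ^ p ^ k = 1 from Subtype.ext hk, map_one]
    exact orderOf_eq_one_iff.1 (Nat.eq_one_of_dvd_coprimes (hΔ.pow_right k)
      (orderOf_dvd_natCard _) (orderOf_dvd_of_pow_eq_one h1)))
  have hEK : E.autGroup T ≤ K := fun α hα =>
    (hmem ⟨α, (Inv.sub hEi).autGroup_le T hα⟩).2 (hker hα)
  have hKn : F.autGroup T ≤ Subgroup.normalizer (K : Set (MulAut T)) :=
    le_normalizer_of_conj_mem fun b hb a ha => by
      have := (hmem ⟨a, hK ha⟩).1 ha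
      refine (hmem (⟨b, hb⟩ * ⟨a, hK ha⟩ * ⟨b, hb⟩⁻¹)).2 ?_
      rw [map_mul, map_mul, this, map_inv]; simp
  have h0 := autZero_le_resPre hF hS hEi hEs hK hpp hEK
  have hn : F.autGroup S ≤ Subgroup.normalizer
      ((F.autGroup S ⊓ resPre S (Inv.le hEi) K : Subgroup (MulAut S)) : Set (MulAut S)) :=
    fun α hα => mem_normalizer_inf (Subgroup.le_normalizer hα) (le_normalizer_resPre hKn
      ((exists_res_autGroup le_rfl hTS hα (autGroup_le_stabAut (Inv.sc hEi) le_rfl hα)).imp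
        fun _ h => h))
  have hA := ppMul_autGroup hF hS inf_le_left h0
  refine ⟨ppMul hF hS (inf_le_left : F.autGroup S ⊓ resPre S (Inv.le hEi) K ≤ _),
    ppMul_isNormalIn hF hS _ h0 hn, fun hall => ?_, sub_ppMul_resPre hF hS hEi hEs hK hpp hEK,
    fun α => ?_, fun R hR => hR.2.2 _ (ppMul_isSaturated hF hS _ h0)
      (ppMul_hasPrimeToPIndexIn hF hS _)⟩
  · rw [ext_hom hall] at hA
    obtain ⟨d, hd⟩ := exists_ne (1 : Δ)
    obtain ⟨γ, rfl⟩ := hχ d
    have hγ := isMor_of_mem_autGroup hTS γ.2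
    obtain ⟨α, hα, f₀, hf₀, e⟩ := (ppSys_frM hF hS hγ).frA
    obtain ⟨-, β, hβ, e'⟩ := hA.le hα
    have h1 := ppSys_frA hF hS hEi hK hpp hf₀
    rw [inf_idem] at h1
    have hM := closed_frA F hTS (Inv.autInv hEi) hK
    have hf₀' := (ppSys_sub hF hS).isMor hf₀
    have hm : ∀ x ∈ T, f₀ x ∈ T := fun x hx => (Inv.sc hEi).map_mem hf₀' hx hx
    have := finite_of_le hTS
    exact hd ((hmem γ).1 (mem_of_frA_centric hF hS hEi hEs hK hpp hEK T le_rfl (isCentric_top E)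
      γ γ.2 (hM.congr (hM.comp hf₀' (isMor_of_mem_autGroup hTS (hK hβ)) h1 (frA_of_mem E le_rfl hβ)
        hm) fun x hx => by rw [Function.comp_apply, e x hx, e' _ (hm x hx)])))
  · rw [hA]
    refine and_congr_right fun hα => ⟨fun ⟨β, hβ, e⟩ => ⟨⟨β, hK hβ⟩, (hmem _).1 hβ, fun t => ?_⟩,
      fun ⟨β, hβ, e⟩ => ⟨β, (hmem β).2 hβ, fun x hx => ?_⟩⟩
    · rw [← equivFun_of_mem α (hTS t.2), e t t.2, equivFun_coe]
    · rw [equivFun_of_mem α (hTS hx), equivFun_of_mem _ hx, e ⟨x, hx⟩]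

end Cfsg.Agent.S5243
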