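import Cfsg.Statements.S5245
import Cfsg.Agent.Lib.H7.AutSys

set_option autoImplicit false
open Cfsg

namespace Cfsg.Agent.S5245

open Cfsg.FusionSystem Cfsg.Agent.H7 Cfsg.Agent.H8

/-- Let F be an extremely sparse fusion system over a finite p-group S (saturated, not the inner system, and every saturated fusion system over any subgroup T of S contained in F is F itself or the inner system of T). Then S is normal in F, the focal and hyperfocal subgroups of F are both S, and Aut_F(S) is generated by the inner automorphisms of S together with a single automorphism of prime order q ≠ p (F is the fusion system of the semidirect product of S by a cyclic group of prime order). -/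
theorem result {Ω : Type*} [Group Ω] {S : Subgroup Ω} [Finite S] (p : ℕ) [Fact p.Prime] (hS : IsPGroup p S) (F : Cfsg.FusionSystem S) (hF : F.IsSaturated p) (hxs : ¬ (∀ P : Subgroup Ω, F.Hom P = (Cfsg.innerFusionSystem S).Hom P) ∧ ∀ (T : Subgroup Ω) (E : Cfsg.FusionSystem T), E.IsSaturated p → E.IsSubsystemOf F → (T = S ∧ ∀ P : Subgroup Ω, E.Hom P = F.Hom P) ∨ (∀ P : Subgroup Ω, E.Hom P = (Cfsg.innerFusionSystem T).Hom P)) : F.IsNormal S ∧ F.focalSubgroup = S ∧ F.hyperfocalSubgroup p = S ∧ ∃ (q : ℕ) (β : MulAut ↥S), q.Prime ∧ q ≠ p ∧ β ∈ F.autGroup S ∧ orderOf β = q ∧ (F.autGroup S : Subgroup (MulAut ↥S)) = Cfsg.Inn ↥S ⊔ Subgroup.zpowers β := by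
  obtain ⟨hne, hxs⟩ := hxs
  have hp : p.Prime := Fact.out
  have key : ∀ (Q : Subgroup Ω) (hQ : Q ≤ S) (β : MulAut Q), β ∈ F.autGroup Q → β ≠ 1 →
      (orderOf β).Coprime p → Q = S ∧ ∀ P, (autSys (Inn Q ⊔ Subgroup.zpowers β) le_sup_left).Hom P =
        F.Hom P := by
    intro Q hQ β hβ h1 ho
    have := finite_of_le hQ
    have hQp : IsPGroup p Q := hS.to_le hQ
    refine (hxs Q _ (autSys_isSaturated hQp le_sup_left (sylowIn_inn_sup hQp
      (by rwa [Nat.card_zpowers]))) (autSys_isSubsystemOf hQ le_sup_left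
        (sup_le (F.inn_le_autGroup hQ) (Subgroup.zpowers_le.2 hβ)))).resolve_right fun h => h1 ?_
    have e := autSys_autGroup (le_sup_left : Inn Q ≤ Inn Q ⊔ Subgroup.zpowers β)
    rw [ext_hom h, innerFusionSystem_autGroup le_rfl, ← inn_eq_autInducedBy] at e
    exact eq_one_of_isPGroup_of_coprime (isPGroup_inn hQp)
      (e ▸ Subgroup.mem_sup_right (Subgroup.mem_zpowers β)) ho
  obtain ⟨Q, hQ, hnp⟩ : ∃ Q, Q ≤ S ∧ ¬ IsPGroup p (F.autGroup Q) := by
    by_contra h
    push Not at h
    apply hne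
    rw [hF.eq_inner_of_isPGroup hS fun P hP => h P (hF.of_top_or_essential hS hP).1.le]
    exact fun _ => rfl
  obtain ⟨q, hq, hqp, hdvd⟩ : ∃ q : ℕ, q.Prime ∧ q ≠ p ∧ q ∣ Nat.card (F.autGroup Q) := by
    by_contra h
    push Not at h
    apply hnp
    refine IsPGroup.iff_card.2 ⟨_, Nat.eq_prime_pow_of_unique_prime_dvd Nat.card_pos.ne'
      fun {d} hd hdv => ?_⟩
    by_contra hdp
    exact h d hd hdp hdv
  have : Fact q.Prime := ⟨hq⟩
  obtain ⟨⟨β, hβ⟩, ho⟩ := exists_prime_orderOf_dvd_card' q hdvd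
  rw [← Subgroup.orderOf_coe] at ho
  have ho' : (orderOf β).Coprime p := by
    rw [show orderOf β = q from ho]; exact (Nat.coprime_primes hq hp).2 hqp
  have h1 : β ≠ 1 := by
    rintro rfl
    exact hq.one_lt.ne (orderOf_one.symm.trans ho)
  obtain ⟨rfl, hE⟩ := key Q hQ β hβ h1 ho'
  have hE' := ext_hom hE
  have hh : F.hyperfocalSubgroup p = Q := by
    have hT := hyperfocalSubgroup_le F p
    obtain ⟨γ, hγ⟩ := exists_res hT (α := β) (mem_stabAut_of_finite fun x _ hx =>
      map_hyp_of_isMor_top (isMor_of_mem_autGroup le_rfl hβ) hx)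
    refine (key _ hT γ (((isMor_of_mem_autGroup le_rfl hβ).mono hT).mem_autGroup fun x => ?_)
      (fun h => h1 ?_) (coprime_of_res hT hγ ho')).1
    · rw [hγ x x.2, equivFun_coe]
    · refine mulAut_eq_one fun x hx => apply_eq_of_two_step hS ho'
        (fun y hy => mem_hyperfocalSubgroup le_rfl hβ ho' hy) (fun y _ hy => ?_) hx
      rw [hγ y hy, h, equivFun_one hy]
  refine ⟨hE' ▸ autSys_isNormal _, le_antisymm F.focalSubgroup_le
    (hh.ge.trans (F.hyperfocalSubgroup_le_focalSubgroup p)), hh, q, β, hq, hqp, hβ, ho, ?_⟩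
  rw [← hE', autSys_autGroup]

end Cfsg.Agent.S5245
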