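import Cfsg.Statements.S5248
import Cfsg.Agent.Lib.H6.Real

set_option autoImplicit false
open Cfsg

namespace Cfsg.Agent.S5248

/-- Let S be a finite 2-group that is dihedral of order at least 8, generalized quaternion of order at least 8, semidihedral, or wreathed, and let F be a saturated fusion system over S. Then F has at most two F-conjugacy classes of F-essential subgroups (among any three essential subgroups two are joined by a map of F), and F is realizable: it is the fusion system of a finite group on a Sylow 2-subgroup. -/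
theorem result {Ω : Type*} [Group Ω] {S : Subgroup Ω} [Finite S] (hS : IsPGroup 2 S) (F : Cfsg.FusionSystem S) (hF : F.IsSaturated 2) (hshape : ((∃ m : ℕ, 4 ≤ m ∧ Nonempty (↥S ≃* DihedralGroup m)) ∨ (∃ m : ℕ, 2 ≤ m ∧ Nonempty (↥S ≃* QuaternionGroup m)) ∨ Cfsg.IsQuasiDihedral ↥S ∨ Cfsg.IsWreathed ↥S)) : (∀ E₁ E₂ E₃ : Subgroup Ω, F.IsEssential 2 E₁ → F.IsEssential 2 E₂ → F.IsEssential 2 E₃ → (∃ φ ∈ F.Hom E₁, φ.range = E₂) ∨ (∃ φ ∈ F.Hom E₁, φ.range = E₃) ∨ (∃ φ ∈ F.Hom E₂, φ.range = E₃)) ∧ F.IsRealizable 2 := by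
  open H6 H2 in
  rcases hshape with ⟨m, hm, ⟨e⟩⟩ | ⟨m, hm, ⟨e⟩⟩ | h | h
  · obtain ⟨k, x, y, -, h⟩ := exists_mc_of_dihedral hS (by omega) e
    exact ⟨fun _ _ _ h1 h2 h3 => h.two_classes hF h1 h2 h3, h.isRealizable_d hF⟩
  · obtain ⟨k, x, y, -, h⟩ := exists_mc_of_quaternion hS hm e
    exact ⟨fun _ _ _ h1 h2 h3 => h.two_classes hF h1 h2 h3, h.isRealizable_q hF⟩
  · obtain ⟨k, x, y, h⟩ := exists_mc_of_isQuasiDihedral h
    exact ⟨fun _ _ _ h1 h2 h3 => h.two_classes hF h1 h2 h3, h.isRealizable_sd hF⟩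
  · obtain ⟨k, x, y, z, h⟩ := exists_wr h
    exact ⟨fun _ _ _ h1 h2 h3 => wr_two_classes h hF h1 h2 h3, wr_isRealizable h hF⟩

end Cfsg.Agent.S5248
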