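import Cfsg.Statements.S5254
import Cfsg.Agent.Lib.H9.AbIndex

set_option autoImplicit false
open Cfsg

namespace Cfsg.Agent.S5254

/-- Let p be an odd prime, S a finite nonabelian p-group with a unique abelian subgroup A of index p, and F a saturated fusion system over S. Then every F-essential subgroup P is A, or Z(S)⟨x⟩ for some x ∈ S outside A, or (when the second centre Z₂(S) lies in A) Z₂(S)⟨x⟩ for some x ∈ S outside A; and P has index p in its normalizer in S. -/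
theorem result {Ω : Type*} [Group Ω] {S : Subgroup Ω} [Finite S] (p : ℕ) [Fact p.Prime] (hS : IsPGroup p S) (F : Cfsg.FusionSystem S) (hF : F.IsSaturated p) (hp : p ≠ 2) (hna : ¬ IsMulCommutative ↥S) (A : Subgroup Ω) (hA : A ≤ S ∧ IsMulCommutative ↥A ∧ (A.subgroupOf S).index = p) (huniq : ∀ B : Subgroup Ω, B ≤ S → IsMulCommutative ↥B → (B.subgroupOf S).index = p → B = A) (P : Subgroup Ω) (hP : F.IsEssential p P) : (P = A ∨ (∃ x ∈ S, x ∉ A ∧ P = (S ⊓ Subgroup.centralizer (S : Set Ω)) ⊔ Subgroup.zpowers x) ∨ (((upperCentralSeries ↥S 2).map S.subtype) ≤ A ∧ ∃ x ∈ S, x ∉ A ∧ P = ((upperCentralSeries ↥S 2).map S.subtype) ⊔ Subgroup.zpowers x)) ∧ (P.subgroupOf (S ⊓ Subgroup.normalizer (P : Set Ω))).index = p := by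
  have h : H9.AbIdx p S A := ⟨hS, hA.1, H7.isMulCommutative_iff_forall.1 hA.2.1, hA.2.2,
    fun h => hna (H7.isMulCommutative_iff_forall.2 h)⟩
  have hu : ∀ B ≤ S, (∀ a ∈ B, ∀ b ∈ B, a * b = b * a) → B.relIndex S = p → B = A :=
    fun B h1 h2 h3 => huniq B h1 (H7.isMulCommutative_iff_forall.2 h2) h3
  obtain ⟨M, hE⟩ := H9.exists_essCtx hS hF hP
  by_cases hne : P = A
  · subst hne
    exact ⟨Or.inl rfl, by rw [inf_eq_left.2 h.norm]; exact hA.2.2⟩
  obtain ⟨x, hx, hxA⟩ := h.exists_not_mem_of_ess hE hne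
  by_cases hab : ∀ a ∈ P, ∀ b ∈ P, a * b = b * a
  · obtain ⟨h1, h2, -⟩ := h.ab_ess hE hx hxA hab
    exact ⟨Or.inr (Or.inl ⟨x, hE.le hx, hxA, by rw [← h1, h.inf_sup_eq hE.le hx hxA]⟩), h2⟩
  · obtain ⟨-, h1, h2, -, h3⟩ := h.nonab_ess hE hx hxA hab
    exact ⟨Or.inr (Or.inr ⟨h1, x, hE.le hx, hxA,
      (h.inf_sup_eq hE.le hx hxA).symm.trans (by rw [h2]; rfl)⟩), h3⟩

end Cfsg.Agent.S5254
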