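import Cfsg.Statements.S5257
import Cfsg.Agent.Lib.H9.AbIndex

set_option autoImplicit false
open Cfsg

namespace Cfsg.Agent.S5257

/-- Let p be an odd prime, S a finite nonabelian p-group with a unique abelian subgroup A of index p, and F a saturated fusion system over S having an F-essential subgroup other than A. Then the second centre Z₂(S) lies in A; Z(S) ∩ [S, S] has order p; Z(S)[S, S] has index p in A; Z(S) has index p in Z₂(S); and S/Z(S) has maximal nilpotency class (if S/Z(S) has order pᵐ with m ≥ 3 then the term of index m − 2 of the lower central series of S, counting S as index 0, is not contained in Z(S)). -/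
theorem result {Ω : Type*} [Group Ω] {S : Subgroup Ω} [Finite S] (p : ℕ) [Fact p.Prime] (hS : IsPGroup p S) (F : Cfsg.FusionSystem S) (hF : F.IsSaturated p) (hp : p ≠ 2) (hna : ¬ IsMulCommutative ↥S) (A : Subgroup Ω) (hA : A ≤ S ∧ IsMulCommutative ↥A ∧ (A.subgroupOf S).index = p) (huniq : ∀ B : Subgroup Ω, B ≤ S → IsMulCommutative ↥B → (B.subgroupOf S).index = p → B = A) (P : Subgroup Ω) (hP : F.IsEssential p P) (hPA : P ≠ A) : ((upperCentralSeries ↥S 2).map S.subtype) ≤ A ∧ Nat.card ↥((S ⊓ Subgroup.centralizer (S : Set Ω)) ⊓ ((commutator ↥S).map S.subtype)) = p ∧ (((S ⊓ Subgroup.centralizer (S : Set Ω)) ⊔ ((commutator ↥S).map S.subtype)).subgroupOf A).index = p ∧ (((S ⊓ Subgroup.centralizer (S : Set Ω))).subgroupOf ((upperCentralSeries ↥S 2).map S.subtype)).index = p ∧ ∀ m : ℕ, ((S ⊓ Subgroup.centralizer (S : Set Ω)).subgroupOf S).index = p ^ m → 3 ≤ m → ¬ Subgroup.lowerCentralSeries S (m - 2) ≤ (S ⊓ Subgroup.centralizer (S : Set Ω)) := by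
  have h : H9.AbIdx p S A := ⟨hS, hA.1, H7.isMulCommutative_iff_forall.1 hA.2.1, hA.2.2,
    fun h => hna (H7.isMulCommutative_iff_forall.2 h)⟩
  have hu : ∀ B ≤ S, (∀ a ∈ B, ∀ b ∈ B, a * b = b * a) → B.relIndex S = p → B = A :=
    fun B h1 h2 h3 => huniq B h1 (H7.isMulCommutative_iff_forall.2 h2) h3
  obtain ⟨M, hE⟩ := H9.exists_essCtx hS hF hP
  obtain ⟨h1, h2⟩ := h.zeta_two hu hE hPA
  have h3 := (h.card_center_inf h1).trans h2
  rw [Subgroup.map_subtype_commutator]
  refine ⟨h1, h3, h.relIndex_center_sup.trans h3, h2, fun m hm h4 h5 => ?_⟩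
  have := h.relIndex_le_of_lowerCentralSeries_le h1 h2 h5
  rw [Subgroup.relIndex, hm, Nat.pow_le_pow_iff_right (Fact.out : p.Prime).one_lt] at this
  omega

end Cfsg.Agent.S5257
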