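import Cfsg.Statements.S5271
import Cfsg.Agent.Lib.H7.TateCor2

set_option autoImplicit false
open Cfsg

namespace Cfsg.Agent.S5271

open Cfsg.FusionSystem Cfsg.Agent.H7 Cfsg.Agent.H8
open scoped commutatorElement

theorem aux {Ω : Type*} [Group Ω] {S : Subgroup Ω} [Finite S] {p : ℕ} [hp : Fact p.Prime]
    (hS : IsPGroup p S) {F : FusionSystem S} (hF : F.IsSaturated p) {k : ℕ}
    (hk : p ^ k < Nat.card S)
    (h1 : ∀ Q : Subgroup Ω, Q ≤ S → Nat.card Q = p ^ k → ∃ P : Subgroup Ω, F.StronglyClosed P ∧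
      F.StronglyClosed (Q ⊔ P) ∧ F.StronglyClosed (Q ⊓ P))
    (h2 : ∀ H : Subgroup Ω, F.IsFullyNormalized H → Nat.card H = p ^ k →
      ∀ N : FusionSystem (normalizerIn S H), F.IsNormalizerSystem H N →
        N = innerFusionSystem (normalizerIn S H)) :
    ∀ N, N ≤ S → F.StronglyClosed N → Nat.card N ≤ p ^ k → F.hyperfocalSubgroup p ≤ N := by
  refine card_induction_down fun N hNS ih hN hc => ?_
  have := finite_of_le hNS
  rcases hc.eq_or_lt with hc' | hc'
  · obtain ⟨E, hE⟩ := F.exists_normalizerSystem hNS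
    exact hF.hyp_le_of_normalizer_inner hS hN hE.isKNormSys
      (h2 N hN.weaklyClosed.isFullyNormalized hc' E hE)
  by_contra hne
  have hded : ∀ {Q P : Subgroup Ω}, N ≤ Q → P ≤ S → Q ⊓ P ≤ N → Q ⊓ (P ⊔ N) ≤ N := by
    intro Q P hNQ hP h x hx
    obtain ⟨a, ha, b, hb, rfl⟩ := (mem_sup_of_le_normalizer (hP.trans hN.le_normalizer)).1 hx.2
    exact N.mul_mem (h ⟨(Q.mul_mem_cancel_right (hNQ hb)).1 hx.1, ha⟩) hb
  have key : ∀ M, F.StronglyClosed M → N ≤ M → M ≤ N ∨ F.hyperfocalSubgroup p ⊔ N ≤ M := by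
    intro M hM hNM
    refine or_iff_not_imp_left.2 fun hMN => ?_
    obtain ⟨M', ⟨a1, a2, a3, a4⟩, hmin⟩ := exists_min_card
      (𝓒 := {M' | F.StronglyClosed M' ∧ N ≤ M' ∧ ¬ M' ≤ N ∧ M' ≤ M}) ⟨M, hM, hNM, hMN, le_rfl⟩
    have := finite_of_le a1.le
    have hmin' : ∀ X, F.StronglyClosed X → N ≤ X → X ≤ M' → X ≤ N ∨ M' ≤ X := fun X b1 b2 b3 =>
      or_iff_not_imp_left.2 fun b4 =>
        (Subgroup.eq_of_le_of_card_ge b3 (hmin X ⟨b1, b2, b4, b3.trans a4⟩)).ge
    refine sup_le ((ih M' a1.le (card_lt_of_lt (lt_of_le_not_ge a2 a3)) a1 ?_).trans a4) hNM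
    by_contra hlt
    obtain ⟨Q, q1, q2, -, q4⟩ := exists_normal_between hS a2 a1.le hN.le_normalizer
      a1.le_normalizer hc (not_le.1 hlt).le
    have q5 : ¬ Q ≤ N := fun h => hc'.not_ge (q4 ▸ Subgroup.card_le_of_le h)
    have := finite_of_le (q2.trans a1.le)
    have q6 : ¬ M' ≤ Q := fun h => hlt (q4 ▸ Subgroup.card_le_of_le h)
    obtain ⟨P, p1, p2, p3⟩ := h1 Q (q2.trans a1.le) q4
    have r1 : Q ⊓ P ≤ N := le_sup_left.trans ((hmin' _ (hF.stronglyClosed_sup hS hN p3)
      le_sup_right (sup_le (inf_le_left.trans q2) a2)).resolve_right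
        fun h => q6 (h.trans (sup_le inf_le_left q1)))
    rcases hmin' _ (hF.stronglyClosed_sup hS hN (a1.inf p1)) le_sup_right
      (sup_le inf_le_left a2) with h | h
    · rcases hmin' _ (p2.inf a1) (le_inf (q1.trans le_sup_left) a2) inf_le_right with h' | h'
      · exact q5 ((le_inf le_sup_left q2).trans h')
      · refine q6 fun x hx => ?_
        obtain ⟨a, ha, b, hb, rfl⟩ := (mem_sup_of_le_normalizer
          ((q2.trans a1.le).trans p1.le_normalizer)).1 (h' hx).1
        exact Q.mul_mem ha (q1 (h (Subgroup.mem_sup_left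
          ⟨(M'.mul_mem_cancel_left (q2 ha)).1 hx, hb⟩)))
    · exact q5 ((le_inf le_rfl (q2.trans (h.trans (sup_le_sup_right inf_le_right _)))).trans
        (hded q1 p1.le r1))
  set T := F.hyperfocalSubgroup p ⊔ N with hTdef
  have hT : F.StronglyClosed T := hF.stronglyClosed_sup hS hN (stronglyClosed_hyp hF hS)
  have hNT : N ≤ T := le_sup_right
  have key2 : ∀ Q, N ≤ Q → Q ≤ S → Nat.card Q = p ^ k → T ≤ Q ∨ Q ⊓ T ≤ N := by
    intro Q q1 q2 q4
    have q5 : ¬ Q ≤ N := fun h => hc'.not_ge (q4 ▸ Subgroup.card_le_of_le h)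
    obtain ⟨P, p1, p2, p3⟩ := h1 Q q2 q4
    rcases key _ (hF.stronglyClosed_sup hS hN p3) le_sup_right with h | h
    swap
    · exact Or.inl (h.trans (sup_le inf_le_left q1))
    rcases key _ (hF.stronglyClosed_sup hS hN p1) le_sup_right with h' | h'
    · rw [sup_eq_left.2 ((le_sup_left.trans h').trans q1)] at p2
      exact Or.inl ((key Q p2 q1).resolve_left q5)
    · exact Or.inr ((inf_le_inf_left _ h').trans (hded q1 p1.le (le_sup_left.trans h)))
  have := finite_of_le hT.le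
  have hTk : Nat.card T ≤ p ^ k := by
    by_contra hlt
    obtain ⟨Q, q1, q2, q3, q4⟩ := exists_normal_between hS hNT hT.le hN.le_normalizer
      hT.le_normalizer hc (not_le.1 hlt).le
    have := finite_of_le (q2.trans hT.le)
    rcases key2 Q q1 (q2.trans hT.le) q4 with h | h
    · exact hlt (q4 ▸ Subgroup.card_le_of_le h)
    · exact hc'.not_ge (q4 ▸ Subgroup.card_le_of_le ((le_inf le_rfl q2).trans h))
  have hΦ : ¬ T ≤ H9.Phi p S ⊔ N := fun h =>
    hne (hF.hyp_le_of_le_Phi_sup hS hN (le_sup_left.trans h))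
  obtain ⟨t, htT, ht⟩ := SetLike.not_le_iff_exists.1 hΦ
  obtain ⟨M, m1, m2, m3, m4⟩ := H9.exists_relIndex_eq_not_mem le_sup_left
    (sup_le (H9.Phi_le S) hNS) (hT.le htT) ht
  have hMn := H9.le_normalizer_of_relIndex_eq hS m2 m4
  have hMk : p ^ k ≤ Nat.card M := by
    obtain ⟨j, hj⟩ := IsPGroup.iff_card.1 hS
    have h3 := H1.card_mul_relIndex m2
    rw [m4, hj] at h3
    rw [hj] at hk
    have h4 := Nat.pow_le_pow_right hp.out.pos ((Nat.pow_lt_pow_iff_right hp.out.one_lt).1 hk)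
    rw [← h3, pow_succ] at h4
    exact Nat.le_of_mul_le_mul_right h4 hp.out.pos
  obtain ⟨Q, q1, q2, -, q4⟩ := exists_normal_between hS (K := M ⊓ T) inf_le_left m2
    (fun s hs => mem_normalizer_inf (hMn hs) (hT.le_normalizer hs)) hMn
    ((Subgroup.card_le_of_le inf_le_right).trans hTk) hMk
  have hNM : N ≤ M := le_sup_right.trans m1
  have hMT : M ⊓ T = N := le_antisymm ((le_inf q1 inf_le_right).trans
    ((key2 Q ((le_inf hNM hNT).trans q1) (q2.trans m2) q4).resolve_left
      fun h => m3 (q2 (h htT)))) (le_inf hNM hNT)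
  have hi : N.relIndex T ∣ p := by
    rw [← hMT, Subgroup.inf_relIndex_right, ← m4]
    have : (M.subgroupOf S).Normal := (Subgroup.normal_subgroupOf_iff_le_normalizer m2).2 hMn
    rw [← Subgroup.relIndex_subgroupOf hT.le]
    exact Subgroup.relIndex_dvd_index_of_normal _ _
  obtain ⟨H, r1, r2, r3, r4⟩ := exists_normal_between hS hT.le le_rfl hT.le_normalizer
    Subgroup.le_normalizer hTk hk.le
  have hH := stronglyClosed_of_hyp_le hF hS r2 r3 (le_sup_left.trans r1)
  obtain ⟨E, hE⟩ := F.exists_normalizerSystem r2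
  have hE' := h2 H hH.weaklyClosed.isFullyNormalized r4 E hE
  refine hne (hF.hyp_le_of_central hS ?_ hN hT hi hNT le_sup_left)
  have hle : S ≤ normalizerIn S H := hH.normalizerIn_eq.ge
  refine (isPGroup_autGroup_inner (hS.to_le normalizerIn_le) hle).to_le ?_
  rw [← hE']
  exact (autGroup_le_iff le_rfl hle).2 fun f hf => hE.isKNormSys.top_isMor_of_isIso hf.mor r2
    le_rfl hle (hH.isIso_self (hf.mor.mono r2))

/-- A nilpotency criterion for fusion systems. Let F be a saturated fusion system over a finite p-group S of order at least p². Call a subgroup Q of S weakly embedded in F when there is a subgroup P of S strongly closed in F such that both the product QP and the intersection Q ∩ P are strongly closed in F. Then F is the inner fusion system of S if and only if there is a subgroup D of S with 1 < D < S such that every subgroup of S of the same order as D is weakly embedded in F and, for every fully normalized subgroup H of S of that order, the normalizer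 fusion system of H in F is the inner fusion system of N_S(H). -/
theorem result {Ω : Type*} [Group Ω] {S : Subgroup Ω} [Finite S] (p : ℕ) [Fact p.Prime] (hS : IsPGroup p ↥S) (F : Cfsg.FusionSystem S) (hF : F.IsSaturated p) (hcard : p ^ 2 ≤ Nat.card S) : (∀ P : Subgroup Ω, F.Hom P = (Cfsg.innerFusionSystem S).Hom P) ↔ ∃ D : Subgroup Ω, ⊥ < D ∧ D < S ∧ (∀ Q : Subgroup Ω, Q ≤ S → Nat.card ↥Q = Nat.card ↥D → ∃ P : Subgroup Ω, F.StronglyClosed P ∧ F.StronglyClosed (Q ⊔ P) ∧ F.StronglyClosed (Q ⊓ P)) ∧ (∀ H : Subgroup Ω, F.IsFullyNormalized H → Nat.card ↥H = Nat.card ↥D → ∀ N : Cfsg.FusionSystem (Cfsg.FusionSystem.normalizerIn S H), F.IsNormalizerSystem H N → ∀ P : Subgroup Ω, N.Hom P = (Cfsg.innerFusionSystem (Cfsg.FusionSystem.normalizerIn S H)).Hom P) := by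
  have hp : p.Prime := Fact.out
  rw [forall_hom_eq_iff]
  constructor
  · rintro rfl
    have hS1 : ⊥ < S := bot_lt_iff_ne_bot.2 fun h => by
      rw [h, Subgroup.card_bot] at hcard
      exact absurd hcard (not_le.2 (Nat.one_lt_pow two_ne_zero hp.one_lt))
    obtain ⟨D, -, h1, h2⟩ := H9.exists_le_relIndex_eq_of_lt hS hS1
    have h3 := H1.card_mul_relIndex h1
    rw [h2] at h3
    refine ⟨D, bot_lt_iff_ne_bot.2 fun h => ?_, lt_of_le_of_ne h1 fun h => ?_,
      fun Q hQ hc => ⟨S, stronglyClosed_top _, ?_, ?_⟩, fun H _ _ N hN => ?_⟩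
    · rw [← h3, h, Subgroup.card_bot, one_mul, pow_two] at hcard
      exact absurd hcard (not_le.2 (lt_mul_self hp.one_lt))
    · rw [h, Subgroup.relIndex_self] at h2
      exact hp.one_lt.ne h2
    · rw [sup_eq_right.2 hQ]; exact stronglyClosed_top _
    · rw [inf_eq_left.2 hQ]
      refine stronglyClosed_inner_iff.2 ⟨hQ, H9.le_normalizer_of_relIndex_eq hS hQ ?_⟩
      have h4 := H1.card_mul_relIndex hQ
      rw [hc, ← h3] at h4
      have := finite_of_le h1
      exact Nat.eq_of_mul_eq_mul_left Nat.card_pos h4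
    · exact forall_hom_eq_iff.2 hN.isKNormSys.eq_inner
  · rintro ⟨D, -, hD, h1, h2⟩
    have := finite_of_le hD.le
    obtain ⟨k, hk⟩ := IsPGroup.iff_card.1 (hS.to_le hD.le)
    rw [hk] at h1 h2
    refine (hF.eq_inner_iff_hyp hS).2 (eq_bot_iff.2 (aux hS hF (hk ▸ card_lt_of_lt hD) h1
      (fun H a b N hN => forall_hom_eq_iff.1 (h2 H a b N hN)) ⊥ bot_le F.stronglyClosed_bot ?_))
    rw [Subgroup.card_bot]
    exact Nat.one_le_pow _ _ hp.pos

end Cfsg.Agent.S5271
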