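import Cfsg.Statements.S5274
import Cfsg.Agent.Lib.H7.Small

set_option autoImplicit false
open Cfsg

namespace Cfsg.Agent.S5274

open Cfsg.FusionSystem Cfsg.Agent.H7 Cfsg.Agent.H8
open scoped commutatorElement

universe u

theorem stronglyClosed_pow {Ω : Type*} [Group Ω] {S : Subgroup Ω} [Finite S] (hS : IsPGroup 2 S)
    {F : FusionSystem S} (hF : F.IsSaturated 2) {k : ℕ} (hk : ∀ x ∈ S, x ^ 2 ^ (k + 1) = 1) :
    F.StronglyClosed (powerClosure 2 k (centralizerIn S S)) := by
  have hVZ : powerClosure 2 k (centralizerIn S S) ≤ centralizerIn S S := H9.powerClosure_le _ _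
  refine stronglyClosed_iff.2 ⟨hVZ.trans centralizerIn_le, fun P f hf x hx hxV => ?_⟩
  refine (alperin_cr hF hS (closed_stab F _) ?_ P f hf x hx).2 hxV
  intro P hfn hc _ hab α hα
  have hPS := hfn.le
  have := finite_of_le hPS
  have hi := isIso_of_mem_autGroup hPS hα
  refine mem_stabAut_of_finite fun y₀ hy₀P hy₀ => ?_
  by_cases hne : S ≤ P
  · obtain rfl := le_antisymm hPS hne
    exact isMor_map_mem_powerClosure hi.mor centralizerIn_le hi.isIso_center.mapsTo k y₀ hy₀
  obtain ⟨t, htS, htP, htN, htp⟩ := H9.exists_mem_normalizer_not_mem hS hPS hne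
  have hZ : centralizerIn S S ≤ centralizerIn P P := fun z hz =>
    ⟨hc.mem_of_mem_centralizer hz.1 (Subgroup.centralizer_le hPS hz.2),
      Subgroup.centralizer_le hPS hz.2⟩
  obtain ⟨z, hz, rfl⟩ := (mem_powerClosure_of_comm (W := centralizerIn S S)
    fun x hx y hy => hy.2 x hx.1).1 hy₀
  have hv := hi.isIso_center.mapsTo z (hZ hz)
  set v := equivFun α z with hvdef
  have hy : equivFun α (z ^ 2 ^ k) = v ^ 2 ^ k := hi.mor.map_pow (hZ hz).1 _
  have hvt : t⁻¹ * v * t ∈ centralizerIn P P :=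
    inv_conj_mem_of_mem_normalizer (mem_normalizer_centralizerIn htN htN) hv
  have hty : Commute t (v ^ 2 ^ k) := by
    have h1 := hk _ (S.mul_mem htS (hPS hv.1))
    have c1 : Commute (t ^ 2) (t⁻¹ * v * t) := hvt.2 _ htp
    have c2 : Commute (t ^ 2) v := hv.2 _ htp
    have c3 : Commute (t⁻¹ * v * t) v := hv.2 _ hvt.1
    rw [pow_succ', pow_mul, show (t * v) ^ 2 = t ^ 2 * (t⁻¹ * v * t * v) by
      rw [pow_two, pow_two]; group, (c1.mul_right c2).mul_pow, ← pow_mul, ← pow_succ', hk t htS,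
      one_mul, c3.mul_pow, show t⁻¹ * v * t = t⁻¹ * v * t⁻¹⁻¹ by rw [inv_inv], conj_pow,
      inv_inv] at h1
    have h2 : v ^ 2 ^ k * v ^ 2 ^ k = 1 := by
      rw [← pow_two, ← pow_mul, ← pow_succ, hk v (hPS hv.1)]
    have h3 := mul_right_cancel (h1.trans h2.symm)
    rw [mul_assoc, inv_mul_eq_iff_eq_mul] at h3
    exact h3.symm
  have hle : Subgroup.zpowers (z ^ 2 ^ k) ≤ P := Subgroup.zpowers_le.2 hy₀P
  have h1 := hi.mor.isIso_img_of_le hle
  rw [(hi.mor.mono hle).img_zpowers, hy] at h1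
  obtain ⟨ψ, hψ, e, -⟩ := h1.exists_symm
  have hfc : F.IsFullyCentralized (Subgroup.zpowers (z ^ 2 ^ k)) := by
    refine F.isFullyCentralized_of_le_centralizer (hle.trans hPS) ?_
    rintro s hs _ ⟨i, rfl⟩
    exact ((show Commute s (z ^ 2 ^ k) from (hVZ hy₀).2 s hs).zpow_right i).symm.eq
  obtain ⟨g, hg, eg⟩ := (hF.isReceptive_of_fc hS hfc).exists_ext_centralizerIn hψ
  have hC : ∀ a ∈ S, Commute a (v ^ 2 ^ k) → a ∈ Subgroup.zpowers (v ^ 2 ^ k) ⊔
      centralizerIn S (Subgroup.zpowers (v ^ 2 ^ k)) := by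
    intro a ha h
    refine Subgroup.mem_sup_right ⟨ha, ?_⟩
    rintro _ ⟨i, rfl⟩
    exact (h.zpow_right i).symm.eq
  have := finite_of_le hg.le
  have hlt := card_lt_of_mem (P := P)
    (fun a ha => hC a (hPS ha) ((show Commute a v from hv.2 a ha).pow_right _)) (hC t htS hty) htP
  rw [hy, ← hab _ g hg hlt _ (Subgroup.mem_sup_left (Subgroup.mem_zpowers _)),
    eg _ (Subgroup.mem_zpowers _), ← hy, e _ (Subgroup.mem_zpowers _)]
  exact hy₀

theorem aux (n : ℕ) : ∀ {Ω : Type u} [Group Ω] {S : Subgroup Ω} [Finite S], Nat.card S < n →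
    IsPGroup 2 S → ∀ F : FusionSystem S, F.IsSaturated 2 →
    (∀ x ∈ S, ∃ z ∈ centralizerIn S S, F.IsConjElt x z) → ∀ x ∈ S, ∀ y ∈ S, x * y = y * x := by
  classical
  induction n with
  | zero => intro _ _ _ _ h; exact absurd h (Nat.not_lt_zero _)
  | succ n ih =>
  intro Ω _ S _ hn hS F hF h
  have hex : ∃ k, ∀ z ∈ centralizerIn S S, z ^ 2 ^ k = 1 := by
    obtain ⟨k, hk⟩ := IsPGroup.iff_card.1 hS
    exact ⟨k, fun z hz => H9.pow_eq_one_of_card_eq hk hz.1⟩
  have hall : ∀ k, (∀ z ∈ centralizerIn S S, z ^ 2 ^ k = 1) → ∀ x ∈ S, x ^ 2 ^ k = 1 := by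
    intro k hk x hx
    obtain ⟨z, hz, hc⟩ := h x hx
    obtain ⟨P, f, hf, hxP, rfl⟩ := isConjElt_iff.1 hc
    rw [← hf.eq_one_iff (P.pow_mem hxP _), hf.map_pow hxP, hk _ hz]
  rcases hk : Nat.find hex with _ | k
  · have := hall _ (Nat.find_spec hex)
    rw [hk] at this
    intro x hx y hy
    have h1 := this x hx
    rw [pow_zero, pow_one] at h1
    simp [h1]
  have h1 := hall _ (Nat.find_spec hex)
  rw [hk] at h1
  have h2 := Nat.find_min hex (m := k) (by omega)
  have hY := stronglyClosed_pow hS hF h1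
  set Y := powerClosure 2 k (centralizerIn S S) with hYdef
  have hYZ : Y ≤ centralizerIn S S := H9.powerClosure_le _ _
  have hY1 : Y ≠ ⊥ := fun e => h2 fun z hz => Subgroup.mem_bot.1 (e ▸ H9.pow_mem_powerClosure hz)
  have := hY.normal_subgroupOf
  obtain ⟨E, hE⟩ := exists_factorSystem_quotient F hY
  have hlt : Nat.card (⊤ : Subgroup (S ⧸ Y.subgroupOf S)) < n := by
    rw [Subgroup.card_top]
    refine lt_of_lt_of_le (H1.card_quotient_lt fun e => hY1 ?_) (Nat.lt_succ_iff.1 hn)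
    rw [← Subgroup.map_subgroupOf_eq_of_le hY.le, e, Subgroup.map_bot]
  have hab := ih hlt (factor_isPGroup hS hE) E (factor_isSaturated hF hS hY hE) (by
    intro y hy
    obtain ⟨x, hx, rfl⟩ := factor_surj hE hy
    obtain ⟨z, hz, hc⟩ := h x hx
    obtain ⟨P, f, hf, hxP, rfl⟩ := isConjElt_iff.1 hc
    obtain ⟨f', hf', e⟩ := factor_isMor_induced hF hS hY hE hf
    refine ⟨_, ⟨trivial, fun w hw => ?_⟩, e x hxP ▸ hf'.isConjElt (mem_img_of_mem _ hxP)⟩
    obtain ⟨a, ha, rfl⟩ := factor_surj hE hw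
    rw [← (isHomOn_homFun _).map_mul ha hz.1, ← (isHomOn_homFun _).map_mul hz.1 ha, hz.2 a ha])
  have hcomm : ⁅S, S⁆ ≤ Y := Subgroup.commutator_le.2 fun x hx y hy => by
    rw [← factor_ker hE (Subgroup.commutator_le_self S (Subgroup.commutator_mem_commutator hx hy)),
      (isHomOn_homFun _).map_commutatorElement hx hy, commutatorElement_eq_one_iff_mul_comm]
    exact hab _ trivial _ trivial
  have hn : F.IsNormal S := by
    refine hF.isNormal_of_series hS F.stronglyClosed_top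
      (C := fun i => match i with | 0 => ⊥ | 1 => Y | _ + 2 => S) ?_ rfl (n := 2) rfl ?_ ?_
    · refine monotone_nat_of_le_succ fun i => ?_
      match i with
      | 0 => exact bot_le
      | 1 => exact hY.le
      | _ + 2 => exact le_rfl
    · intro i hi
      match i with
      | 0 => exact (commutator_eq_bot_iff_forall.2 fun x hx y hy => ((hYZ hx).2 y hy).symm).le
      | 1 => exact hcomm
    · intro i hi
      match i with
      | 0 => exact F.stronglyClosed_bot.weaklyClosed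
      | 1 => exact hY.weaklyClosed
  intro x hx y hy
  obtain ⟨z, hz, hc⟩ := h y hy
  exact ((stronglyClosed_iff_isConjElt.1 hn.center.stronglyClosed).2 z hz y hc.symm).2 x hx

/-- Let F be a saturated fusion system over a finite 2-group S. Suppose that every element of S is F-conjugate to an element of the centre Z(S) (some map of F defined on the cyclic subgroup it generates sends it into Z(S)). Then S is abelian. -/
theorem result {Ω : Type*} [Group Ω] {S : Subgroup Ω} [Finite S] (hS : IsPGroup 2 ↥S) (F : Cfsg.FusionSystem S) (hF : F.IsSaturated 2) (h : ∀ x ∈ S, ∃ z ∈ S ⊓ Subgroup.centralizer (S : Set Ω), F.IsConjElt x z) : IsMulCommutative ↥S := by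
  exact isMulCommutative_iff_forall.2 (aux _ (Nat.lt_succ_self _) hS F hF h)

end Cfsg.Agent.S5274
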