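import Cfsg.Statements.S5276
import Cfsg.Agent.Lib.H7.TateCor

set_option autoImplicit false
open Cfsg

namespace Cfsg.Agent.S5276

open Cfsg.FusionSystem Cfsg.Agent.H7 Cfsg.Agent.H8

/-- Let p be a prime and F a saturated fusion system over a finite p-group S. Then F is the inner fusion system of S if and only if the normalizer fusion system of S itself in F is the inner fusion system (equivalently, Aut_F(S) is induced by S) and the Frattini subgroup Φ(S) is strongly closed in F. -/
theorem result {Ω : Type*} [Group Ω] {S : Subgroup Ω} [Finite S] (p : ℕ) [Fact p.Prime] (hS : IsPGroup p ↥S) (F : Cfsg.FusionSystem S) (hF : F.IsSaturated p) : (∀ P : Subgroup Ω, F.Hom P = (Cfsg.innerFusionSystem S).Hom P) ↔ (∀ N : Cfsg.FusionSystem (Cfsg.FusionSystem.normalizerIn S S), F.IsNormalizerSystem S N → ∀ P : Subgroup Ω, N.Hom P = (Cfsg.innerFusionSystem (Cfsg.FusionSystem.normalizerIn S S)).Hom P) ∧ F.StronglyClosed ((frattini ↥S).map S.subtype) := by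
  rw [hF.isPGroup_autGroup_top_iff hS, forall_hom_eq_iff, H9.map_frattini_eq_Phi hS]
  constructor
  · rintro rfl
    exact ⟨isPGroup_autGroup_inner hS le_rfl,
      stronglyClosed_inner_iff.2 ⟨H9.Phi_le S, H9.le_normalizer_Phi S⟩⟩
  · rintro ⟨h1, h2⟩
    exact hF.eq_inner_of_stronglyClosed hS h1 h2 (H9.commutator_le_Phi S) le_rfl

end Cfsg.Agent.S5276
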