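import Cfsg.Statements.S5277
import Cfsg.Agent.Lib.FL.Fus

set_option autoImplicit false
open Cfsg

namespace Cfsg.Agent.S5277

/-- Let p be an odd prime, F a saturated fusion system over a finite p-group S, and α an automorphism of S that fixes no non-identity element of S and preserves F (every map of F, transported along α, is again a map of F). Suppose the order of α is a prime r that does not divide the order of Aut_F(R) for any F-centric F-radical subgroup R of S. Then S is normal in F (F is the normalizer fusion system of S). -/
theorem result {Ω : Type*} [Group Ω] {S : Subgroup Ω} [Finite S] (p : ℕ) [Fact p.Prime] (hS : IsPGroup p ↥S) (F : Cfsg.FusionSystem S) (hF : F.IsSaturated p) (hp : p ≠ 2) (α : ↥S ≃* ↥S) (hfix : ∀ x : ↥S, α x = x → x = 1) (hmor : F.IsMorphism F (S.subtype.comp α.toMonoidHom)) (r : ℕ) (hr : r.Prime) (hord : orderOf α = r) (hcr : ∀ R : Subgroup Ω, F.IsCentric R → F.IsRadical p R → ¬ r ∣ Nat.card ↥(F.autGroup R)) : F.IsNormal S :=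
  FL.Fus.main hS hF hp hfix hmor hr hord hcr

end Cfsg.Agent.S5277
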