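import Cfsg.Statements.S5278
import Cfsg.Agent.Lib.H1.WeakClosure4

set_option autoImplicit false
open Cfsg

namespace Cfsg.Agent.S5278

/-- Let p be an odd prime, F a saturated fusion system over a finite p-group S, and T a subgroup of Z(S) such that the normalizer fusion system of J(S) in F is contained in the normalizer fusion system of T, J(S) being the subgroup generated by the abelian subgroups of S of largest order. Then either T is weakly closed in F, or Aut_F(T) has a nontrivial cyclic subgroup X of order prime to p that permutes transitively the non-identity elements of the commutator [T, X] (the subgroup of T generated by the elements ψ(t)·t⁻¹ with ψ in X and t in T). -/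
theorem result {Ω : Type*} [Group Ω] {S : Subgroup Ω} [Finite S] (p : ℕ) [Fact p.Prime] (hS : IsPGroup p ↥S) (F : Cfsg.FusionSystem S) (hF : F.IsSaturated p) (hp : p ≠ 2) (T : Subgroup Ω) (hT : T ≤ S ⊓ Subgroup.centralizer (S : Set Ω)) (hJT : ∀ NJ : Cfsg.FusionSystem (Cfsg.FusionSystem.normalizerIn S (Cfsg.thompsonSubgroupAOf S)), F.IsNormalizerSystem (Cfsg.thompsonSubgroupAOf S) NJ → ∀ NT : Cfsg.FusionSystem (Cfsg.FusionSystem.normalizerIn S T), F.IsNormalizerSystem T NT → NJ.IsSubsystemOf NT) : F.WeaklyClosed T ∨ ∃ X : Subgroup (MulAut ↥T), X ≤ F.autGroup T ∧ X ≠ ⊥ ∧ IsCyclic ↥X ∧ (Nat.card ↥X).Coprime p ∧ ∀ a b : ↥T, a ∈ Subgroup.closure {y : ↥T | ∃ ψ ∈ X, ∃ t : ↥T, y = ψ t * t⁻¹} → b ∈ Subgroup.closure {y : ↥T | ∃ ψ ∈ X, ∃ t : ↥T, y = ψ t * t⁻¹} → a ≠ 1 → b ≠ 1 → ∃ ψ ∈ X, ψ a = b := by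
  have hTS : T ≤ S := hT.trans inf_le_left
  have hST : S ≤ Subgroup.centralizer (T : Set Ω) :=
    Subgroup.le_centralizer_iff.1 (hT.trans inf_le_right)
  have hn := H1.le_normalizer_of_le_centralizer hST
  obtain ⟨NJ, hNJ⟩ := F.exists_normalizerSystem (H1.thompson_le S)
  obtain ⟨NT, hNT⟩ := F.exists_normalizerSystem hTS
  have hsub := hJT NJ hNJ NT hNT
  have hTJ : T ≤ thompsonSubgroupAOf S := hT.trans (H1.centralizerIn_le_thompson S)
  rcases H1.isNormal_or_torus hF hS hp hT (fun f hf => ((hNT.isKNormSys.top_isMor_iff_of_le hTJ).1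
    (hsub.isMor (hNJ.isKNormSys.top_isMor_of_isIso hf.mor le_rfl le_rfl
      (FusionSystem.le_normalizerIn (H1.thompson_le S)) hf))).2.2.mapsTo) with h | ⟨ξ, hξ, C, h1, h2, h3⟩
  · exact Or.inl h.weaklyClosed
  right
  have := FusionSystem.finite_of_le hTS
  have := F.finite_autGroup T
  have hsyl := (hF.isFullyAutomized hS (F.isFullyNormalized_of_le_normalizer hTS hn)).sylowIn
  have hle : Subgroup.zpowers ξ ≤ F.autGroup T := Subgroup.zpowers_le.2 hξ
  have hcop : (Nat.card (Subgroup.zpowers ξ)).Coprime p := by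
    rw [Nat.coprime_comm, (Fact.out : p.Prime).coprime_iff_not_dvd]
    intro hd
    refine hsyl.ne_bot (hd.trans (Subgroup.card_dvd_of_le hle)) ?_
    refine (Subgroup.eq_bot_iff_forall _).2 fun α hα => ?_
    obtain ⟨a, ha, e⟩ := FusionSystem.mem_autInducedBy_iff.1 hα
    ext x
    rw [e x, ← hST ha x x.2, mul_inv_cancel_right]
    rfl
  obtain ⟨h4, h5⟩ := H1.transitive_of_torus (fun a b => Subtype.ext ((hT b.2).2 a (hTS a.2)))
    (hS.to_le hTS) hp hcop h1 h2 h3
  exact ⟨_, hle, h4, inferInstance, hcop, h5⟩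

end Cfsg.Agent.S5278
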