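import Cfsg.Statements.S5279
import Cfsg.Agent.Lib.H1.ZJ

set_option autoImplicit false
open Cfsg

namespace Cfsg.Agent.S5279

/-- Let p be an odd prime, G a finite group with a nontrivial Sylow p-subgroup P, and F the fusion system of G on P. Suppose F is p-stable: for every fully normalized subgroup Q and every χ in Aut_F(Q) acting quadratically on Q (χ(a⁻¹)·a·χ(a⁻¹)·χ(χ(a)) = 1 for all a in Q), χ lies in O_p(Aut_F(Q)). Then some nontrivial subgroup of P is normal in F. -/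
theorem result {Ω : Type*} [Group Ω] [Finite Ω] (p : ℕ) [Fact p.Prime] (hp : p ≠ 2) (P : Sylow p Ω) (hP : (P : Subgroup Ω) ≠ ⊥) (hst : (∀ Q : Subgroup Ω, (Cfsg.groupFusionSystem (P : Subgroup Ω)).IsFullyNormalized Q → ∀ χ : MulAut ↥Q, χ ∈ (Cfsg.groupFusionSystem (P : Subgroup Ω)).autGroup Q → (∀ a : ↥Q, (χ a⁻¹) * a * (χ a⁻¹) * (χ (χ a)) = 1) → χ ∈ ((Cfsg.pCore p ↥((Cfsg.groupFusionSystem (P : Subgroup Ω)).autGroup Q)).map ((Cfsg.groupFusionSystem (P : Subgroup Ω)).autGroup Q).subtype : Subgroup (MulAut ↥Q)))) : (Cfsg.groupFusionSystem (P : Subgroup Ω)).core ≠ ⊥ := by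
  have hF := FusionSystem.groupFusionSystem_isSaturated P
  refine H1.core_ne_bot_of_stable hp hF P.isPGroup' (fun B hB α hα hq => ?_) hP
  obtain ⟨Q, g, hQ, -, hg⟩ := hF.exists_isFullyNormalized P.isPGroup' hB
  refine hg.congrAut_mem_pCoreIn_iff.1 (hst Q hQ _ (hg.congrAut_mem_autGroup_iff.2
    ((groupFusionSystem (P : Subgroup Ω)).autInducedBy_le_autGroup hB le_rfl hα)) fun a => ?_)
  have h1 : H1.Quad (hg.congrAut α) := fun x => by
    have := congrArg hg.toMulEquiv (hq (hg.toMulEquiv.symm x))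
    simpa [FusionSystem.IsIso.congrAut] using this
  have h2 := h1 a
  rw [map_mul] at h2
  rw [mul_assoc, h2, map_inv]
  group

end Cfsg.Agent.S5279
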