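import Cfsg.Statements.S5284
import Cfsg.Agent.Lib.H7.AutSys

set_option autoImplicit false
open Cfsg

namespace Cfsg.Agent.S5284

open Cfsg.FusionSystem Cfsg.Agent.H7 Cfsg.Agent.H8
open scoped commutatorElement

section

variable {p : ℕ}

theorem comm_of_chain {E : Type*} [Group E] [Finite E] [Fact p.Prime] (hE : IsPGroup p E)
    (K : ℕ → Subgroup E) (n : ℕ) (hm : ∀ i, K i ≤ K (i + 1)) (hinv : ∀ i, H9.AInv ⊤ (K i))
    (h0 : K 0 ≤ H9.Phi p (K n)) (hn : K n = ⊤) (hr : ∀ i, (K i).relIndex (K (i + 1)) ∣ p)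
    (H : Subgroup (MulAut E)) (hH : (Nat.card H).Coprime p) :
    IsMulCommutative H ∧ ∀ h ∈ H, h ^ (p - 1) = 1 := by
  have hinv' : ∀ i, H9.AInv H (K i) := fun i => (hinv i).mono le_top
  have key : ∀ N : Subgroup (MulAut E), N ≤ H →
      (∀ α ∈ N, ∀ i, H9.TrivOn α (K (i + 1)) (K i)) → ∀ α ∈ N, α = 1 := by
    intro N hN h α hα
    refine eq_one_of_isPGroup_of_coprime (p := p) ?_ hα
      (hH.coprime_dvd_left (H.orderOf_dvd_natCard (hN hα)))
    exact H9.isPGroup_of_chain hE K n n le_rfl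
      (fun i _ => (hinv i).mono le_top) h0 hn fun α hα i _ => h α hα i
  constructor
  · refine isMulCommutative_iff_forall.2 fun x hx y hy => ?_
    rw [← commutatorElement_eq_one_iff_mul_comm]
    refine key ⁅H, H⁆ (Subgroup.commutator_le.2 fun a ha b hb => ?_) (fun α hα i => ?_) _
      (Subgroup.commutator_mem_commutator hx hy)
    · exact H.mul_mem (H.mul_mem (H.mul_mem ha hb) (H.inv_mem ha)) (H.inv_mem hb)
    · exact H9.trivOn_commutator_of_relIndex_dvd (hinv' _) (hinv' _) (hE.to_subgroup _)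
        (hm i) (hr i) hα
  · intro α hα
    refine key (Subgroup.zpowers (α ^ (p - 1))) (Subgroup.zpowers_le.2 (H.pow_mem hα _))
      ?_ _ (Subgroup.mem_zpowers _)
    rintro _ ⟨k, rfl⟩ i
    have := H9.trivOn_pow_pred (hinv' (i + 1)) (hinv' i) (hE.to_subgroup _)
      (hm i) (hr i) (H.zpow_mem hα k)
    show H9.TrivOn ((α ^ (p - 1)) ^ k) _ _
    rwa [← zpow_natCast, ← zpow_mul, mul_comm, zpow_mul, zpow_natCast] at this

theorem dvd_of_mul [hp : Fact p.Prime] {a k : ℕ} (h : k < a) {y : ZMod (p ^ a)}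
    (hy : p ^ k • y = 0) : ∃ w, y = p • w := by
  rw [← ZMod.natCast_zmod_val y, nsmul_eq_mul, ← Nat.cast_mul, ZMod.natCast_eq_zero_iff] at hy
  have h1 : p ^ k * p ∣ p ^ k * y.val := (pow_succ p k ▸ pow_dvd_pow p h).trans hy
  obtain ⟨w, hw⟩ := Nat.dvd_of_mul_dvd_mul_left (pow_pos hp.out.pos _) h1
  exact ⟨w, by rw [← ZMod.natCast_zmod_val y, hw, nsmul_eq_mul]; push_cast; rfl⟩

/-- `Ω_k(M) M^p`. -/
def KK (p : ℕ) (M : Type*) [CommGroup M] (k : ℕ) : Subgroup M where
  carrier := {x | ∃ y z, y ^ p ^ k = 1 ∧ x = y * z ^ p}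
  mul_mem' := by
    rintro _ _ ⟨y, z, h, rfl⟩ ⟨y', z', h', rfl⟩
    exact ⟨y * y', z * z', by rw [mul_pow, h, h', one_mul], by rw [mul_pow, mul_mul_mul_comm]⟩
  one_mem' := ⟨1, 1, one_pow _, by simp⟩
  inv_mem' := by
    rintro _ ⟨y, z, h, rfl⟩
    exact ⟨y⁻¹, z⁻¹, by rw [inv_pow, h, inv_one], by rw [mul_inv, inv_pow]⟩

theorem mem_KK [Fact p.Prime] {ι : Type} {a : ι → ℕ} {k : ℕ}
    {x : (i : ι) → Multiplicative (ZMod (p ^ a i))} :
    x ∈ KK p _ k ↔ ∀ i, k < a i → ∃ w, x i = w ^ p := by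
  constructor
  · rintro ⟨y, z, h, rfl⟩ i hi
    obtain ⟨w, hw⟩ := dvd_of_mul hi (y := (y i).toAdd) (by
      have := congrArg Multiplicative.toAdd (congrFun h i)
      rwa [Pi.pow_apply, toAdd_pow] at this)
    refine ⟨Multiplicative.ofAdd w * z i, ?_⟩
    rw [mul_pow, ← ofAdd_nsmul, ← hw]; rfl
  · intro h
    choose! w hw using h
    refine ⟨fun i => if k < a i then 1 else x i, fun i => if k < a i then w i else 1, ?_, ?_⟩
    · funext i
      rw [Pi.pow_apply, Pi.one_apply]
      split_ifs with hi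
      · simp
      · obtain ⟨d, hd⟩ := Nat.exists_eq_add_of_le (not_lt.1 hi)
        apply Multiplicative.toAdd.injective
        rw [toAdd_pow, nsmul_eq_mul, hd, pow_add, Nat.cast_mul, ZMod.natCast_self, zero_mul,
          zero_mul, toAdd_one]
    · funext i
      rw [Pi.mul_apply, Pi.pow_apply]
      split_ifs with hi
      · rw [hw i hi, one_mul]
      · simp

theorem comm_of_injective [Fact p.Prime] {ι : Type} [Fintype ι] {a : ι → ℕ}
    (ha : Function.Injective a)
    (hp : IsPGroup p ((i : ι) → Multiplicative (ZMod (p ^ a i))))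
    (H : Subgroup (MulAut ((i : ι) → Multiplicative (ZMod (p ^ a i)))))
    (hH : (Nat.card H).Coprime p) : IsMulCommutative H ∧ ∀ h ∈ H, h ^ (p - 1) = 1 := by
  classical
  have hn : KK p ((i : ι) → Multiplicative (ZMod (p ^ a i))) (∑ i, a i) = ⊤ := by
    refine eq_top_iff.2 fun x _ => mem_KK.2 fun i hi => absurd hi (not_lt.2 ?_)
    exact Finset.single_le_sum (f := a) (fun _ _ => Nat.zero_le _) (Finset.mem_univ i)
  have hm : ∀ k, KK p ((i : ι) → Multiplicative (ZMod (p ^ a i))) k ≤ KK p _ (k + 1) :=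
    fun k x hx => mem_KK.2 fun i hi => mem_KK.1 hx i (by omega)
  refine comm_of_chain hp (KK p _) (∑ i, a i) hm ?_ ?_ hn (fun k => ?_) H hH
  · rintro k α - _ ⟨y, z, h, rfl⟩
    exact ⟨α y, α z, by rw [← map_pow, h, map_one], by rw [map_mul, map_pow]⟩
  · rintro _ ⟨y, z, h, rfl⟩
    rw [pow_zero, pow_one] at h
    rw [h, one_mul, hn]
    exact H9.pow_mem_Phi trivial
  · by_cases hj : ∃ j, a j = k + 1
    · obtain ⟨j, hj⟩ := hj
      let g : (i : ι) → Multiplicative (ZMod (p ^ a i)) := Pi.mulSingle j (Multiplicative.ofAdd 1)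
      have e : KK p _ (k + 1) = KK p _ k ⊔ Subgroup.zpowers g := by
        refine le_antisymm (fun x hx => ?_) (sup_le (hm k) (Subgroup.zpowers_le.2 (mem_KK.2
          fun i hi => ⟨1, ?_⟩)))
        · refine Subgroup.mem_sup.2 ⟨x * (g ^ (x j).toAdd.val)⁻¹, mem_KK.2 fun i hi => ?_,
            _, Subgroup.npow_mem_zpowers g (x j).toAdd.val, by simp⟩
          by_cases hij : i = j
          · subst hij
            refine ⟨1, ?_⟩
            simp [g, ← ofAdd_nsmul]
          · have hi' : k + 1 < a i := by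
              have : a i ≠ a j := fun h => hij (ha h)
              omega
            obtain ⟨w, hw⟩ := mem_KK.1 hx i hi'
            exact ⟨w, by simp [g, Pi.mulSingle_eq_of_ne hij, hw]⟩
        · have hij : i ≠ j := by rintro rfl; omega
          simp [g, Pi.mulSingle_eq_of_ne hij]
      rw [e]
      refine H9.relIndex_sup_zpowers_dvd ?_ ⟨1, g, one_pow _, (one_mul _).symm⟩
      rw [Subgroup.normalizer_eq_top]; trivial
    · push Not at hj
      rw [Subgroup.relIndex_eq_one.2 fun x hx => mem_KK.2 fun i hi =>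
        mem_KK.1 hx i (by have := hj i; omega)]
      exact one_dvd _

theorem exists_split {ι : Type} {n : ι → ℕ} {i j : ι} (hij : i ≠ j) (h : n i = n j) :
    ∃ (H : Type) (_ : CommGroup H), Nonempty (((k : ι) → Multiplicative (ZMod (n k))) ≃*
      (Multiplicative (ZMod (n i)) × Multiplicative (ZMod (n i))) × H) := by
  classical
  let e : Multiplicative (ZMod (n j)) ≃* Multiplicative (ZMod (n i)) :=
    AddEquiv.toMultiplicative (ZMod.ringEquivCongr h.symm).toAddEquiv
  refine ⟨(k : {k // k ≠ i ∧ k ≠ j}) → Multiplicative (ZMod (n k)), inferInstance,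
    ⟨MulEquiv.ofBijective (((Pi.evalMonoidHom _ i).prod
      (e.toMonoidHom.comp (Pi.evalMonoidHom _ j))).prod
      (MonoidHom.pi fun k => Pi.evalMonoidHom (fun k => Multiplicative (ZMod (n k))) k.1))
      ⟨fun x y hxy => ?_, fun ⟨⟨u, v⟩, z⟩ => ?_⟩⟩⟩
  · funext k
    by_cases h1 : k = i
    · subst h1; exact congrArg (fun t => t.1.1) hxy
    by_cases h2 : k = j
    · subst h2; exact e.injective (congrArg (fun t => t.1.2) hxy)
    exact congrFun (congrArg Prod.snd hxy) ⟨k, h1, h2⟩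
  · refine ⟨Function.update (Function.update
      (fun k => if h : k ≠ i ∧ k ≠ j then z ⟨k, h⟩ else 1) i u) j (e.symm v), ?_⟩
    refine Prod.ext (Prod.ext ?_ ?_) (funext fun ⟨k, h1, h2⟩ => ?_)
    · simp [Function.update_of_ne hij]
    · simp
    · simp [Function.update_of_ne h1, Function.update_of_ne h2, h1, h2]

variable {A H : Type*} [CommGroup A] [Group H]

/-- An automorphism of order three. -/
def rot3 (A H : Type*) [CommGroup A] [Group H] : MulAut ((A × A) × H) where
  toFun x := ((x.1.2⁻¹, x.1.1 * x.1.2⁻¹), x.2)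
  invFun x := ((x.1.2 * x.1.1⁻¹, x.1.1⁻¹), x.2)
  left_inv x := by simp
  right_inv x := by simp
  map_mul' x y := by simp [mul_comm, mul_left_comm, mul_assoc]

/-- An automorphism of order four. -/
def rot4 (A H : Type*) [CommGroup A] [Group H] : MulAut ((A × A) × H) where
  toFun x := ((x.1.2⁻¹, x.1.1), x.2)
  invFun x := ((x.1.2, x.1.1⁻¹), x.2)
  left_inv x := by simp
  right_inv x := by simp
  map_mul' x y := by simp [mul_comm]

/-- The flip. -/
def flip2 (A H : Type*) [CommGroup A] [Group H] : MulAut ((A × A) × H) where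
  toFun x := ((x.1.2, x.1.1), x.2)
  invFun x := ((x.1.2, x.1.1), x.2)
  left_inv x := by simp
  right_inv x := by simp
  map_mul' x y := by simp

theorem rot3_pow : rot3 A H ^ 3 = 1 := by
  ext1 x
  simp [pow_succ, rot3]

theorem rot4_pow : rot4 A H ^ 2 ^ 2 = 1 := by
  ext1 x
  simp [pow_succ, rot4]

theorem flip2_mul : flip2 A H * flip2 A H = 1 := rfl

theorem flip2_conj : flip2 A H * rot4 A H * (flip2 A H)⁻¹ = (rot4 A H)⁻¹ := rfl

theorem isPGroup_dih : IsPGroup 2 (Subgroup.zpowers (rot4 A H) ⊔ Subgroup.zpowers (flip2 A H) :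
    Subgroup (MulAut ((A × A) × H))) := by
  have : Fact (Nat.Prime 2) := ⟨Nat.prime_two⟩
  rw [sup_comm]
  refine isPGroup_sup_of_le_normalizer (isPGroup_zpowers_of_pow (k := 1) ?_)
    (isPGroup_zpowers_of_pow rot4_pow) ?_
  · rw [pow_one, pow_two, flip2_mul]
  · have hh : ∀ g ∈ Subgroup.zpowers (rot4 A H), flip2 A H * g * (flip2 A H)⁻¹ ∈
        Subgroup.zpowers (rot4 A H) := by
      rintro g ⟨k, rfl⟩
      refine ⟨-k, ?_⟩
      show rot4 A H ^ (-k) = flip2 A H * rot4 A H ^ k * (flip2 A H)⁻¹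
      rw [← conj_zpow, flip2_conj, inv_zpow']
    exact Subgroup.zpowers_le.2 (mem_normalizer_of_conj hh hh)

theorem not_comm [hp : Fact p.Prime] {n : ℕ} (hn : 0 < n) [Finite H] :
    ¬ ∀ K : Subgroup (MulAut ((Multiplicative (ZMod (p ^ n)) × Multiplicative (ZMod (p ^ n))) × H)),
      (Nat.card K).Coprime p → IsMulCommutative K ∧ ∀ h ∈ K, h ^ (p - 1) = 1 := by
  intro h
  have h1 : 1 < p ^ n := Nat.one_lt_pow hn.ne' hp.out.one_lt
  have : Fact (1 < p ^ n) := ⟨h1⟩
  by_cases h2 : p = 2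
  · subst h2
    have := (h (Subgroup.zpowers (rot3 _ H)) (by
      rw [Nat.card_zpowers]
      exact Nat.Coprime.coprime_dvd_left (orderOf_dvd_of_pow_eq_one rot3_pow) (by norm_num))).2
      _ (Subgroup.mem_zpowers _)
    have := congrArg (fun t => (t ((Multiplicative.ofAdd 1, 1), 1)).1.1) this
    have h3 : (1 : Multiplicative (ZMod (2 ^ n))) = Multiplicative.ofAdd 1 := by
      simpa [rot3] using this
    exact zero_ne_one (congrArg Multiplicative.toAdd h3 : (0 : ZMod (2 ^ n)) = 1)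
  · have : Fact (Nat.Prime 2) := ⟨Nat.prime_two⟩
    obtain ⟨k, hk⟩ := IsPGroup.iff_card.1 (isPGroup_dih (A := Multiplicative (ZMod (p ^ n))) (H := H))
    have := isMulCommutative_iff_forall.1 (h _ (by
      rw [hk]
      exact Nat.Coprime.pow_left _ ((Nat.coprime_primes Nat.prime_two hp.out).2 (Ne.symm h2)))).1
      _ (Subgroup.mem_sup_left (Subgroup.mem_zpowers _)) _
      (Subgroup.mem_sup_right (Subgroup.mem_zpowers _))
    have h3 : (-1 : ZMod (p ^ n)) = 1 :=
      congrArg (fun t => (t ((Multiplicative.ofAdd 1, 1), 1)).1.1.toAdd) this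
    have h4 : ((2 : ℕ) : ZMod (p ^ n)) = 0 := by
      rw [Nat.cast_ofNat, ← one_add_one_eq_two]
      nth_rewrite 1 [← h3]
      exact neg_add_cancel 1
    rw [ZMod.natCast_eq_zero_iff] at h4
    exact h2 ((Nat.prime_dvd_prime_iff_eq hp.out Nat.prime_two).1
      ((dvd_pow_self p hn.ne').trans h4))

theorem transport {X Y : Type*} [Group X] [Group Y] (e : X ≃* Y)
    (h : ∀ K : Subgroup X, (Nat.card K).Coprime p → IsMulCommutative K ∧ ∀ h ∈ K, h ^ (p - 1) = 1)
    (K : Subgroup Y) (hK : (Nat.card K).Coprime p) :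
    IsMulCommutative K ∧ ∀ h ∈ K, h ^ (p - 1) = 1 := by
  obtain ⟨h1, h2⟩ := h (K.map e.symm.toMonoidHom) (by
    rwa [Subgroup.card_map_of_injective e.symm.injective])
  refine ⟨isMulCommutative_iff_forall.2 fun x hx y hy => e.symm.injective ?_,
    fun x hx => e.symm.injective ?_⟩
  · rw [map_mul, map_mul]
    exact isMulCommutative_iff_forall.1 h1 _ ⟨x, hx, rfl⟩ _ ⟨y, hy, rfl⟩
  · rw [map_pow, map_one]
    exact h2 _ ⟨x, hx, rfl⟩

end

/-- Let S be a finite abelian p-group. Every saturated fusion system over S is supersoluble (S has a chain of F-strongly closed subgroups from 1 to S with cyclic steps) if and only if the invariants of S are pairwise distinct, that is, S is not isomorphic to a direct product (Z/p^n × Z/p^n) × H with n ≥ 1. -/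
theorem result {Ω : Type*} [Group Ω] {S : Subgroup Ω} [Finite S] (p : ℕ) [Fact p.Prime] (hS : IsPGroup p ↥S) (hab : IsMulCommutative ↥S) : (∀ F : Cfsg.FusionSystem S, F.IsSaturated p → (∃ (m : ℕ) (c : Fin (m + 1) → Subgroup Ω), c 0 = ⊥ ∧ c (Fin.last m) = S ∧ (∀ i : Fin (m + 1), F.StronglyClosed (c i)) ∧ ∀ i : Fin m, c i.castSucc ≤ c i.succ ∧ ∃ x ∈ S, c i.succ = c i.castSucc ⊔ Subgroup.zpowers x)) ↔ ¬ ∃ (n : ℕ) (H : Type) (_ : CommGroup H), 0 < n ∧ Nonempty (↥S ≃* (Multiplicative (ZMod (p ^ n)) × Multiplicative (ZMod (p ^ n))) × H) := by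
  have hp : p.Prime := Fact.out
  refine (FusionSystem.forall_cycChain_iff hS).trans ⟨fun h => ?_, fun h => ⟨fun F hF =>
    hF.isNormal_top_of_abelian hS (isMulCommutative_iff_forall.1 hab), ?_⟩⟩
  · rintro ⟨n, H, _, hn, ⟨e⟩⟩
    have : Finite H := Finite.of_surjective (fun x : S => (e x).2) fun y =>
      ⟨e.symm (1, y), by simp⟩
    exact not_comm hn (transport (MulAut.congr e) h.2)
  · let _ : CommGroup S := { (inferInstance : Group S) with mul_comm := hab.is_comm.comm }
    obtain ⟨ι, _, n, hn, ⟨e⟩⟩ := CommGroup.equiv_prod_multiplicative_zmod_of_finite S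
    have hP := hS.of_equiv e
    have hn' : ∀ i, ∃ a, n i = p ^ a := by
      intro i
      have : NeZero (n i) := ⟨by have := hn i; omega⟩
      have := hP.of_surjective (Pi.evalMonoidHom _ i) (Function.surjective_eval i)
      simpa using IsPGroup.iff_card.1 this
    choose a ha using hn'
    obtain rfl : n = fun i => p ^ a i := funext ha
    refine transport (MulAut.congr e).symm (comm_of_injective (fun i j hij => ?_) hP)
    by_contra hne
    obtain ⟨H, _, ⟨e'⟩⟩ := exists_split (n := fun i => p ^ a i) hne (by simp [hij])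
    refine h ⟨a i, H, inferInstance, Nat.pos_of_ne_zero fun h0 => ?_, ⟨e.trans e'⟩⟩
    have := hn i
    simp [h0] at this

end Cfsg.Agent.S5284
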