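import Cfsg.Statements.S5286
import Cfsg.Agent.Lib.H7.Basic2
import Cfsg.Agent.Lib.H7.Tree

set_option autoImplicit false
universe u
open Cfsg

namespace Cfsg.Agent.S5286

section
open Cfsg.FusionSystem Cfsg.Agent.H7.Tree

variable {Ω : Type u} [Group Ω] {S : Subgroup Ω} (F : FusionSystem S)

/-- The regular representation. -/
abbrev lam (S : Subgroup Ω) : S →* Equiv.Perm S := MulAction.toPermHom S S

/-- Index set of the edge orbits. -/
abbrev Idx := {i : Subgroup Ω × (Ω → Ω) // F.IsMor i.1 i.2}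

/-- Edge stabilizers. -/
def stab (i : Idx F) : Subgroup (Equiv.Perm S) := (i.1.1.subgroupOf S).map (lam S)

/-- Edges. -/
abbrev Edge := Σ i : Idx F, Equiv.Perm S ⧸ stab F i

/-- Vertices. -/
abbrev Vert (S : Subgroup Ω) := Equiv.Perm S ⧸ (lam S).range

variable {F}

theorem lam_inj : Function.Injective (lam S) := MulAction.toPerm_injective

theorem exists_sig [Finite S] (i : Idx F) : ∃ σ : Equiv.Perm S, ∀ x ∈ i.1.1,
    homFun (lam S) (i.1.2 x) = σ * homFun (lam S) x * σ⁻¹ := by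
  let φ : i.1.1.subgroupOf S →* S := MonoidHom.mk' (fun x => ⟨i.1.2 x.1.1, i.2.mem x.2⟩)
    fun x y => Subtype.ext (i.2.map_mul x.2 y.2)
  obtain ⟨σ, hσ⟩ := exists_perm _ φ fun x y h =>
    Subtype.ext (Subtype.ext (i.2.inj x.2 y.2 (congrArg Subtype.val h)))
  refine ⟨σ, fun x hx => ?_⟩
  rw [homFun_of_mem _ (i.2.mem hx), homFun_of_mem _ (i.2.le hx), eq_mul_inv_iff_mul_eq]
  ext1 y
  exact (hσ ⟨⟨x, i.2.le hx⟩, hx⟩ y).symm

/-- The base vertex. -/
def v0 (S : Subgroup Ω) : Vert S := ((1 : Equiv.Perm S) : Vert S)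

theorem smul_v0_iff {σ : Equiv.Perm S} : σ • v0 S = v0 S ↔ ∃ s ∈ S, homFun (lam S) s = σ := by
  rw [← MulAction.mem_stabilizer_iff, v0, MulAction.stabilizer_quotient]
  exact ⟨fun ⟨s, hs⟩ => ⟨s, s.2, by rw [homFun_coe, hs]⟩,
    fun ⟨s, hs, e⟩ => ⟨⟨s, hs⟩, by rw [← e, homFun_of_mem _ hs]⟩⟩

theorem mem_stab {i : Idx F} {σ : Equiv.Perm S} :
    σ ∈ stab F i ↔ ∃ x ∈ i.1.1, homFun (lam S) x = σ :=
  ⟨fun ⟨s, hs, e⟩ => ⟨s, hs, by rw [homFun_coe, e]⟩,
    fun ⟨x, hx, e⟩ => ⟨⟨x, i.2.le hx⟩, hx, by rw [← e, homFun_of_mem _ (i.2.le hx)]⟩⟩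

/-- Endpoint maps. -/
def endp (v : Idx F → Vert S) (h : ∀ i, ∀ σ ∈ stab F i, σ • v i = v i) (e : Edge F) : Vert S :=
  Quotient.liftOn' e.2 (fun τ => τ • v e.1) fun a b hab => by
    rw [eq_comm, ← inv_smul_eq_iff, ← mul_smul]
    exact h _ _ (QuotientGroup.leftRel_apply.1 hab)

theorem endp_smul (v : Idx F → Vert S) (h : ∀ i, ∀ σ ∈ stab F i, σ • v i = v i)
    (σ : Equiv.Perm S) (e : Edge F) : endp v h (σ • e) = σ • endp v h e := by
  obtain ⟨i, q⟩ := e
  induction q using QuotientGroup.induction_on with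
  | H τ => exact mul_smul σ τ (v i)

theorem lam_homFun_inj {a b : Ω} (ha : a ∈ S) (hb : b ∈ S)
    (h : homFun (lam S) a = homFun (lam S) b) : a = b := by
  rw [homFun_of_mem _ ha, homFun_of_mem _ hb] at h
  exact congrArg Subtype.val (lam_inj h)

end

/-- Every fusion system F over a finite p-group S, saturated or not, is realized by a possibly infinite group: there are a group G and an injective homomorphism ι of S into G such that the maps of F are exactly the conjugations by elements of G between subgroups of ι(S), every finite subgroup of G is conjugate to a subgroup of ι(S), and G has a free normal subgroup whose index divides (#S)!. -/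
theorem result {Ω : Type u} [Group Ω] {S : Subgroup Ω} [Finite S] (p : ℕ) [Fact p.Prime] (hS : IsPGroup p ↥S) (F : Cfsg.FusionSystem S) : ∃ (G : Type u) (_ : Group G) (ι : ↥S →* G), F.IsRealizedBy ι ∧ (∀ H : Subgroup G, Finite ↥H → ∃ g : G, ∀ h ∈ H, g * h * g⁻¹ ∈ ι.range) ∧ ∃ N : Subgroup G, N.Normal ∧ IsFreeGroup ↥N ∧ N.index ∣ (Nat.card ↥S).factorial := by
  classical
  open Cfsg.FusionSystem Cfsg.Agent.H7.Tree in
  choose sig hsig using fun i : Idx F => exists_sig i
  have hl := isHomOn_homFun (lam S)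
  have h0 : ∀ i : Idx F, ∀ σ ∈ stab F i, σ • v0 S = v0 S := fun i σ hσ => by
    obtain ⟨x, hx, e⟩ := mem_stab.1 hσ
    exact smul_v0_iff.2 ⟨x, i.2.le hx, e⟩
  have h1 : ∀ i : Idx F, ∀ σ ∈ stab F i, σ • (sig i)⁻¹ • v0 S = (sig i)⁻¹ • v0 S :=
    fun i σ hσ => by
      obtain ⟨x, hx, rfl⟩ := mem_stab.1 hσ
      rw [eq_inv_smul_iff, ← mul_smul, ← mul_smul, ← hsig i x hx]
      exact smul_v0_iff.2 ⟨_, i.2.mem hx, rfl⟩
  let G := lifts (endp_smul _ h0) (endp_smul _ h1) (v0 S)
  let ι : S →* G := (SemidirectProduct.inr.comp (lam S)).codRestrict G fun s =>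
    ⟨[], rfl, ((smul_v0_iff (S := S) (σ := lam S s)).2 ⟨s, s.2, homFun_coe _ _⟩).symm⟩
  have hι : ∀ x ∈ S, (homFun ι x).1 = SemidirectProduct.inr (homFun (lam S) x) := fun x hx => by
    rw [homFun_of_mem _ hx, homFun_of_mem _ hx]; rfl
  refine ⟨G, inferInstance, ι, isRealizedBy_iff.2 ⟨fun a b h => lam_inj
    (SemidirectProduct.inr_injective (congrArg Subtype.val h)), fun P f hP hf hm =>
      ⟨fun h => ?_, fun ⟨g, hg⟩ => ?_⟩⟩, fun H _ => ?_,
    (SemidirectProduct.rightHom.comp G.subtype).ker, inferInstance, isFreeGroup_ker G, ?_⟩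
  · let i : Idx F := ⟨(P, f), h⟩
    let e : Edge F := ⟨i, (sig i : Equiv.Perm S ⧸ stab F i)⟩
    refine ⟨⟨⟨FreeGroup.mk [(e, false)], sig i⟩, [(e, false)], rfl, smul_inv_smul _ _, rfl⟩,
      fun x hx => Subtype.ext ?_⟩
    have hfix : homFun (lam S) (f x) • e = e := by
      refine Sigma.ext rfl (heq_of_eq (QuotientGroup.eq.2 ?_))
      have := hsig i x hx
      change homFun (lam S) (f x) = _ at this
      beta_reduce
      rw [smul_eq_mul, this, show (sig i * homFun (lam S) x * (sig i)⁻¹ * sig i)⁻¹ * sig i =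
        (homFun (lam S) x)⁻¹ by group]
      exact Subgroup.inv_mem _ (mem_stab.2 ⟨x, hx, rfl⟩)
    rw [Subgroup.coe_mul, Subgroup.coe_mul, Subgroup.coe_inv, hι _ (hm x hx), hι _ (hP hx),
      eq_mul_inv_iff_mul_eq]
    ext1
    · simp only [SemidirectProduct.mul_left, SemidirectProduct.left_inr,
        SemidirectProduct.right_inr, one_mul, map_one, mul_one, act_mk, List.map, hfix]
    · simp only [SemidirectProduct.mul_right, SemidirectProduct.right_inr]
      exact eq_mul_inv_iff_mul_eq.1 (hsig i x hx)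
  · have hg' : ∀ x ∈ P, SemidirectProduct.inr (homFun (lam S) (f x)) * g.1 =
        g.1 * SemidirectProduct.inr (homFun (lam S) x) := fun x hx => by
      rw [← hι _ (hm x hx), ← hι _ (hP hx), hg x hx]
      simp
    have hfix : ∀ x ∈ P, ∀ a ∈ g.1.left.toWord, homFun (lam S) (f x) • a.1 = a.1 := by
      intro x hx a ha
      have h2 := congrArg (fun g => g.left.toWord) (hg' x hx)
      simp only [SemidirectProduct.mul_left, SemidirectProduct.left_inr,
        SemidirectProduct.right_inr, one_mul, map_one, mul_one, toWord_act] at h2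
      conv_rhs at h2 => rw [← List.map_id g.1.left.toWord]
      exact congrArg Prod.fst (List.map_inj_left.1 h2 a ha)
    let Good : Equiv.Perm S → Prop := fun τ => ∃ k, F.IsMor P k ∧
      ∀ x ∈ P, homFun (lam S) (k x) = τ⁻¹ * homFun (lam S) (f x) * τ
    have hG : ∀ τ τ', Good τ → τ • v0 S = τ' • v0 S → Good τ' := by
      rintro τ τ' ⟨k, hk, e⟩ h
      rw [← inv_smul_eq_iff, ← mul_smul] at h
      obtain ⟨s, hs, e'⟩ := smul_v0_iff.1 h
      refine ⟨_, (isMor_conj F le_rfl hs).comp hk fun x hx => hk.mem hx, fun x hx => ?_⟩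
      simp only [Function.comp_apply]
      rw [hl.map_conj hs (hk.mem hx), e', e x hx]
      group
    have hG' : ∀ τ, (∃ τ', τ' • v0 S = τ • v0 S ∧ Good τ') ↔ Good τ := fun τ =>
      ⟨fun ⟨τ', h, h'⟩ => hG _ _ h' h, fun h => ⟨τ, rfl, h⟩⟩
    have key := (mem_lifts.1 g.2).iff (G := fun v => ∃ τ', τ' • v0 S = v ∧ Good τ') ?_
    · have h3 := hG' 1
      rw [one_smul] at h3
      rw [hG', h3] at key
      obtain ⟨k, hk, e⟩ := key.2 ⟨id, isMor_id F hP, fun x hx => by
        have := congrArg SemidirectProduct.right (hg' x hx)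
        simp only [SemidirectProduct.mul_right, SemidirectProduct.right_inr] at this
        rw [mul_assoc, this, inv_mul_cancel_left, id]⟩
      exact hk.congr fun x hx => lam_homFun_inj (hk.mem hx) (hm x hx) (by simpa using e x hx)
    · rintro ⟨⟨i, q⟩, c⟩ ha
      induction q using QuotientGroup.induction_on with
      | H ρ =>
      have h2 : ∀ x ∈ P, ∃ a ∈ i.1.1, homFun (lam S) a = ρ⁻¹ * homFun (lam S) (f x) * ρ := by
        intro x hx
        have h3 : ((homFun (lam S) (f x) * ρ : Equiv.Perm S) : Equiv.Perm S ⧸ stab F i) = ρ :=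
          eq_of_heq (Sigma.ext_iff.1 (hfix x hx _ ha)).2
        rw [eq_comm, QuotientGroup.eq, ← mul_assoc] at h3
        exact mem_stab.1 h3
      change (∃ τ', τ' • v0 S = ρ • v0 S ∧ Good τ') ↔
        ∃ τ', τ' • v0 S = ρ • (sig i)⁻¹ • v0 S ∧ Good τ'
      rw [← mul_smul, hG', hG']
      constructor
      · rintro ⟨k, hk, e⟩
        have hm' : ∀ x ∈ P, k x ∈ i.1.1 := fun x hx => by
          obtain ⟨a, ha, e'⟩ := h2 x hx
          rwa [lam_homFun_inj (hk.mem hx) (i.2.le ha) ((e x hx).trans e'.symm)]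
        refine ⟨_, i.2.comp hk hm', fun x hx => ?_⟩
        simp only [Function.comp_apply]
        rw [hsig i _ (hm' x hx), e x hx]
        group
      · rintro ⟨k, hk, e⟩
        obtain ⟨r, hr, hl', -⟩ := i.2.isIso_img.exists_symm
        have h3 : ∀ x ∈ P, ∃ a ∈ i.1.1, k x = i.1.2 a ∧
            homFun (lam S) a = ρ⁻¹ * homFun (lam S) (f x) * ρ := fun x hx => by
          obtain ⟨a, ha, e'⟩ := h2 x hx
          refine ⟨a, ha, lam_homFun_inj (hk.mem hx) (i.2.mem ha) ?_, e'⟩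
          rw [hsig i a ha, e', e x hx]
          group
        refine ⟨_, hr.mor.comp hk fun x hx => ?_, fun x hx => ?_⟩
        · obtain ⟨a, ha, e1, -⟩ := h3 x hx
          rw [e1]
          exact mem_img_of_mem _ ha
        · obtain ⟨a, ha, e1, e2⟩ := h3 x hx
          simp only [Function.comp_apply]
          rw [e1, hl' a ha, e2]
  · obtain ⟨u, hu⟩ := exists_conj_left_eq_one H
    refine ⟨u, fun h hh => ?_⟩
    have h2 := mem_lifts.1 (u * h * u⁻¹).2
    rw [hu h hh] at h2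
    obtain ⟨s, hs, e⟩ := smul_v0_iff.1 (Eq.symm h2)
    refine ⟨⟨s, hs⟩, Subtype.ext ?_⟩
    rw [← homFun_of_mem ι hs, hι s hs, e]
    ext1
    · exact (hu h hh).symm
    · rfl
  · rw [Subgroup.index_ker, ← Nat.card_perm]
    exact Subgroup.card_subgroup_dvd_card _

end Cfsg.Agent.S5286
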