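import Cfsg.Statements.S5287
import Cfsg.Agent.Lib.H6.SuperSol

set_option autoImplicit false
open Cfsg

namespace Cfsg.Agent.S5287

/-- Let S be a finite metacyclic p-group (an extension of a cyclic group by a cyclic group). Every saturated fusion system over S is supersoluble (S has a chain of F-strongly closed subgroups from 1 to S with cyclic steps) if and only if S is not homocyclic of rank two (isomorphic to Z/p^n × Z/p^n with n ≥ 1) and, when p = 2, S is not dihedral of order at least 4, not quasi-dihedral (semidihedral) and not generalized quaternion of order at least 8. -/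
theorem result {Ω : Type*} [Group Ω] {S : Subgroup Ω} [Finite S] (p : ℕ) [Fact p.Prime] (hS : IsPGroup p ↥S) (hm : Cfsg.IsMetacyclic ↥S) : (∀ F : Cfsg.FusionSystem S, F.IsSaturated p → (∃ (m : ℕ) (c : Fin (m + 1) → Subgroup Ω), c 0 = ⊥ ∧ c (Fin.last m) = S ∧ (∀ i : Fin (m + 1), F.StronglyClosed (c i)) ∧ ∀ i : Fin m, c i.castSucc ≤ c i.succ ∧ ∃ x ∈ S, c i.succ = c i.castSucc ⊔ Subgroup.zpowers x)) ↔ ¬ ((∃ n : ℕ, 0 < n ∧ Nonempty (↥S ≃* Multiplicative (ZMod (p ^ n)) × Multiplicative (ZMod (p ^ n)))) ∨ (p = 2 ∧ ((∃ n : ℕ, 2 ≤ n ∧ Nonempty (↥S ≃* DihedralGroup n)) ∨ Cfsg.IsQuasiDihedral ↥S ∨ (∃ n : ℕ, 2 ≤ n ∧ Nonempty (↥S ≃* QuaternionGroup n))))) := by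
  open H6 in
  constructor
  · rintro hall (⟨n, hn, ⟨e⟩⟩ | ⟨rfl, h⟩)
    · obtain ⟨F, hF, h⟩ := exists_not_sChain_homo hS hn e
      exact h (hall F hF)
    · obtain ⟨F, hF, h⟩ := exists_not_sChain_two hS h
      exact h (hall F hF)
  · intro hne F hF
    have key : p = 2 → ∀ n, ¬ (Nonempty (S ≃* DihedralGroup (2 ^ (n + 2))) ∨
        Nonempty (S ≃* QuaternionGroup (2 ^ (n + 1))) ∨ IsQuasiDihedral S) := by
      rintro hp n (h | h | h)
      · exact hne (Or.inr ⟨hp, Or.inl ⟨_, Nat.le_self_pow (by omega) 2, h⟩⟩)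
      · exact hne (Or.inr ⟨hp, Or.inr (Or.inr ⟨_, Nat.le_self_pow (by omega) 2, h⟩)⟩)
      · exact hne (Or.inr ⟨hp, Or.inr (Or.inl h)⟩)
    have hn := H9.isNormal_of_metacyclic hS hF F.stronglyClosed_top hm key
    rcases H9.metacyclic_trichotomy hS hm (F.autGroup S) with ⟨M, h1, h2, h3, h4⟩ | ⟨k, h⟩ | ⟨hp, n, h⟩
    · exact sChain_of_normal hS hm hn h1 h2 h3 h4
    · exact absurd (Or.inl ⟨k + 1, Nat.succ_pos k, h⟩) hne
    · exact absurd h (key hp n)

end Cfsg.Agent.S5287
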