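import Cfsg.Statements.S5291
import Cfsg.Agent.Lib.H7.Crit

set_option autoImplicit false
open Cfsg

namespace Cfsg.Agent.S5291

open Cfsg.FusionSystem Cfsg.Agent.H7 Cfsg.Agent.H8

/-- Let F be a saturated fusion system over a finite p-group S and E a weakly normal subsystem of F over a subgroup T. Suppose a subgroup R of T is normal in E (E = N_E(R)), and let R* be the subgroup of T generated by the images of R under all maps of F with source R. Then R* is normal in F (F = N_F(R*)). -/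
theorem result {Ω : Type*} [Group Ω] {S : Subgroup Ω} [Finite S] (p : ℕ) [Fact p.Prime] (hS : IsPGroup p S)
    (F : Cfsg.FusionSystem S) (hF : F.IsSaturated p)
    {T : Subgroup Ω} (E : Cfsg.FusionSystem T) (hE : E.IsWeaklyNormalIn F p)
    (R : Subgroup Ω) (hR : E.IsNormal R) :
    F.IsNormal (Subgroup.closure {x : Ω | ∃ φ ∈ F.Hom R, ∃ r : R, x = φ r}) := by
  have hi := hE.2.2
  have := finite_of_le hi.2.1.le
  have key : ∀ f, F.IsMor R f → E.IsNormal (img R f) := fun f hf => by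
    obtain ⟨a, f₀, ha, hf₀, e⟩ := hi.frattini hR.le hf
    obtain ⟨a', -, h⟩ := hi.exists_isoVia ha
    have h1 := (ha.mor.isIso_img_of_le hR.le).comp' (hi.1.isIso (hR.weaklyClosed.isIso hf₀))
    rw [hf.isIso_img.unique (h1.congr fun x hx => (e x hx).symm)]
    exact h.isNormal hR
  have e : Subgroup.closure {x : Ω | ∃ φ ∈ F.Hom R, ∃ r : R, x = φ r} =
      sSup {X | ∃ f, F.IsMor R f ∧ X = img R f} ⊔ ⊥ := by
    rw [sup_bot_eq]
    refine le_antisymm ((Subgroup.closure_le _).2 ?_) (sSup_le ?_)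
    · rintro _ ⟨φ, hφ, r, rfl⟩
      refine le_sSup (s := {X | ∃ f, F.IsMor R f ∧ X = img R f}) ⟨_, isMor_of_mem_Hom hφ, rfl⟩ ?_
      rw [← homFun_coe]
      exact mem_img_of_mem _ r.2
    · rintro _ ⟨f, hf, rfl⟩
      exact img_le_iff.2 fun x hx => Subgroup.subset_closure ⟨_, hf.toHom_mem, ⟨x, hx⟩, rfl⟩
  rw [sup_bot_eq] at e
  set U := sSup {X | ∃ f, F.IsMor R f ∧ X = img R f} with hU
  have hUE : E.IsNormal U := by
    have h1 := sSup_mem_of_sup_closed (S := T) (𝓒 := {X | E.IsNormal X ∧ X ≤ U})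
      (fun X hX => hX.1.le) ⟨⊥, E.isNormal_bot, bot_le⟩
      fun X hX Y hY => ⟨hX.1.sup hY.1, sup_le hX.2 hY.2⟩
    have h2 : U ≤ sSup {X | E.IsNormal X ∧ X ≤ U} := sSup_le fun X hX => le_sSup
      ⟨by obtain ⟨f, hf, rfl⟩ := hX; exact key f hf, le_sSup hX⟩
    exact le_antisymm h1.2 h2 ▸ h1.1
  rw [e]
  refine hF.isNormal_of_isInvariantIn hS hi hUE fun a ha => ?_
  have : U ≤ ha.mor.isHomOn.preim U := sSup_le (by
    rintro _ ⟨f, hf, rfl⟩
    refine img_le_iff.2 fun x hx => ?_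
    have h1 := hi.2.1.map_mem hf hx (hR.le hx)
    exact ⟨h1, le_sSup (s := {X | ∃ f, F.IsMor R f ∧ X = img R f})
      ⟨_, ha.mor.comp' hf fun y hy => hi.2.1.map_mem hf hy (hR.le hy), rfl⟩
      (mem_img_of_mem (fun x => a (f x)) hx)⟩)
  exact fun x hx => (this hx).2

end Cfsg.Agent.S5291
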