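import Cfsg.Statements.S5292
import Cfsg.Agent.Lib.H8.GroupSys
-- import your own Cfsg.Agent.* helpers here

set_option autoImplicit false
universe u
open Cfsg

namespace Cfsg.Agent.S5292

open Cfsg.FusionSystem Cfsg.Agent.H8 Cfsg.Agent.H7

/-- Let F be a saturated fusion system over a finite p-group S. Then F is the fusion system of some finite p-solvable group on a Sylow p-subgroup if and only if F is constrained (some subgroup normal in F is centric in F) and the group of automorphisms that F induces on its largest normal subgroup O_p(F) is p-solvable. -/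
theorem result {Ω : Type u} [Group Ω] {S : Subgroup Ω} [Finite S] (p : ℕ) [Fact p.Prime] (hS : IsPGroup p S)
    (F : Cfsg.FusionSystem S) (hF : F.IsSaturated p) :
    (∃ (G : Type u) (_ : Group G) (_ : Finite G) (ι : S →* G), Cfsg.IsPSolvable p G ∧ F.IsRealizedBy ι ∧
        ∃ T : Sylow p G, (T : Subgroup G) = ι.range) ↔
      (F.IsConstrained p ∧ Cfsg.IsPSolvable p ↥(F.autGroup F.core)) := by
  constructor
  · rintro ⟨G, _, _, ι, h0, h1, h2⟩
    obtain ⟨s, hs⟩ := h1.exists_isoVia
    have hW := sylowIn_top_iff.2 h2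
    obtain ⟨c, d, hc⟩ := group_isoVia_quotient hW (pPrimeCore p G) (H1.pPrimeCore_card_coprime p G)
    have h3 := isPSolvable_of_surjective (QuotientGroup.mk'_surjective (pPrimeCore p G)) h0
    have h4 := IsoVia.isModel (hs.trans hc) (sylowIn_map_top hW (QuotientGroup.mk'_surjective _))
      (centralizer_pCore_le h3 (H1.pPrimeCore_quotient_pPrimeCore p G))
    obtain ⟨π, hπ, -⟩ := Lead.model_exists_pi h4 F.isNormal_core
    exact ⟨h4.isConstrained, isPSolvable_of_surjective hπ h3⟩
  · rintro ⟨h1, h2⟩
    obtain ⟨G, _, ι, hm⟩ := Lead.exists_model hS h1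
    have := hm.1
    obtain ⟨π, hπ, h3⟩ := Lead.model_exists_pi hm F.isNormal_core
    refine ⟨G, inferInstance, this, ι, isPSolvable_of_ker hπ ?_ h2, hm.2.1, hm.2.2.1⟩
    refine hm.sylowIn.isPGroup.to_le fun g hg => ?_
    obtain ⟨s, rfl⟩ := Lead.model_pi_ker hS hm F.isNormal_core (isConstrained_iff.1 h1).2 h3 hg
    exact ⟨s, rfl⟩

end Cfsg.Agent.S5292
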