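import Cfsg.Statements.S5293
import Cfsg.Agent.Lib.Lead.CentSub

set_option autoImplicit false
open Cfsg

namespace Cfsg.Agent.S5293

/-- Let F be a saturated fusion system over a finite p-group S, E a normal subsystem of F over T ≤ S, and C the join of the subgroups X ≤ C_S(T) such that E is contained in the centralizer system C_F(X). Then for the centralizer fusion system C_F(T) over C_S(T), the focal subgroup of C_F(T) is contained in C. -/
theorem result {Ω : Type*} [Group Ω] {S : Subgroup Ω} [Finite S] (p : ℕ) [Fact p.Prime] (hS : IsPGroup p S)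
    (F : Cfsg.FusionSystem S) (hF : F.IsSaturated p)
    {T : Subgroup Ω} (E : Cfsg.FusionSystem T) (hE : E.IsNormalIn F p)
    (C : Subgroup Ω)
    (hC : C = sSup {X : Subgroup Ω | X ≤ Cfsg.FusionSystem.centralizerIn S T ∧ ∀ P : Subgroup Ω, E.Hom P ⊆ F.centralizerHom X P})
    (D : Cfsg.FusionSystem (Cfsg.FusionSystem.centralizerIn S T)) (hD : F.IsCentralizerSystem T D) :
    D.focalSubgroup ≤ C := by
  have h1 : Cfsg.Agent.Lead.CE E F p ≤ C := by
    rw [hC]
    exact le_sSup ⟨Cfsg.Agent.Lead.CE_le_centralizerIn, fun P =>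
      FusionSystem.hom_subset_centralizerHom_iff.2 fun f hf =>
        Cfsg.Agent.Lead.isCentMor_CE hF hS hE hf⟩
  refine le_trans (FusionSystem.focalSubgroup_le_iff.2 fun P f hf x hx => ?_) h1
  obtain ⟨hP, g, hg, e, hfix⟩ := (FusionSystem.isCentralizerSystem_iff.1 hD P f).1 hf
  rw [← e x hx]
  exact Cfsg.Agent.Lead.inv_mul_mem_CE hF hS hE hg le_sup_right hfix (Subgroup.mem_sup_left hx)
    (hP hx).2

end Cfsg.Agent.S5293
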