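import Cfsg.Statements.S5294
import Cfsg.Agent.Lib.H7.Trace

set_option autoImplicit false
universe u
open Cfsg

namespace Cfsg.Agent.S5294

open Cfsg.FusionSystem Cfsg.Agent.H7 Cfsg.Agent.H8

/-- Let F be a saturated fusion system over a finite p-group S whose centre Z(S) lies in the largest subgroup O_p(F) normal in F. Then the centre Z(F) of F is a direct factor of Z(S): there is a subgroup K of Z(S) with Z(F) ∩ K = 1 and Z(F)K = Z(S). -/
theorem result {Ω : Type u} [Group Ω] {S : Subgroup Ω} [Finite S] (p : ℕ) [Fact p.Prime] (hS : IsPGroup p S)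
    (F : Cfsg.FusionSystem S) (hF : F.IsSaturated p) (hZ : (S ⊓ Subgroup.centralizer (S : Set Ω)) ≤ F.core) :
    ∃ K : Subgroup Ω, K ≤ (S ⊓ Subgroup.centralizer (S : Set Ω)) ∧ F.center ⊓ K = ⊥ ∧ F.center ⊔ K = (S ⊓ Subgroup.centralizer (S : Set Ω)) := by
  have hV := F.isNormal_core.center
  have := finite_of_le hV.le
  have hZV : centralizerIn S S ≤ centralizerIn F.core F.core := fun x hx =>
    ⟨hZ hx, fun y hy => hx.2 y (F.core_le hy)⟩
  refine exists_complement_fixed (hS.to_le hV.le) (fun x hx y hy => hy.2 x hx.1)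
    (hF.sylowIn hS hV.isFullyNormalized) (fun x => ⟨fun hx => ⟨hZV hx, fun α hα => ?_⟩,
      fun hx => ⟨hV.le hx.1, fun s hs => ?_⟩⟩) fun x => ⟨fun hx => ?_, fun hx => ?_⟩
  · obtain ⟨a, ha, -, e⟩ := mem_autInducedBy_iff'.1 hα
    rw [e x (hZV hx), hx.2 a ha, mul_inv_cancel_right]
  · have := hx.2 _ (conjAut_mem_autInducedBy hs (hV.le_normalizer hs))
    rw [equivFun_conjAut _ hx.1, mul_inv_eq_iff_eq_mul] at this
    exact this
  · have hxV := hZV (F.center_le_centralizerIn hx)
    exact ⟨hxV, (hF.mem_center_iff_of_isNormal hS hV hxV).1 hx⟩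
  · exact (hF.mem_center_iff_of_isNormal hS hV hx.1).2 hx.2

end Cfsg.Agent.S5294
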