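import Cfsg.Statements.S5297
import Cfsg.Agent.Lib.H7.Small

set_option autoImplicit false
universe u
open Cfsg

namespace Cfsg.Agent.S5297

open Cfsg.FusionSystem Cfsg.Agent.H7 Cfsg.Agent.H8

/-- Let F be a saturated fusion system over a finite p-group S. If every map of F between cyclic subgroups of the hyperfocal subgroup of F of order p or 4 is a map of the normalizer system of S (it extends to a map of F defined on all of S), then S is normal in F. -/
theorem result {Ω : Type u} [Group Ω] {S : Subgroup Ω} [Finite S] (p : ℕ) [Fact p.Prime] (hS : IsPGroup p S)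
    (F : Cfsg.FusionSystem S) (hF : F.IsSaturated p)
    (h : ∀ A B : Subgroup Ω, A ≤ (F.hyperfocalSubgroup p) → B ≤ (F.hyperfocalSubgroup p) → IsCyclic ↥A → (Nat.card ↥A = p ∨ Nat.card ↥A = 4) → IsCyclic ↥B → (Nat.card ↥B = p ∨ Nat.card ↥B = 4) →
      F.homSet A B ⊆ F.normalizerHom S A) :
    F.IsNormal S := by
  refine hF.isNormal_top_of_small_ext hS fun x hx hs f hf => ?_
  rcases smallElt_cases hs with rfl | hc
  · exact ⟨id, F.isMor_id le_rfl, hf.map_one.symm⟩
  have hx' := Subgroup.mem_zpowers x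
  have hc' := hf.card_img
  rw [hf.img_zpowers] at hc'
  have := h (Subgroup.zpowers x) (Subgroup.zpowers (f x)) (Subgroup.zpowers_le.2 hx)
    (Subgroup.zpowers_le.2 ((stronglyClosed_hyp hF hS).map_mem hf hx' hx)) inferInstance hc
    inferInstance (hc'.symm ▸ hc) ⟨hf.toHom_mem, fun y => hf.img_zpowers ▸ mem_img_of_mem f y.2⟩
  obtain ⟨-, g, hg, e, -⟩ := (mem_normalizerHom_iff (f := f) fun _ _ => rfl).1 this
  exact ⟨g, hg.mono le_sup_right, e x hx'⟩

end Cfsg.Agent.S5297
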