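import Cfsg.Statements.S5298
import Cfsg.Agent.Lib.H7.Small

set_option autoImplicit false
universe u
open Cfsg

namespace Cfsg.Agent.S5298

open Cfsg.FusionSystem Cfsg.Agent.H7 Cfsg.Agent.H8

/-- Let F be a saturated fusion system over a finite p-group S. If every map of F between cyclic subgroups of the hyperfocal subgroup of F of order p or 4 is conjugation by an element of S, then F is the inner fusion system of S. -/
theorem result {Ω : Type u} [Group Ω] {S : Subgroup Ω} [Finite S] (p : ℕ) [Fact p.Prime] (hS : IsPGroup p S)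
    (F : Cfsg.FusionSystem S) (hF : F.IsSaturated p)
    (h : ∀ A B : Subgroup Ω, A ≤ (F.hyperfocalSubgroup p) → B ≤ (F.hyperfocalSubgroup p) → IsCyclic ↥A → (Nat.card ↥A = p ∨ Nat.card ↥A = 4) → IsCyclic ↥B → (Nat.card ↥B = p ∨ Nat.card ↥B = 4) →
      F.homSet A B ⊆ (Cfsg.innerFusionSystem S).Hom A) :
    ∀ P : Subgroup Ω, F.Hom P = (Cfsg.innerFusionSystem S).Hom P := by
  refine forall_hom_eq_iff.2 (hF.eq_inner_of_small_conj hS fun x hx hs f hf => ?_)
  rcases smallElt_cases hs with rfl | hc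
  · exact ⟨1, S.one_mem, by simp [hf.map_one]⟩
  have hx' := Subgroup.mem_zpowers x
  have hc' := hf.card_img
  rw [hf.img_zpowers] at hc'
  have := h (Subgroup.zpowers x) (Subgroup.zpowers (f x)) (Subgroup.zpowers_le.2 hx)
    (Subgroup.zpowers_le.2 ((stronglyClosed_hyp hF hS).map_mem hf hx' hx)) inferInstance hc
    inferInstance (hc'.symm ▸ hc) ⟨hf.toHom_mem, fun y => hf.img_zpowers ▸ mem_img_of_mem f y.2⟩
  obtain ⟨-, s, hs, e⟩ := innerFusionSystem_isMor.1
    (isMor_of_mem_Hom_of_eq (f := f) this fun _ => rfl)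
  exact ⟨s, hs, e x hx'⟩

end Cfsg.Agent.S5298
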