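import Cfsg.Statements.S5301
import Cfsg.Agent.Lib.H7.Crit

set_option autoImplicit false
universe u
open Cfsg

namespace Cfsg.Agent.S5301

open Cfsg.FusionSystem Cfsg.Agent.H7 Cfsg.Agent.H8

/-- Let F be a saturated fusion system over a finite p-group S. If for every subgroup P of S that is fully normalized, centric and radical in F the automorphism group that F induces on P has a normal Sylow p-subgroup, then S is normal in F. -/
theorem result {Ω : Type u} [Group Ω] {S : Subgroup Ω} [Finite S] (p : ℕ) [Fact p.Prime] (hS : IsPGroup p S)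
    (F : Cfsg.FusionSystem S) (hF : F.IsSaturated p)
    (hcl : ∀ P : Subgroup Ω, F.IsFullyNormalized P → F.IsCentric P → F.IsRadical p P →
      ∃ R : Sylow p ↥(F.autGroup P), (R : Subgroup ↥(F.autGroup P)).Normal) :
    F.IsNormal S := by
  refine (hF.isNormal_top_iff hS).2 fun P hP => ?_
  obtain ⟨R, hR⟩ := hcl P hP.isFullyNormalized hP.isCentric (hP.isRadical hS)
  have h1 : (R : Subgroup (F.autGroup P)).map (F.autGroup P).subtype ≤ Inn P := by
    rw [← (hP.isRadical hS).pCoreIn_eq]
    exact Subgroup.map_mono (H1.le_pCore hR R.isPGroup')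
  have h2 := (sylowIn_map_subtype R).max _ (isPGroup_autInducedBy hS P)
    (h1.trans (inn_le_autInducedBy hP.le)) (F.autInducedBy_le_autGroup hP.le le_rfl)
  exact (hP.lt hF hS).ne (eq_of_normalizerIn_le hS hP.le fun a ha =>
    (hP.isCentric.conjAut_mem_inn_iff ha.1 ha.2).1 (h1 (h2 (conjAut_mem_autInducedBy ha.1 ha.2))))

end Cfsg.Agent.S5301
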