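import Cfsg.Statements.S5321
import Cfsg.Agent.Lib.H8.Ico4
-- import your own Cfsg.Agent.* helpers here

set_option autoImplicit false
open Cfsg

namespace Cfsg.Agent.S5321

/-- For a finite group G isomorphic to the Hall–Janko group J₂ (as constructed in the problem's definitions), the 2-fusion system of G on a Sylow 2-subgroup is simple: saturated, over a nontrivial 2-group, with no normal subsystem other than the trivial one and itself. -/
theorem result {G : Type*} [Group G] [Finite G] (hG : Cfsg.Spor.IsoJ2 G) (S : Sylow 2 G) : (Cfsg.groupFusionSystem (S : Subgroup G)).IsSimple 2 := by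
  ----
    obtain ⟨e⟩ := hG
    refine H8.HQ.simpleFus_J2 ((e.symm.toMonoidHom.comp (QuotientGroup.mk' _)).comp
      H8.HQ.gamEquiv.toMonoidHom) ((e.symm.surjective.comp (QuotientGroup.mk'_surjective _)).comp
        H8.HQ.gamEquiv.surjective) ?_ S
    ext g
    simp only [MonoidHom.mem_ker, MonoidHom.comp_apply, MulEquiv.coe_toMonoidHom, map_eq_one_iff _
      e.symm.injective, QuotientGroup.mk'_apply, QuotientGroup.eq_one_iff]
    simp only [Subgroup.mem_center_iff, H8.HQ.gamEquiv.surjective.forall, ← map_mul,
      H8.HQ.gamEquiv.injective.eq_iff]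

end Cfsg.Agent.S5321
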