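import Cfsg.Statements.S5329
import Cfsg.Agent.Lib.Lead.Yoshida
import Cfsg.Agent.Lib.H8.Hyp

set_option autoImplicit false
open Cfsg

namespace Cfsg.Agent.S5329

/-- For a saturated fusion system F over a finite p-group S, the focal subgroup and the derived subgroup of S meet the centre Z(F) of the system in the same subgroup: foc(F) ∩ Z(F) = S′ ∩ Z(F). -/
theorem result {Ω : Type*} [Group Ω] {S : Subgroup Ω} [Finite S] (p : ℕ) [Fact p.Prime] (hS : IsPGroup p S) (F : Cfsg.FusionSystem S) (hF : F.IsSaturated p) : F.focalSubgroup ⊓ F.center = ⁅(S : Subgroup Ω), (S : Subgroup Ω)⁆ ⊓ F.center := by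
  refine le_antisymm ?_ (inf_le_inf_right _ (Cfsg.Agent.H8.commutator_le_focal F))
  rintro z ⟨hz1, hz2⟩
  have hzS := F.center_le hz2
  obtain ⟨T, hT1, hT2⟩ := Cfsg.Agent.Lead.map_eq_one_of_mem_focal_center hS hF
    (Abelianization.of : S →* Abelianization S) (z := ⟨z, hzS⟩) hz2
  have h := hT2 (hT1 _ hz1)
  refine ⟨?_, hz2⟩
  rw [← Subgroup.map_subtype_commutator]
  exact ⟨⟨z, hzS⟩, (QuotientGroup.eq_one_iff _).1 h, rfl⟩

end Cfsg.Agent.S5329
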