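import Cfsg.Statements.S5330
import Cfsg.Agent.Lib.H7.Trace

set_option autoImplicit false
open Cfsg

namespace Cfsg.Agent.S5330

open Cfsg.FusionSystem Cfsg.Agent.H7 Cfsg.Agent.H8

/-- Let F be a saturated fusion system over a finite abelian p-group S. Then S is the internal direct product of the centre of the system and the focal subgroup: Z(F) ∩ foc(F) = 1 and Z(F)·foc(F) = S. -/
theorem result {Ω : Type*} [Group Ω] {S : Subgroup Ω} [Finite S] (p : ℕ) [Fact p.Prime] (hS : IsPGroup p S) (F : Cfsg.FusionSystem S) (hF : F.IsSaturated p) (hab : ∀ x ∈ S, ∀ y ∈ S, x * y = y * x) : F.center ⊓ F.focalSubgroup = ⊥ ∧ F.center ⊔ F.focalSubgroup = S := by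
  have hn := hF.isNormal_top_of_abelian hS hab
  refine fixed_isCompl_commutator (B := F.autGroup S) hS hab ?_ (fun x => ⟨fun hx => ?_,
    fun hx => ?_⟩) fun R => ?_
  · intro hp
    refine (hF.sylowIn_top hS).ne_bot hp (eq_bot_iff.2 fun α hα => ?_)
    obtain ⟨a, ha, e⟩ := mem_inn_iff.1 hα
    exact MulEquiv.ext fun x => Subtype.ext (by
      rw [e x, hab a ha x x.2, mul_inv_cancel_right]; rfl)
  · exact ⟨F.center_le hx, (hF.mem_center_iff_of_isNormal hS hn (F.center_le hx)).1 hx⟩
  · exact (hF.mem_center_iff_of_isNormal hS hn hx.1).2 hx.2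
  · rw [focalSubgroup_le_iff]
    refine ⟨fun h α hα => h S _ (isMor_of_mem_autGroup le_rfl hα), fun h P f hf x hx => ?_⟩
    obtain ⟨g, -, e, hi⟩ := hn.exists_ext hf
    obtain ⟨α, hα, e'⟩ := hi.exists_aut
    rw [← e x hx, ← e' x (hf.le hx)]
    exact h α hα x (hf.le hx)

end Cfsg.Agent.S5330
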