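import Cfsg.Statements.S5331
import Cfsg.Agent.Lib.H7.Crit
import Cfsg.Agent.Lib.H9.AutChain

set_option autoImplicit false
open Cfsg

namespace Cfsg.Agent.S5331

open Cfsg.FusionSystem Cfsg.Agent.H7 Cfsg.Agent.H8

theorem even_or_odd' {m : ℕ} [NeZero m] (x : ZMod m) : (∃ w, x = 2 * w) ∨ ∃ w, x = 2 * w + 1 := by
  rcases Nat.even_or_odd' x.val with ⟨w, h | h⟩
  · exact Or.inl ⟨w, by rw [← ZMod.natCast_zmod_val x, h]; push_cast; rfl⟩
  · exact Or.inr ⟨w, by rw [← ZMod.natCast_zmod_val x, h]; push_cast; rfl⟩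

theorem even_of_mul {a k : ℕ} (h : k < a) {y : ZMod (2 ^ a)} (hy : 2 ^ k • y = 0) :
    ∃ w, y = 2 * w := by
  rw [← ZMod.natCast_zmod_val y, nsmul_eq_mul, ← Nat.cast_mul, ZMod.natCast_eq_zero_iff] at hy
  have h1 : 2 ^ k * 2 ∣ 2 ^ k * y.val := (pow_succ 2 k ▸ pow_dvd_pow 2 h).trans hy
  obtain ⟨w, hw⟩ := Nat.dvd_of_mul_dvd_mul_left (by positivity) h1
  exact ⟨w, by rw [← ZMod.natCast_zmod_val y, hw]; push_cast; rfl⟩

def KK (M : Type*) [CommGroup M] (k : ℕ) : Subgroup M where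
  carrier := {x | ∃ y z, y ^ 2 ^ k = 1 ∧ x = y * z ^ 2}
  mul_mem' := by
    rintro _ _ ⟨y, z, h, rfl⟩ ⟨y', z', h', rfl⟩
    exact ⟨y * y', z * z', by rw [mul_pow, h, h', one_mul], by rw [mul_pow, mul_mul_mul_comm]⟩
  one_mem' := ⟨1, 1, one_pow _, by simp⟩
  inv_mem' := by
    rintro _ ⟨y, z, h, rfl⟩
    exact ⟨y⁻¹, z⁻¹, by rw [inv_pow, h, inv_one], by rw [mul_inv, inv_pow]⟩

theorem mem_KK {n : ℕ} {a : Fin n → ℕ} {k : ℕ} {x : Multiplicative ((i : Fin n) → ZMod (2 ^ a i))} :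
    x ∈ KK _ k ↔ ∀ i, k < a i → ∃ w, x.toAdd i = 2 * w := by
  constructor
  · rintro ⟨y, z, h, rfl⟩ i hi
    obtain ⟨w, hw⟩ := even_of_mul hi (y := y.toAdd i) (by
      have := congrFun (congrArg Multiplicative.toAdd h) i
      rwa [toAdd_pow] at this)
    refine ⟨w + z.toAdd i, ?_⟩
    rw [toAdd_mul, toAdd_pow, Pi.add_apply, hw, Pi.smul_apply, nsmul_eq_mul]
    push_cast; ring
  · intro h
    choose! w hw using h
    refine ⟨Multiplicative.ofAdd fun i => if k < a i then 0 else x.toAdd i,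
      Multiplicative.ofAdd fun i => if k < a i then w i else 0, ?_, ?_⟩
    · apply Multiplicative.toAdd.injective
      funext i
      rw [toAdd_pow, toAdd_ofAdd, toAdd_one, Pi.smul_apply, Pi.zero_apply]
      split_ifs with hi
      · simp
      · obtain ⟨d, hd⟩ := Nat.exists_eq_add_of_le (not_lt.1 hi)
        rw [nsmul_eq_mul, hd, pow_add, Nat.cast_mul, ZMod.natCast_self, zero_mul, zero_mul]
    · apply Multiplicative.toAdd.injective
      funext i
      rw [toAdd_mul, toAdd_pow, toAdd_ofAdd, toAdd_ofAdd, Pi.add_apply, Pi.smul_apply]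
      split_ifs with hi
      · rw [hw i hi, nsmul_eq_mul, zero_add]; rfl
      · simp

theorem isPGroup_pi {n : ℕ} (a : Fin n → ℕ) :
    IsPGroup 2 (Multiplicative ((i : Fin n) → ZMod (2 ^ a i))) := by
  intro x
  refine ⟨∑ i, a i, ?_⟩
  apply Multiplicative.toAdd.injective
  funext i
  obtain ⟨d, hd⟩ := Nat.exists_eq_add_of_le
    (Finset.single_le_sum (f := a) (fun _ _ => Nat.zero_le _) (Finset.mem_univ i))
  rw [toAdd_pow, toAdd_one, Pi.smul_apply, Pi.zero_apply, nsmul_eq_mul, hd, pow_add, Nat.cast_mul,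
    ZMod.natCast_self, zero_mul, zero_mul]

theorem isPGroup_aut {n : ℕ} {a : Fin n → ℕ} (ha : StrictMono a) :
    IsPGroup 2 (⊤ : Subgroup (MulAut (Multiplicative ((i : Fin n) → ZMod (2 ^ a i))))) := by
  have hinv : ∀ k, H9.AInv ⊤ (KK (Multiplicative ((i : Fin n) → ZMod (2 ^ a i))) k) := by
    rintro k α - _ ⟨y, z, h, rfl⟩
    exact ⟨α y, α z, by rw [← map_pow, h, map_one], by rw [map_mul, map_pow]⟩
  refine H9.isPGroup_of_chain (isPGroup_pi a) (KK _) (∑ i, a i) _ le_rfl (fun i _ => hinv i) ?_ ?_ ?_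
  · rintro _ ⟨y, z, h, rfl⟩
    rw [pow_zero, pow_one] at h
    rw [h, one_mul]
    refine H9.pow_mem_Phi (mem_KK.2 fun i hi => absurd hi (not_lt.2 ?_))
    exact Finset.single_le_sum (f := a) (fun _ _ => Nat.zero_le _) (Finset.mem_univ i)
  · refine eq_top_iff.2 fun x _ => mem_KK.2 fun i hi => absurd hi (not_lt.2 ?_)
    exact Finset.single_le_sum (f := a) (fun _ _ => Nat.zero_le _) (Finset.mem_univ i)
  · intro α hα k _ x hx
    by_cases hxk : x ∈ KK _ k
    · exact (KK _ k).mul_mem ((KK _ k).inv_mem hxk) (hinv k α hα x hxk)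
    have hxk' : α x ∉ KK _ k := fun h => hxk (((hinv k).mem_iff hα).1 h)
    have hx' := hinv _ α hα x hx
    rw [mem_KK] at hxk hxk' hx hx' ⊢
    push Not at hxk hxk'
    obtain ⟨j, hj, hj1⟩ := hxk
    obtain ⟨j', hj', hj1'⟩ := hxk'
    have e1 : a j = k + 1 := by
      by_contra hne
      obtain ⟨w, hw⟩ := hx j (by omega)
      exact hj1 w hw
    have e2 : a j' = k + 1 := by
      by_contra hne
      obtain ⟨w, hw⟩ := hx' j' (by omega)
      exact hj1' w hw
    obtain rfl : j = j' := ha.injective (e1.trans e2.symm)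
    intro i hi
    rw [toAdd_mul, toAdd_inv, Pi.add_apply, Pi.neg_apply]
    by_cases hij : i = j
    · subst hij
      obtain ⟨w, hw⟩ := (even_or_odd' (x.toAdd i)).resolve_left (by simpa using hj1)
      obtain ⟨w', hw'⟩ := (even_or_odd' ((α x).toAdd i)).resolve_left (by simpa using hj1')
      exact ⟨w' - w, by rw [hw, hw']; ring⟩
    · have hi' : k + 1 < a i := by
        have : a i ≠ a j := fun h => hij (ha.injective h)
        omega
      obtain ⟨w, hw⟩ := hx i hi'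
      obtain ⟨w', hw'⟩ := hx' i hi'
      exact ⟨w' - w, by rw [hw, hw']; ring⟩

/-- Let S be a finite abelian 2-group that is a direct product of cyclic groups of pairwise distinct orders 2^{a_1} < 2^{a_2} < ⋯ < 2^{a_n} (all a_i ≥ 1). Then every saturated fusion system over S is the inner one: its maps are exactly the conjugations by elements of S. -/
theorem result {Ω : Type*} [Group Ω] {S : Subgroup Ω} [Finite S] (n : ℕ) (a : Fin n → ℕ) (ha : StrictMono a) (ha1 : ∀ i, 1 ≤ a i) (e : ↥S ≃* Multiplicative ((i : Fin n) → ZMod (2 ^ a i))) (F : Cfsg.FusionSystem S) (hF : F.IsSaturated 2) (P : Subgroup Ω) : F.Hom P = (Cfsg.innerFusionSystem S).Hom P := by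
  have hS : IsPGroup 2 S := (isPGroup_pi a).of_equiv e.symm
  have hab : ∀ x ∈ S, ∀ y ∈ S, x * y = y * x := fun x hx y hy =>
    congrArg Subtype.val (e.injective (show e (⟨x, hx⟩ * ⟨y, hy⟩) = e (⟨y, hy⟩ * ⟨x, hx⟩) by
      rw [map_mul, map_mul, mul_comm]))
  have hA : IsPGroup 2 (MulAut S) :=
    ((isPGroup_aut ha).of_equiv Subgroup.topEquiv).of_equiv (MulAut.congr e).symm
  rw [hF.eq_inner_of_isNormal hS (hF.isNormal_top_of_abelian hS hab) (hA.to_subgroup _)]

end Cfsg.Agent.S5331
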